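import Cfsg.Agent.H2.AutPSp.Exceptional
import Cfsg.Agent.H2.Card

/-!
The order of the automorphism group of PSp.
-/

set_option autoImplicit false

namespace Cfsg.Agent.H2.AutPSp

open Matrix

variable {m : ℕ} {F : Type*} [Field F]

/-- Number of field automorphisms. -/
theorem card_ringAut [Fintype F] {p f : ℕ} [Fact p.Prime] (hF : Fintype.card F = p ^ f) (hf : 1 ≤ f) :
    Nat.card (F ≃+* F) = f := by
  have hchar : CharP F p := by
    have h0 : ((p : F)) ^ f = 0 := by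
      rw [← Nat.cast_pow, ← hF]
      exact Nat.cast_card_eq_zero F
    have h1 : ((p : F)) = 0 := eq_zero_of_pow_eq_zero h0
    obtain ⟨r, hr⟩ := CharP.exists F
    have hd := (CharP.cast_eq_zero_iff F r p).mp h1
    have hrp : r = p := (Nat.prime_dvd_prime_iff_eq (CharP.char_is_prime F r) Fact.out).mp hd
    exact hrp ▸ hr
  let alg : Algebra (ZMod p) F := ZMod.algebra F p
  letI := alg
  let e : (F ≃+* F) ≃ (F ≃ₐ[ZMod p] F) :=
    { toFun := fun σ => AlgEquiv.ofRingEquiv (f := σ) (fun r =>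
        DFunLike.congr_fun (RingHom.ext_zmod ((σ : F →+* F).comp (algebraMap (ZMod p) F))
          (algebraMap (ZMod p) F)) r)
      invFun := fun σ => σ.toRingEquiv
      left_inv := fun σ => by ext x; rfl
      right_inv := fun σ => by ext x; rfl }
  rw [Nat.card_congr e, IsGalois.card_aut_eq_finrank]
  have h := Module.card_eq_pow_finrank (K := ZMod p) (V := F)
  rw [hF, ZMod.card] at h
  exact (Nat.pow_right_injective (Fact.out : p.Prime).two_le h).symm

/-- A symplectic matrix as an element of GL. -/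
def spUnit (s : Matrix.symplecticGroup (Fin m) F) : GL (Fin m ⊕ Fin m) F :=
  ⟨(s : Matrix (Fin m ⊕ Fin m) (Fin m ⊕ Fin m) F),
    ((s⁻¹ : Matrix.symplecticGroup (Fin m) F) : Matrix (Fin m ⊕ Fin m) (Fin m ⊕ Fin m) F),
    by rw [← Submonoid.coe_mul, mul_inv_cancel, Submonoid.coe_one],
    by rw [← Submonoid.coe_mul, inv_mul_cancel, Submonoid.coe_one]⟩

/-- Diagonal similitude of multiplier `k`. -/
def multDiag (m : ℕ) (k : Fˣ) : GL (Fin m ⊕ Fin m) F :=
  ⟨Matrix.diagonal (Sum.elim (fun _ => (k : F)) fun _ => 1),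
    Matrix.diagonal (Sum.elim (fun _ => ((k⁻¹ : Fˣ) : F)) fun _ => 1),
    by rw [Matrix.diagonal_mul_diagonal, ← Matrix.diagonal_one]; congr 1; funext i; rcases i with i | i <;> simp,
    by rw [Matrix.diagonal_mul_diagonal, ← Matrix.diagonal_one]; congr 1; funext i; rcases i with i | i <;> simp⟩

theorem multDiag_sim (k : Fˣ) (u v : Fin m ⊕ Fin m → F) :
    Cfsg.sympForm m F ((multDiag m k : Matrix (Fin m ⊕ Fin m) (Fin m ⊕ Fin m) F) *ᵥ u)
      ((multDiag m k : Matrix (Fin m ⊕ Fin m) (Fin m ⊕ Fin m) F) *ᵥ v) = (k : F) * Cfsg.sympForm m F u v := by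
  simp only [multDiag, sympForm_apply, Matrix.mulVec_diagonal, Sum.elim_inl, Sum.elim_inr, one_mul, Finset.mul_sum]
  exact Finset.sum_congr rfl fun i _ => by ring

/-- The order of the similitude group. -/
theorem card_gsp [Finite F] (hm : 1 ≤ m) :
    Nat.card (Cfsg.GSp m F) = Nat.card Fˣ * Nat.card (Matrix.symplecticGroup (Fin m) F) := by
  rw [← Nat.card_prod]
  refine (Nat.card_congr (Equiv.ofBijective (fun x : Fˣ × Matrix.symplecticGroup (Fin m) F =>
    (⟨multDiag m x.1 * spUnit x.2, ⟨x.1, fun u v => by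
      rw [Units.val_mul, ← Matrix.mulVec_mulVec, ← Matrix.mulVec_mulVec, multDiag_sim]
      congr 1
      exact sympForm_mulVec x.2 u v⟩⟩ : Cfsg.GSp m F)) ⟨?_, ?_⟩)).symm
  · rintro ⟨k, s⟩ ⟨k', s'⟩ h
    have h1 := congrArg (fun g : Cfsg.GSp m F => ((g.1 : GL (Fin m ⊕ Fin m) F) : Matrix (Fin m ⊕ Fin m) (Fin m ⊕ Fin m) F)) h
    simp only [Units.val_mul] at h1
    have hk : k = k' := by
      have h2 : ∀ u v, (k : F) * Cfsg.sympForm m F u v = (k' : F) * Cfsg.sympForm m F u v := fun u v => by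
        rw [← sympForm_mulVec s u v, ← multDiag_sim, Matrix.mulVec_mulVec, Matrix.mulVec_mulVec,
          show ((spUnit s : GL (Fin m ⊕ Fin m) F) : Matrix (Fin m ⊕ Fin m) (Fin m ⊕ Fin m) F) = s from rfl] at *
        rw [show (multDiag m k : Matrix (Fin m ⊕ Fin m) (Fin m ⊕ Fin m) F) * s = _ from h1,
          ← Matrix.mulVec_mulVec, ← Matrix.mulVec_mulVec, multDiag_sim,
          show ((spUnit s' : GL (Fin m ⊕ Fin m) F) : Matrix (Fin m ⊕ Fin m) (Fin m ⊕ Fin m) F) = s' from rfl,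
          sympForm_mulVec, sympForm_mulVec]
      obtain ⟨x, hx⟩ := exists_sympForm_eq_one
        (show (Pi.single (Sum.inl ⟨0, hm⟩) 1 : Fin m ⊕ Fin m → F) ≠ 0 by simp)
      exact Units.ext (by simpa [hx] using h2 x (Pi.single (Sum.inl ⟨0, hm⟩) 1))
    subst hk
    refine Prod.ext rfl (Subtype.ext ?_)
    have h3 := congrArg (fun A => ((multDiag m k)⁻¹ : GL (Fin m ⊕ Fin m) F).1 * A) h1
    simpa [← mul_assoc, spUnit] using h3
  · rintro ⟨g, k, hk⟩
    have hs : (((multDiag m k)⁻¹ * g : GL (Fin m ⊕ Fin m) F) : Matrix (Fin m ⊕ Fin m) (Fin m ⊕ Fin m) F) ∈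
        Matrix.symplecticGroup (Fin m) F := by
      rw [mem_symplecticGroup_iff]
      intro u v
      refine mul_left_cancel₀ k.ne_zero ?_
      rw [← multDiag_sim, Matrix.mulVec_mulVec, Matrix.mulVec_mulVec, ← Units.val_mul,
        mul_inv_cancel_left, hk]
    refine ⟨(k, ⟨_, hs⟩), Subtype.ext (Units.ext ?_)⟩
    show (multDiag m k : Matrix (Fin m ⊕ Fin m) (Fin m ⊕ Fin m) F) * _ = _
    rw [show ((spUnit ⟨_, hs⟩ : GL (Fin m ⊕ Fin m) F) : Matrix (Fin m ⊕ Fin m) (Fin m ⊕ Fin m) F) =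
      (((multDiag m k)⁻¹ * g : GL (Fin m ⊕ Fin m) F) : Matrix (Fin m ⊕ Fin m) (Fin m ⊕ Fin m) F) from rfl,
      ← Units.val_mul, mul_inv_cancel_left]

/-- The number of automorphisms preserving transvections. -/
theorem card_preserving [Finite F] (hm : 2 ≤ m) :
    Nat.card {α : MulAut (Cfsg.PSp m F) // ∀ x, IsPTransv x → IsPTransv (α x)} * Nat.card Fˣ =
      Nat.card (Cfsg.GSp m F) * Nat.card (F ≃+* F) := by
  classical
  rw [← Nat.card_prod, ← Nat.card_prod]
  choose g hg σ hgσ using fun α : {α : MulAut (Cfsg.PSp m F) // ∀ x, IsPTransv x → IsPTransv (α x)} =>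
    exists_semilinear_of_preserves hm α.1 α.2
  have hscal : ∀ (a : Fˣ) α, Matrix.GeneralLinearGroup.scalar _ a * g α ∈ Cfsg.GSp m F := fun a α =>
    mul_mem ⟨a * a, fun u v => by
      show Cfsg.sympForm m F (Matrix.scalar _ (a : F) *ᵥ u) (Matrix.scalar _ (a : F) *ᵥ v) = _
      rw [show Matrix.scalar (Fin m ⊕ Fin m) (a : F) = (a : F) • 1 by simp [Matrix.smul_one_eq_diagonal],
        Matrix.smul_mulVec, Matrix.smul_mulVec, Matrix.one_mulVec, Matrix.one_mulVec, ← sympBilin_apply]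
      simp only [map_smul, LinearMap.smul_apply, sympBilin_apply, smul_eq_mul, Units.val_mul, mul_assoc]⟩ (hg α)
  refine Nat.card_congr (Equiv.ofBijective (fun x =>
    ((⟨_, hscal x.2 x.1⟩ : Cfsg.GSp m F), σ x.1)) ⟨?_, ?_⟩)
  · rintro ⟨α, a⟩ ⟨β, b⟩ h
    obtain ⟨h1, h2⟩ := Prod.ext_iff.mp h
    have h1' : Matrix.GeneralLinearGroup.scalar _ a * g α = Matrix.GeneralLinearGroup.scalar _ b * g β :=
      congrArg Subtype.val h1
    have hαβ : α = β := Subtype.ext (by
      rw [hgσ α, hgσ β]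
      refine (semiAut_eq_iff hm _ _ _ _).mpr ⟨h2, b⁻¹ * a, ?_⟩
      rw [map_mul, mul_assoc, h1', ← mul_assoc, ← map_mul, inv_mul_cancel, map_one, one_mul])
    subst hαβ
    refine Prod.ext rfl (Units.ext ?_)
    have h3 := congrArg Units.val (mul_right_cancel h1')
    have h4 := congrFun (congrFun h3 (Sum.inl ⟨0, by omega⟩)) (Sum.inl ⟨0, by omega⟩)
    simpa using h4
  · rintro ⟨⟨g', hg'⟩, σ'⟩
    let α : {α : MulAut (Cfsg.PSp m F) // ∀ x, IsPTransv x → IsPTransv (α x)} :=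
      ⟨semiAut g' hg' σ', fun x => isPTransv_semiAut hg' σ'⟩
    obtain ⟨hσ, a, ha⟩ := (semiAut_eq_iff hm (hg α) hg' (σ α) σ').mp (hgσ α).symm
    exact ⟨(α, a), Prod.ext (Subtype.ext ha.symm) hσ⟩

/-- Two automorphisms not preserving transvections differ by one that does. -/
theorem preserves_inv_mul [Finite F] (h2 : (2 : F) = 0) {γ α : MulAut (Cfsg.PSp 2 F)}
    (hα : ¬ ∀ x, IsPTransv x → IsPTransv (α x)) (hγ : ¬ ∀ x, IsPTransv x → IsPTransv (γ x)) :
    ∀ x, IsPTransv x → IsPTransv ((γ⁻¹ * α) x) := by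
  have hex : ∀ α : MulAut (Cfsg.PSp 2 F), ¬ (∀ x, IsPTransv x → IsPTransv (α x)) →
      ∀ x, IsPTransv x → IsConj (QuotientGroup.mk' _ (shortElt F)) (α x) := by
    intro α hα x hx
    push Not at hα
    obtain ⟨x₁, hx₁, hx₁'⟩ := hα
    exact ((isPTransv_or_short h2 α hx₁).resolve_left hx₁').trans
      (MonoidHom.map_isConj α.toMonoidHom (isConj_of_isPTransv h2 hx₁ hx))
  have hconj : ∀ {x y : Cfsg.PSp 2 F}, IsConj x y → IsPTransv x → IsPTransv y := fun {x y} h hx => by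
    obtain ⟨c, rfl⟩ := isConj_iff.mp h
    exact hx.conj c
  intro x hx
  have h := MonoidHom.map_isConj γ.symm.toMonoidHom ((hex γ hγ x hx).symm.trans (hex α hα x hx))
  refine hconj ?_ hx
  simpa using h

/-- Automorphisms of PSp_4 in characteristic two come in two cosets. -/
theorem card_aut_two [Finite F] (h2 : (2 : F) = 0) :
    Nat.card (MulAut (Cfsg.PSp 2 F)) =
      2 * Nat.card {α : MulAut (Cfsg.PSp 2 F) // ∀ x, IsPTransv x → IsPTransv (α x)} := by
  classical
  set γ := dualAut h2 with hγ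
  let P := {α : MulAut (Cfsg.PSp 2 F) // ∀ x, IsPTransv x → IsPTransv (α x)}
  have hγα : ∀ α : MulAut (Cfsg.PSp 2 F), ¬ (∀ x, IsPTransv x → IsPTransv (α x)) →
      ∀ x, IsPTransv x → IsPTransv ((γ⁻¹ * α) x) := fun α hα =>
    preserves_inv_mul h2 hα (not_preserves_dualAut h2)
  have hnot : ∀ β : P, ¬ ∀ x, IsPTransv x → IsPTransv ((γ * β.1) x) := fun β h =>
    not_preserves_dualAut h2 fun x hx => by
      have := h _ (isPTransv_symm β.1 β.2 x hx)
      simpa using this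
  refine Eq.trans (Nat.card_congr (Equiv.ofBijective
    (fun x : Bool × P => if x.1 then γ * x.2.1 else x.2.1) ⟨?_, ?_⟩)).symm (by rw [Nat.card_prod]; simp [P])
  · rintro ⟨a, α⟩ ⟨b, β⟩ h
    cases a <;> cases b <;> simp at h
    · exact Prod.ext rfl (Subtype.ext h)
    · exact absurd (h ▸ α.2) (hnot β)
    · exact absurd (h ▸ β.2) (hnot α)
    · exact Prod.ext rfl (Subtype.ext h)
  · intro α
    by_cases h : ∀ x, IsPTransv x → IsPTransv (α x)
    · exact ⟨(false, ⟨α, h⟩), rfl⟩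
    · exact ⟨(true, ⟨γ⁻¹ * α, hγα α h⟩), by simp⟩

/-- The order of the automorphism group. -/
theorem card_mulAut_psp [Fintype F] {p f : ℕ} [Fact p.Prime] (hf : 1 ≤ f) (hF : Fintype.card F = p ^ f)
    (hm : 2 ≤ m) :
    Nat.card (MulAut (Cfsg.PSp m F)) =
      (if m = 2 ∧ p = 2 then 2 else 1) * Nat.gcd 2 (p ^ f - 1) * f * Nat.card (Cfsg.PSp m F) := by
  classical
  set P := {α : MulAut (Cfsg.PSp m F) // ∀ x, IsPTransv x → IsPTransv (α x)}
  have hu : 0 < Nat.card Fˣ := Nat.card_pos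
  have hP : Nat.card P = Nat.gcd 2 (p ^ f - 1) * f * Nat.card (Cfsg.PSp m F) := by
    refine Nat.eq_of_mul_eq_mul_right hu ?_
    rw [card_preserving hm, card_gsp (by omega), card_ringAut hF hf,
      Subgroup.card_eq_card_quotient_mul_card_subgroup (Subgroup.center (Matrix.symplecticGroup (Fin m) F)),
      card_center_sp (by omega), Nat.card_eq_fintype_card (α := F), hF]
    unfold Cfsg.PSp
    ring
  have h2iff : (2 : F) = 0 ↔ p = 2 := by
    have hp : ringChar F = p := by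
      obtain ⟨n, hr, hn⟩ := FiniteField.card F (ringChar F)
      have hd : p ∣ ringChar F ^ (n : ℕ) := by rw [← hn, hF]; exact dvd_pow_self p (by omega)
      exact ((Nat.prime_dvd_prime_iff_eq Fact.out hr).mp ((Fact.out : p.Prime).dvd_of_dvd_pow hd)).symm
    constructor
    · intro h
      have h1 : ringChar F ∣ 2 := (ringChar.spec F 2).mp (by exact_mod_cast h)
      rw [hp] at h1
      exact (Nat.prime_dvd_prime_iff_eq Fact.out Nat.prime_two).mp h1
    · intro h
      have h1 := (ringChar.spec F 2).mpr (by rw [hp, h])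
      exact_mod_cast h1
  by_cases hexc : m = 2 ∧ p = 2
  · obtain ⟨rfl, hp2⟩ := hexc
    rw [if_pos ⟨rfl, hp2⟩, card_aut_two (h2iff.mpr hp2)]
    rw [hP]; ring
  · rw [if_neg hexc, one_mul, ← hP]
    exact (Nat.card_congr (Equiv.subtypeUnivEquiv fun α => fun x hx =>
      isPTransv_map hm (fun h => fun h0 => hexc ⟨h, h2iff.mp h0⟩) α hx)).symm

end Cfsg.Agent.H2.AutPSp
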