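import Cfsg.Agent.H2.AutPSp.Structure
import Cfsg.Agent.H23.GaloisDescent

/-!
Inner-diagonal automorphisms and standard field automorphisms of PSp.
-/

set_option autoImplicit false

namespace Cfsg.Agent.H2.AutPSp

open Matrix

variable {m : ℕ} {F : Type*} [Field F]

/-- Similitudes in terms of matrices. -/
theorem mem_gsp_iff {g : GL (Fin m ⊕ Fin m) F} :
    g ∈ Cfsg.GSp m F ↔ ∃ c : Fˣ, (g : Matrix (Fin m ⊕ Fin m) (Fin m ⊕ Fin m) F)ᵀ * J (Fin m) F *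
      (g : Matrix (Fin m ⊕ Fin m) (Fin m ⊕ Fin m) F) = (c : F) • J (Fin m) F := by
  have key : ∀ u v, Cfsg.sympForm m F ((g : Matrix (Fin m ⊕ Fin m) (Fin m ⊕ Fin m) F) *ᵥ u)
      ((g : Matrix (Fin m ⊕ Fin m) (Fin m ⊕ Fin m) F) *ᵥ v) =
      u ⬝ᵥ (((g : Matrix (Fin m ⊕ Fin m) (Fin m ⊕ Fin m) F)ᵀ * J (Fin m) F *
        (g : Matrix (Fin m ⊕ Fin m) (Fin m ⊕ Fin m) F)) *ᵥ v) := by
    intro u v
    rw [Cfsg.sympForm, ← Matrix.mulVec_mulVec, ← Matrix.mulVec_mulVec, Matrix.dotProduct_mulVec u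
      (g : Matrix (Fin m ⊕ Fin m) (Fin m ⊕ Fin m) F)ᵀ, Matrix.vecMul_transpose]
  refine ⟨fun ⟨c, hc⟩ => ⟨c, ?_⟩, fun ⟨c, hc⟩ => ⟨c, fun u v => ?_⟩⟩
  · ext i j
    have := (key (Pi.single i 1) (Pi.single j 1)).symm.trans (hc _ _)
    simpa [Cfsg.sympForm] using this
  · rw [key, hc, Matrix.smul_mulVec, dotProduct_smul, smul_eq_mul]
    rfl

/-- The inner-diagonal automorphisms as a homomorphism from the similitude group. -/
noncomputable def diagHom (m : ℕ) (F : Type*) [Field F] [Finite F] :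
    Cfsg.GSp m F →* MulAut (Cfsg.PSp m F) :=
  MonoidHom.mk' (fun g => semiAut g.1 g.2 (RingEquiv.refl F)) fun g g' => by
    rw [semiAut_mul]
    exact semiAut_congr _ _ (congrArg (g.1 * ·) (Units.ext (by simp [coe_glMap])).symm) (RingEquiv.ext fun x => rfl)

theorem inndiag_eq_range [Finite F] : Cfsg.inndiagPSp m F = (diagHom m F).range := by
  refine le_antisymm ?_ fun _ ⟨g, hg⟩ => Subgroup.subset_closure ?_
  · refine (Subgroup.closure_le _).mpr ?_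
    rintro β ⟨g, hg, hβ⟩
    refine ⟨⟨g, hg⟩, MulEquiv.ext fun x => ?_⟩
    obtain ⟨s, rfl⟩ := QuotientGroup.mk'_surjective _ x
    exact (hβ s (semiHom g hg (RingEquiv.refl F) s) rfl).symm
  · subst hg
    exact ⟨g.1, g.2, semiAut_induced _ _ _⟩

theorem mem_inndiag_iff [Finite F] {δ : MulAut (Cfsg.PSp m F)} :
    δ ∈ Cfsg.inndiagPSp m F ↔ ∃ (g : GL (Fin m ⊕ Fin m) F) (hg : g ∈ Cfsg.GSp m F),
      δ = semiAut g hg (RingEquiv.refl F) := by
  rw [inndiag_eq_range]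
  exact ⟨fun ⟨g, hg⟩ => ⟨g.1, g.2, hg.symm⟩, fun ⟨g, hg, h⟩ => ⟨⟨g, hg⟩, h.symm⟩⟩

theorem inn_le_inndiag [Finite F] : Cfsg.Inn (Cfsg.PSp m F) ≤ Cfsg.inndiagPSp m F := by
  rintro _ ⟨x, rfl⟩
  obtain ⟨s, rfl⟩ := QuotientGroup.mk'_surjective _ x
  exact mem_inndiag_iff.mpr ⟨_, spUnit_mem s, (semiAut_spUnit s).symm⟩

/-- In characteristic two every inner-diagonal automorphism is inner. -/
theorem inndiag_eq_inn_of_two [Finite F] (hm : 2 ≤ m) (h2 : (2 : F) = 0) :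
    Cfsg.inndiagPSp m F = Cfsg.Inn (Cfsg.PSp m F) := by
  refine le_antisymm (fun δ hδ => ?_) inn_le_inndiag
  obtain ⟨g, hg, rfl⟩ := mem_inndiag_iff.mp hδ
  obtain ⟨k, hk⟩ := id hg
  have : CharP F 2 := CharTwo.of_one_ne_zero_of_two_eq_zero one_ne_zero h2
  obtain ⟨r, hr⟩ := FiniteField.isSquare_of_char_two (F := F) (ringChar.eq F 2) (k : F)
  have hr0 : r ≠ 0 := fun h => k.ne_zero (by rw [hr, h, mul_zero])
  exact semiAut_refl_mem_inn hm hg (Units.mk0 r hr0) fun u v => by rw [hk, Units.val_mul, Units.val_mk0, ← hr]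

theorem semiAut_inv_eq [Finite F] {g : GL (Fin m ⊕ Fin m) F} (hg : g ∈ Cfsg.GSp m F) (σ : F ≃+* F) :
    (semiAut g hg σ)⁻¹ = semiAut (glMap σ.symm g⁻¹) (glMap_mem (inv_mem hg) _) σ.symm := by
  refine inv_eq_of_mul_eq_one_right ?_
  rw [semiAut_mul, ← semiAut_one]
  refine semiAut_congr _ _ ?_ (RingEquiv.ext fun x => by simp)
  rw [show glMap σ (glMap σ.symm g⁻¹) = g⁻¹ from Units.ext (Matrix.ext fun i j => σ.apply_symm_apply _),
    mul_inv_cancel]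

/-- The inner-diagonal group is normal. -/
theorem inndiag_conj_mem [Finite F] (hm : 2 ≤ m) (α : MulAut (Cfsg.PSp m F)) {δ : MulAut (Cfsg.PSp m F)}
    (hδ : δ ∈ Cfsg.inndiagPSp m F) : α * δ * α⁻¹ ∈ Cfsg.inndiagPSp m F := by
  by_cases h2 : (2 : F) = 0
  · rw [inndiag_eq_inn_of_two hm h2] at hδ ⊢
    exact (Cfsg.innNormal (Cfsg.PSp m F)).conj_mem δ hδ α
  · obtain ⟨g, hg, σ, rfl⟩ := exists_semilinear hm (fun _ => h2) α
    obtain ⟨d, hd, rfl⟩ := mem_inndiag_iff.mp hδ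
    rw [semiAut_inv_eq, semiAut_mul, semiAut_mul]
    exact mem_inndiag_iff.mpr ⟨_, _, semiAut_congr _
      (mul_mem (mul_mem hg (glMap_mem hd σ)) (glMap_mem (glMap_mem (inv_mem hg) _) _)) rfl
      (RingEquiv.ext fun x => by simp)⟩

/-- Standard field automorphisms as a homomorphism. -/
noncomputable def fieldHom (m : ℕ) (F : Type*) [Field F] [Finite F] :
    (F ≃+* F) →* MulAut (Cfsg.PSp m F) :=
  MonoidHom.mk' (fun σ => semiAut 1 (one_mem _) σ) fun σ τ => by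
    rw [semiAut_mul]
    exact semiAut_congr _ _ (by simp) rfl

theorem fieldHom_injective [Finite F] (hm : 2 ≤ m) : Function.Injective (fieldHom m F) := fun σ τ h =>
  ((semiAut_eq_iff hm _ _ σ τ).mp h).1

theorem eq_fieldHom [Finite F] {σ : F ≃+* F} {β : MulAut (Cfsg.PSp m F)} (h : Cfsg.IsStdFieldAutPSp σ β) :
    β = fieldHom m F σ := by
  refine MulEquiv.ext fun x => ?_
  obtain ⟨s, rfl⟩ := QuotientGroup.mk'_surjective _ x
  exact h s (semiHom 1 (one_mem _) σ s) (by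
    show semiMat 1 σ _ = _
    simp [semiMat])

/-- The reduction of a field automorphism to a standard one. -/
theorem exists_std [Finite F] (hm : 2 ≤ m) {x : MulAut (Cfsg.PSp m F)} (hx : Cfsg.IsFieldAutClassPSp x) :
    ∃ (α : MulAut (Cfsg.PSp m F)) (σ : F ≃+* F), σ ≠ 1 ∧ α * x * α⁻¹ = fieldHom m F σ ∧
      orderOf σ = orderOf x := by
  obtain ⟨α, σ, hσ, h⟩ := hx
  refine ⟨α, σ, hσ, eq_fieldHom h, ?_⟩
  rw [← orderOf_injective (fieldHom m F) (fieldHom_injective hm) σ, ← eq_fieldHom h]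
  exact orderOf_injective (MulAut.conj α).toMonoidHom (MulAut.conj α).injective x

theorem semiAut_eq_mul_fieldHom [Finite F] {g : GL (Fin m ⊕ Fin m) F} (hg : g ∈ Cfsg.GSp m F) (σ : F ≃+* F) :
    semiAut g hg σ = semiAut g hg (RingEquiv.refl F) * fieldHom m F σ := by
  show _ = _ * semiAut 1 (one_mem _) σ
  rw [semiAut_mul]
  exact semiAut_congr _ _ (by simp) (RingEquiv.ext fun x => rfl)

theorem glMap_eq_descent (σ : F ≃+* F) (g : GL (Fin m ⊕ Fin m) F) :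
    glMap σ g = Cfsg.Agent.H23.Descent.glMap σ g := Units.ext rfl

theorem tw_mem {g : GL (Fin m ⊕ Fin m) F} (hg : g ∈ Cfsg.GSp m F) (σ : F ≃+* F) :
    ∀ i, Cfsg.Agent.H23.Descent.tw σ g i ∈ Cfsg.GSp m F := by
  intro i
  induction i with
  | zero => exact one_mem _
  | succ i ih => exact mul_mem hg (glMap_eq_descent σ _ ▸ glMap_mem ih σ)

theorem semiAut_pow [Finite F] {g : GL (Fin m ⊕ Fin m) F} (hg : g ∈ Cfsg.GSp m F) (σ : F ≃+* F) (i : ℕ) :
    semiAut g hg σ ^ i = semiAut (Cfsg.Agent.H23.Descent.tw σ g i) (tw_mem hg σ i) (σ ^ i) := by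
  induction i with
  | zero =>
    rw [pow_zero, ← semiAut_one]
    exact semiAut_congr _ _ rfl rfl
  | succ i ih =>
    rw [pow_succ', ih, semiAut_mul]
    refine semiAut_congr _ _ ?_ (by rw [pow_succ']; rfl)
    rw [glMap_eq_descent]
    rfl

/-- When a semilinear automorphism is trivial. -/
theorem semiAut_eq_one_iff [Finite F] (hm : 2 ≤ m) {g : GL (Fin m ⊕ Fin m) F} (hg : g ∈ Cfsg.GSp m F)
    (σ : F ≃+* F) :
    semiAut g hg σ = 1 ↔ σ = 1 ∧ ∃ a : Fˣ, g = Matrix.GeneralLinearGroup.scalar _ a := by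
  rw [← semiAut_one (m := m) (F := F), eq_comm, semiAut_eq_iff hm]
  simp only [mul_one]
  exact ⟨fun ⟨h, h'⟩ => ⟨h.symm, h'⟩, fun ⟨h, h'⟩ => ⟨h.symm, h'⟩⟩

end Cfsg.Agent.H2.AutPSp
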