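import Cfsg.Agent.H2.AutPSp.Main
import Cfsg.Agent.H2.Perfect
import Mathlib.Algebra.CharP.Frobenius

/-!
The exceptional endomorphism of Sp_4 in characteristic two: the action on the four middle 2×2 minors.
-/

set_option autoImplicit false

namespace Cfsg.Agent.H2.AutPSp

open Matrix

variable {F : Type*} [Field F]

/-- The pairs of coordinates indexing the new basis. -/
def dualPair : Fin 2 ⊕ Fin 2 → (Fin 2 ⊕ Fin 2) × (Fin 2 ⊕ Fin 2) :=
  Sum.elim ![(.inl 0, .inl 1), (.inl 0, .inr 1)] ![(.inr 0, .inr 1), (.inl 1, .inr 0)]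

/-- The matrix of minors (characteristic two). -/
def dualMat (M : Matrix (Fin 2 ⊕ Fin 2) (Fin 2 ⊕ Fin 2) F) : Matrix (Fin 2 ⊕ Fin 2) (Fin 2 ⊕ Fin 2) F :=
  Matrix.of fun a b => M (dualPair a).1 (dualPair b).1 * M (dualPair a).2 (dualPair b).2 +
    M (dualPair a).1 (dualPair b).2 * M (dualPair a).2 (dualPair b).1

theorem dualMat_one (h2 : (2 : F) = 0) : dualMat (1 : Matrix (Fin 2 ⊕ Fin 2) (Fin 2 ⊕ Fin 2) F) = 1 := by
  ext a b
  rcases a with a | a <;> rcases b with b | b <;> fin_cases a <;> fin_cases b <;>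
    simp [dualMat, dualPair, Matrix.one_apply]

theorem dualMat_col (h2 : (2 : F) = 0) {A : Matrix (Fin 2 ⊕ Fin 2) (Fin 2 ⊕ Fin 2) F}
    (hA : A ∈ Matrix.symplecticGroup (Fin 2) F) (b : Fin 2 ⊕ Fin 2) :
    (A (.inl 0) (dualPair b).1 * A (.inr 0) (dualPair b).2 + A (.inl 0) (dualPair b).2 * A (.inr 0) (dualPair b).1) +
      (A (.inl 1) (dualPair b).1 * A (.inr 1) (dualPair b).2 + A (.inl 1) (dualPair b).2 * A (.inr 1) (dualPair b).1)
      = 0 := by
  have h := mem_symplecticGroup_iff.mp hA (Pi.single (dualPair b).1 1) (Pi.single (dualPair b).2 1)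
  simp only [sympForm_apply, Matrix.mulVec_single_one, Matrix.col_apply, Fin.sum_univ_two] at h
  have hz : (Pi.single (dualPair b).1 1 : Fin 2 ⊕ Fin 2 → F) (.inr 0) * (Pi.single (dualPair b).2 1 : Fin 2 ⊕ Fin 2 → F) (.inl 0) -
      (Pi.single (dualPair b).1 1 : Fin 2 ⊕ Fin 2 → F) (.inl 0) * (Pi.single (dualPair b).2 1 : Fin 2 ⊕ Fin 2 → F) (.inr 0) +
      ((Pi.single (dualPair b).1 1 : Fin 2 ⊕ Fin 2 → F) (.inr 1) * (Pi.single (dualPair b).2 1 : Fin 2 ⊕ Fin 2 → F) (.inl 1) -
      (Pi.single (dualPair b).1 1 : Fin 2 ⊕ Fin 2 → F) (.inl 1) * (Pi.single (dualPair b).2 1 : Fin 2 ⊕ Fin 2 → F) (.inr 1)) = 0 := by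
    rcases b with b | b <;> fin_cases b <;> simp [dualPair]
  rw [hz] at h
  linear_combination h + (A (.inl 0) (dualPair b).1 * A (.inr 0) (dualPair b).2 +
    A (.inl 1) (dualPair b).1 * A (.inr 1) (dualPair b).2) * h2

theorem dualMat_mul (h2 : (2 : F) = 0) {M N : Matrix (Fin 2 ⊕ Fin 2) (Fin 2 ⊕ Fin 2) F}
    (hM : M ∈ Matrix.symplecticGroup (Fin 2) F) (hN : N ∈ Matrix.symplecticGroup (Fin 2) F) :
    dualMat (M * N) = dualMat M * dualMat N := by
  ext a b
  have hc := dualMat_col h2 hN b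
  have hr := dualMat_col h2 (SymplecticGroup.transpose_mem hM) a
  simp only [Matrix.transpose_apply] at hr
  simp only [dualMat, Matrix.mul_apply, Matrix.of_apply, Fintype.sum_sum_type, Fin.sum_univ_two, dualPair,
    Sum.elim_inl, Sum.elim_inr, Matrix.cons_val_zero, Matrix.cons_val_one]
  simp only [dualPair] at hc hr
  generalize (Sum.elim ![((Sum.inl 0 : Fin 2 ⊕ Fin 2), (Sum.inl 1 : Fin 2 ⊕ Fin 2)), (.inl 0, .inr 1)]
    ![(.inr 0, .inr 1), (.inl 1, .inr 0)] a) = pa at hr ⊢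
  generalize (Sum.elim ![((Sum.inl 0 : Fin 2 ⊕ Fin 2), (Sum.inl 1 : Fin 2 ⊕ Fin 2)), (.inl 0, .inr 1)]
    ![(.inr 0, .inr 1), (.inl 1, .inr 0)] b) = pb at hc ⊢
  obtain ⟨i, j⟩ := pa
  obtain ⟨s, t⟩ := pb
  linear_combination (M i (.inl 0) * M j (.inr 0) + M i (.inr 0) * M j (.inl 0)) * hc +
    (N (.inl 1) s * N (.inr 1) t + N (.inl 1) t * N (.inr 1) s) * hr +
    ((M i (.inl 0) * M j (.inl 0) * N (.inl 0) s * N (.inl 0) t +
      M i (.inl 1) * M j (.inl 1) * N (.inl 1) s * N (.inl 1) t +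
      M i (.inr 0) * M j (.inr 0) * N (.inr 0) s * N (.inr 0) t +
      M i (.inr 1) * M j (.inr 1) * N (.inr 1) s * N (.inr 1) t) -
      (M i (.inl 0) * M j (.inr 0) + M i (.inr 0) * M j (.inl 0)) *
        (N (.inl 1) s * N (.inr 1) t + N (.inl 1) t * N (.inr 1) s)) * h2

theorem transv_apply_char_two (h2 : (2 : F) = 0) (v : Fin 2 ⊕ Fin 2 → F) (c : F) (a b : Fin 2 ⊕ Fin 2) :
    ((transv v c : Matrix.symplecticGroup (Fin 2) F) : Matrix (Fin 2 ⊕ Fin 2) (Fin 2 ⊕ Fin 2) F) a b =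
      (1 : Matrix (Fin 2 ⊕ Fin 2) (Fin 2 ⊕ Fin 2) F) a b + c * v a * v b.swap := by
  have h := congrFun (sympTransvection_mulVec v (Pi.single b 1) c) a
  rw [Matrix.mulVec_single_one] at h
  rw [coe_transv]
  refine h.trans ?_
  have hneg : ∀ x : F, -x = x := fun x => by linear_combination -x * h2
  rcases b with b | b
  · rw [sympForm_single_inl, hneg]; simp [Matrix.one_apply, Pi.single_apply]; ring
  · rw [sympForm_single_inr]; simp [Matrix.one_apply, Pi.single_apply]; ring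

theorem dualMat_transv_mem (h2 : (2 : F) = 0) (v : Fin 2 ⊕ Fin 2 → F) (c : F) :
    dualMat (transv v c : Matrix.symplecticGroup (Fin 2) F) ∈ Matrix.symplecticGroup (Fin 2) F := by
  have he := transv_apply_char_two h2 v c
  have : CharP F 2 := CharTwo.of_one_ne_zero_of_two_eq_zero one_ne_zero h2
  rw [SymplecticGroup.mem_iff]
  have h4 : (4 : F) = 0 := by linear_combination 2 * h2
  have h6 : (6 : F) = 0 := by linear_combination 3 * h2
  have h8 : (8 : F) = 0 := by linear_combination 4 * h2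
  have h16 : (16 : F) = 0 := by linear_combination 8 * h2
  ext a b
  rcases a with a | a <;> rcases b with b | b <;> fin_cases a <;> fin_cases b <;>
    simp [dualMat, dualPair, he, Matrix.mul_apply, Fintype.sum_sum_type, Matrix.J, Matrix.one_apply,
      CharTwo.neg_eq, CharTwo.sub_eq_add] <;>
    ring_nf <;> simp [h2, h4, h6, h8, h16]

variable [Finite F]

theorem dualMat_mem (h2 : (2 : F) = 0) (g : Matrix.symplecticGroup (Fin 2) F) :
    dualMat (g : Matrix (Fin 2 ⊕ Fin 2) (Fin 2 ⊕ Fin 2) F) ∈ Matrix.symplecticGroup (Fin 2) F := by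
  have hmul : ∀ x y : Matrix.symplecticGroup (Fin 2) F,
      dualMat (x : Matrix (Fin 2 ⊕ Fin 2) (Fin 2 ⊕ Fin 2) F) ∈ Matrix.symplecticGroup (Fin 2) F →
      dualMat (y : Matrix (Fin 2 ⊕ Fin 2) (Fin 2 ⊕ Fin 2) F) ∈ Matrix.symplecticGroup (Fin 2) F →
      dualMat ((x * y : Matrix.symplecticGroup (Fin 2) F) : Matrix (Fin 2 ⊕ Fin 2) (Fin 2 ⊕ Fin 2) F) ∈
        Matrix.symplecticGroup (Fin 2) F := fun x y hx hy => by
    rw [Submonoid.coe_mul, dualMat_mul h2 x.2 y.2]; exact mul_mem hx hy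
  have hone : dualMat ((1 : Matrix.symplecticGroup (Fin 2) F) : Matrix (Fin 2 ⊕ Fin 2) (Fin 2 ⊕ Fin 2) F) ∈
      Matrix.symplecticGroup (Fin 2) F := by
    rw [Submonoid.coe_one, dualMat_one h2]; exact one_mem _
  have hg : g ∈ transvSubgroup 2 F := by rw [transvSubgroup_eq_top]; trivial
  induction hg using Subgroup.closure_induction with
  | mem x hx =>
    obtain ⟨v, c, hvc⟩ := hx
    rw [show x = transv v c from Subtype.ext hvc]
    exact dualMat_transv_mem h2 v c
  | one => exact hone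
  | mul x y _ _ hx hy => exact hmul x y hx hy
  | inv x _ hx =>
    obtain ⟨n, hn, hxn⟩ := (isOfFinOrder_of_finite x).exists_pow_eq_one
    obtain ⟨k, rfl⟩ : ∃ k, n = k + 1 := ⟨n - 1, by omega⟩
    rw [inv_eq_of_mul_eq_one_right (show x * x ^ k = 1 by rw [← pow_succ', hxn])]
    clear hxn hn
    induction k with
    | zero => rw [pow_zero]; exact hone
    | succ k ih => rw [pow_succ]; exact hmul _ _ ih hx

/-- The exceptional endomorphism of Sp_4 in characteristic two. -/
def dualHom (h2 : (2 : F) = 0) : Matrix.symplecticGroup (Fin 2) F →* Matrix.symplecticGroup (Fin 2) F where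
  toFun g := ⟨dualMat g, dualMat_mem h2 g⟩
  map_one' := Subtype.ext (dualMat_one h2)
  map_mul' x y := Subtype.ext (dualMat_mul h2 x.2 y.2)

/-- The short root element. -/
def shortElt (F : Type*) [Field F] : Matrix.symplecticGroup (Fin 2) F :=
  ⟨Matrix.fromBlocks 1 !![0, 1; 1, 0] 0 1, by
    rw [SymplecticGroup.fromBlocks_mem_iff]
    refine ⟨by simp, ?_, by simp⟩
    ext i j; fin_cases i <;> fin_cases j <;> simp⟩

theorem dualHom_transv_single (h2 : (2 : F) = 0) :
    dualHom h2 (transv (Pi.single (Sum.inl 0) 1) 1) = shortElt F := by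
  apply Subtype.ext
  ext a b
  show dualMat _ a b = _
  rcases a with a | a <;> rcases b with b | b <;> fin_cases a <;> fin_cases b <;>
    simp [dualMat, dualPair, shortElt, transv_apply_char_two h2, Matrix.one_apply, -coe_transv]

omit [Finite F] in
theorem shortElt_ne_transv (h2 : (2 : F) = 0) (v : Fin 2 ⊕ Fin 2 → F) (c : F) : shortElt F ≠ transv v c := by
  intro h
  have e := fun a b => (congrArg (fun g : Matrix.symplecticGroup (Fin 2) F =>
    (g : Matrix (Fin 2 ⊕ Fin 2) (Fin 2 ⊕ Fin 2) F) a b) h).trans (transv_apply_char_two h2 v c a b)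
  have h1 := e (.inl 0) (.inr 1)
  have h3 := e (.inl 0) (.inr 0)
  simp [shortElt] at h1 h3
  rcases h3 with h3 | h3 <;> simp [h3] at h1

omit [Finite F] in
theorem center_eq_bot_char_two (h2 : (2 : F) = 0) :
    Subgroup.center (Matrix.symplecticGroup (Fin 2) F) = ⊥ := by
  refine (Subgroup.eq_bot_iff_forall _).mpr fun a ha => ?_
  have hneg : (-1 : F) = 1 := by linear_combination -h2
  rcases (mem_center_iff_eq (by omega) a).mp ha with h | h
  · exact Subtype.ext h
  · refine Subtype.ext ?_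
    rw [h, show (-1 : Matrix (Fin 2 ⊕ Fin 2) (Fin 2 ⊕ Fin 2) F) = (-1 : F) • 1 by rw [neg_one_smul],
      hneg, one_smul]
    rfl

/-- Modding out the trivial centre. -/
noncomputable def projEquiv (h2 : (2 : F) = 0) : Matrix.symplecticGroup (Fin 2) F ≃* Cfsg.PSp 2 F :=
  MulEquiv.ofBijective (QuotientGroup.mk' _) ⟨(MonoidHom.ker_eq_bot_iff _).mp
    (by rw [QuotientGroup.ker_mk', center_eq_bot_char_two h2]), QuotientGroup.mk'_surjective _⟩

theorem dualMat_dualMat_transv (h2 : (2 : F) = 0) (v : Fin 2 ⊕ Fin 2 → F) (c : F) :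
    dualMat (dualMat (transv v c : Matrix.symplecticGroup (Fin 2) F)) =
      (transv v c : Matrix (Fin 2 ⊕ Fin 2) (Fin 2 ⊕ Fin 2) F).map fun x => x ^ 2 := by
  have he := transv_apply_char_two h2 v c
  have h4 : (4 : F) = 0 := by linear_combination 2 * h2
  have h6 : (6 : F) = 0 := by linear_combination 3 * h2
  have h8 : (8 : F) = 0 := by linear_combination 4 * h2
  have h16 : (16 : F) = 0 := by linear_combination 8 * h2
  have h3 : (3 : F) = 1 := by linear_combination h2
  ext a b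
  rcases a with a | a <;> rcases b with b | b <;> fin_cases a <;> fin_cases b <;>
    simp [dualMat, dualPair, he, Matrix.one_apply, -coe_transv] <;> ring_nf <;> simp [h2, h3, h4, h6, h8, h16]

/-- The square of the exceptional endomorphism is the Frobenius. -/
theorem dualHom_dualHom (h2 : (2 : F) = 0) (g : Matrix.symplecticGroup (Fin 2) F) :
    dualMat (dualMat (g : Matrix (Fin 2 ⊕ Fin 2) (Fin 2 ⊕ Fin 2) F)) =
      (g : Matrix (Fin 2 ⊕ Fin 2) (Fin 2 ⊕ Fin 2) F).map fun x => x ^ 2 := by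
  have : CharP F 2 := CharTwo.of_one_ne_zero_of_two_eq_zero one_ne_zero h2
  have hg : g ∈ transvSubgroup 2 F := by rw [transvSubgroup_eq_top]; trivial
  let L : Matrix.symplecticGroup (Fin 2) F →* Matrix (Fin 2 ⊕ Fin 2) (Fin 2 ⊕ Fin 2) F :=
    (Submonoid.subtype _).comp ((dualHom h2).comp (dualHom h2))
  let R : Matrix.symplecticGroup (Fin 2) F →* Matrix (Fin 2 ⊕ Fin 2) (Fin 2 ⊕ Fin 2) F :=
    ((frobenius F 2).mapMatrix.toMonoidHom).comp (Submonoid.subtype _)
  have hLR : Set.EqOn L R {A | ∃ (w : Fin 2 ⊕ Fin 2 → F) (c : F),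
      (A : Matrix (Fin 2 ⊕ Fin 2) (Fin 2 ⊕ Fin 2) F) = Cfsg.sympTransvection 2 w c} := by
    rintro A ⟨w, c, hA⟩
    rw [show A = transv w c from Subtype.ext hA]
    exact dualMat_dualMat_transv h2 w c
  exact MonoidHom.eqOn_closure hLR hg

theorem dualHom_bijective (h2 : (2 : F) = 0) : Function.Bijective (dualHom h2) := by
  rw [← Finite.injective_iff_bijective]
  intro a b h
  have : CharP F 2 := CharTwo.of_one_ne_zero_of_two_eq_zero one_ne_zero h2
  have h' : dualMat (a : Matrix (Fin 2 ⊕ Fin 2) (Fin 2 ⊕ Fin 2) F) = dualMat (b : Matrix (Fin 2 ⊕ Fin 2) (Fin 2 ⊕ Fin 2) F) :=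
    congrArg Subtype.val h
  have h1 := congrArg dualMat h'
  rw [dualHom_dualHom h2, dualHom_dualHom h2] at h1
  exact Subtype.ext (Matrix.map_injective (frobenius_inj F 2) h1)

/-- The exceptional automorphism. -/
noncomputable def dualAut (h2 : (2 : F) = 0) : MulAut (Cfsg.PSp 2 F) :=
  (projEquiv h2).symm.trans ((MulEquiv.ofBijective _ (dualHom_bijective h2)).trans (projEquiv h2))

theorem not_preserves_dualAut (h2 : (2 : F) = 0) :
    ¬ ∀ x, IsPTransv x → IsPTransv (dualAut h2 x) := by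
  intro h
  obtain ⟨v, c, hv, hc, hvc⟩ := h _ ⟨Pi.single (Sum.inl 0) 1, 1, by simp, one_ne_zero, rfl⟩
  refine shortElt_ne_transv h2 v c ((projEquiv h2).injective ?_)
  refine Eq.trans ?_ hvc.symm
  rw [← dualHom_transv_single h2]
  exact congrArg (fun y => projEquiv h2 (dualHom h2 y))
    ((projEquiv h2).symm_apply_apply (transv (Pi.single (Sum.inl 0) (1 : F)) 1)).symm

omit [Finite F] in
/-- The centraliser of a mixed element is a two-group. -/
theorem pow_four_of_commute (h2 : (2 : F) = 0) {u z : Matrix.symplecticGroup (Fin 2) F}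
    {S : Matrix (Fin 2) (Fin 2) F}
    (hz : (z : Matrix (Fin 2 ⊕ Fin 2) (Fin 2 ⊕ Fin 2) F) = Matrix.fromBlocks 1 S 0 1)
    (h01 : S 0 1 = S 1 0) (h11 : S 1 1 = 0) (ha : S 0 0 ≠ 0) (hb : S 1 0 ≠ 0) (h : Commute u z) :
    u ^ 4 = 1 := by
  obtain ⟨A, B, C, D, hu⟩ : ∃ A B C D, (u : Matrix (Fin 2 ⊕ Fin 2) (Fin 2 ⊕ Fin 2) F) = Matrix.fromBlocks A B C D :=
    ⟨_, _, _, _, (Matrix.fromBlocks_toBlocks _).symm⟩
  have e := congrArg Subtype.val h.eq
  simp only [Submonoid.coe_mul, hu, hz, Matrix.fromBlocks_multiply, Matrix.one_mul, Matrix.mul_one,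
    Matrix.mul_zero, Matrix.zero_mul, zero_add, add_zero, Matrix.fromBlocks_inj] at e
  obtain ⟨e1, e2, -, -⟩ := e
  have hSC : S * C = 0 := by simpa using e1
  have hC : C = 0 := by
    have hdet : IsUnit S.det := by
      rw [Matrix.det_fin_two, h01, h11, mul_zero, zero_sub]
      exact (neg_ne_zero.mpr (mul_ne_zero hb hb)).isUnit
    have := congrArg (S⁻¹ * ·) hSC
    simpa [← Matrix.mul_assoc, Matrix.nonsing_inv_mul _ hdet] using this
  subst hC
  have hAS : A * S = S * D := by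
    rw [add_comm B (S * D)] at e2
    exact add_right_cancel e2
  have hm' := u.2
  rw [hu, SymplecticGroup.fromBlocks_mem_iff] at hm'
  have hAD : Aᵀ * D = 1 := by
    simpa using hm'.2.2
  have hDA : D * Aᵀ = 1 := mul_eq_one_comm.mp hAD
  have hASA : A * S * Aᵀ = S := by rw [hAS, Matrix.mul_assoc, hDA, Matrix.mul_one]
  have k : ∀ i j, (A * S * Aᵀ) i j = S i j := fun i j => by rw [hASA]
  have k11 := k 1 1
  have k01 := k 0 1
  have k00 := k 0 0
  simp [Matrix.mul_apply, Fin.sum_univ_two, h01, h11] at k11 k01 k00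
  have hr : A 1 0 = 0 := by
    have : S 0 0 * (A 1 0 * A 1 0) = 0 := by
      linear_combination k11 - A 1 0 * A 1 1 * S 1 0 * h2
    simpa [ha] using this
  rw [hr] at k01
  have hps : A 0 0 * A 1 1 = 1 := by
    refine mul_left_cancel₀ hb ?_
    linear_combination k01
  have hp : A 0 0 = 1 := by
    have h' : S 0 0 * ((A 0 0 - 1) * (A 0 0 - 1)) = 0 := by
      linear_combination k00 - (A 0 0 * A 0 1 * S 1 0 + S 0 0 * (A 0 0 - 1)) * h2
    simpa [ha, sub_eq_zero] using h'
  have hs : A 1 1 = 1 := by rwa [hp, one_mul] at hps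
  have hA2 : A * A = 1 := by
    ext i j
    fin_cases i <;> fin_cases j <;> simp [Matrix.mul_apply, Fin.sum_univ_two, hr, hp, hs]
    linear_combination A 0 1 * h2
  have hA2' : Aᵀ * Aᵀ = 1 := by rw [← Matrix.transpose_mul, hA2, Matrix.transpose_one]
  have hD : D = Aᵀ := left_inv_eq_right_inv hDA hA2'
  apply Subtype.ext
  rw [show (4 : ℕ) = 2 * 2 from rfl, pow_mul, sq, sq, Submonoid.coe_mul, Submonoid.coe_mul, hu, hD]
  simp only [Matrix.fromBlocks_multiply, Matrix.mul_zero, Matrix.zero_mul, add_zero, zero_add, hA2,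
    hA2', Matrix.one_mul, Matrix.mul_one]
  rw [← two_smul F (A * B + B * Aᵀ), h2, zero_smul, Matrix.fromBlocks_one]
  rfl

omit [Finite F] in
/-- An element of order three commuting with a given transvection. -/
theorem exists_cube_commute (h2 : (2 : F) = 0) {v : Fin 2 ⊕ Fin 2 → F} (hv : v ≠ 0) (c : F) :
    ∃ h : Matrix.symplecticGroup (Fin 2) F, h ≠ 1 ∧ h ^ 3 = 1 ∧ Commute h (transv v c) := by
  have hneg : ∀ x : F, -x = x := fun x => by linear_combination -x * h2
  set e0 : Fin 2 ⊕ Fin 2 → F := Pi.single (.inl 0) 1 with he0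
  set a : Fin 2 ⊕ Fin 2 → F := Pi.single (.inl 1) 1 with hadef
  set b : Fin 2 ⊕ Fin 2 → F := Pi.single (.inr 1) 1 with hbdef
  obtain ⟨g, hg⟩ := exists_map_vec (show e0 ≠ 0 by simp [he0]) hv
  set x := transv a (1 : F) with hx
  set y := transv b (1 : F) with hy
  have hxb : (x : Matrix (Fin 2 ⊕ Fin 2) (Fin 2 ⊕ Fin 2) F) *ᵥ b = b + a := by
    rw [hx, coe_transv, sympTransvection_mulVec, hbdef, sympForm_single_inr]; simp [hadef]
  have hya : (y : Matrix (Fin 2 ⊕ Fin 2) (Fin 2 ⊕ Fin 2) F) *ᵥ a = b + a := by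
    rw [hy, coe_transv, sympTransvection_mulVec, hadef, sympForm_single_inl, hneg]
    simp [hbdef, add_comm]
  have hxi : x⁻¹ = x := by rw [hx, transv_inv, hneg]
  have hyi : y⁻¹ = y := by rw [hy, transv_inv, hneg]
  have hbraid : x * y * x = y * x * y := by
    conv_lhs => arg 2; rw [← hxi]
    conv_rhs => arg 2; rw [← hyi]
    rw [hy, conj_transv, hxb]
    conv_rhs => rw [hx, conj_transv, ← hy, hya]
  have hxx : x * x = 1 := by nth_rewrite 1 [← hxi]; exact inv_mul_cancel x
  have hyy : y * y = 1 := by nth_rewrite 1 [← hyi]; exact inv_mul_cancel y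
  have h3 : (x * y) ^ 3 = 1 := by
    calc (x * y) ^ 3 = x * y * x * (y * x * y) := by simp only [pow_succ, pow_zero, one_mul, mul_assoc]
      _ = x * y * x * (x * y * x) := by rw [hbraid]
      _ = x * (y * (x * x) * y) * x := by simp only [mul_assoc]
      _ = 1 := by rw [hxx, mul_one, hyy, mul_one, hxx]
  have hcomm : Commute (x * y) (transv e0 c) := by
    have h0 : ∀ w : Fin 2 ⊕ Fin 2 → F, Cfsg.sympForm 2 F e0 w = 0 →
        Commute (transv w (1 : F)) (transv e0 c) := fun w hw => by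
      rw [commute_iff_eq, ← mul_inv_eq_iff_eq_mul, conj_transv]
      congr 1
      rw [coe_transv, sympTransvection_mulVec, hw]
      simp
    exact Commute.mul_left (h0 a (by rw [he0, sympForm_single_inl]; simp [hadef]))
      (h0 b (by rw [he0, sympForm_single_inl]; simp [hbdef]))
  have hne : x * y ≠ 1 := by
    intro h
    have hh := congrArg (fun t : Matrix.symplecticGroup (Fin 2) F =>
      ((t : Matrix (Fin 2 ⊕ Fin 2) (Fin 2 ⊕ Fin 2) F) *ᵥ a) (Sum.inl 1)) h
    simp only [Submonoid.coe_mul, ← Matrix.mulVec_mulVec, hya, Submonoid.coe_one, Matrix.one_mulVec,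
      Matrix.mulVec_add, hxb] at hh
    rw [hx, coe_transv, sympTransvection_mulVec, sympForm_self] at hh
    simp [hadef, hbdef] at hh
  refine ⟨g * (x * y) * g⁻¹, fun h => hne (by simpa using h), by rw [conj_pow, h3]; simp, ?_⟩
  rw [← hg, ← conj_transv]
  exact (Commute.conj_iff g).mpr hcomm

/-- A transvection goes to a transvection or to a short root element. -/
theorem isPTransv_or_short (h2 : (2 : F) = 0) (α : Cfsg.PSp 2 F ≃* Cfsg.PSp 2 F) {x : Cfsg.PSp 2 F}
    (hx : IsPTransv x) :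
    IsPTransv (α x) ∨ IsConj (QuotientGroup.mk' _ (shortElt F)) (α x) := by
  classical
  have : Fact (Nat.Prime 2) := ⟨Nat.prime_two⟩
  have : CharP F 2 := CharTwo.of_one_ne_zero_of_two_eq_zero one_ne_zero h2
  obtain ⟨v, c, hv, hc, rfl⟩ := hx
  obtain ⟨z, b, S, hzy, hsym, hzS, hsupp, -⟩ := exists_central_shape (p := 2) le_rfl α v hv c
  by_cases hb : S 1 0 = 0
  · exact Or.inl (isPTransv_of_shape (p := 2) le_rfl α hv hc hzy hsym hzS hsupp hb)
  right
  have h01 : S 0 1 = S 1 0 := by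
    conv_lhs => rw [← hsym]
    rfl
  have h11 : S 1 1 = 0 := hsupp 1 1 (Or.inr ⟨rfl, one_ne_zero⟩)
  by_cases ha : S 0 0 = 0
  · let u : Matrix.symplecticGroup (Fin 2) F :=
      ⟨Matrix.fromBlocks (Matrix.diagonal ![(S 1 0)⁻¹, 1]) 0 0 (Matrix.diagonal ![S 1 0, 1]), by
        rw [SymplecticGroup.fromBlocks_mem_iff]
        refine ⟨by simp, by simp, ?_⟩
        rw [Matrix.transpose_zero, Matrix.zero_mul, sub_zero, Matrix.diagonal_transpose,
          Matrix.diagonal_mul_diagonal, ← Matrix.diagonal_one]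
        congr 1
        funext i; fin_cases i <;> simp [hb]⟩
    have huz : u * z = shortElt F * u := by
      apply Subtype.ext
      simp only [Submonoid.coe_mul, u, shortElt, hzS, Matrix.fromBlocks_multiply, Matrix.one_mul,
        Matrix.mul_one, Matrix.mul_zero, Matrix.zero_mul, zero_add, add_zero]
      congr 1
      ext i j; fin_cases i <;> fin_cases j <;> simp [Matrix.mul_apply, Fin.sum_univ_two, ha, h01, h11, hb]
    refine IsConj.trans (IsConj.symm ?_) (IsConj.symm (isConj_iff.mpr ⟨b, hzy.symm⟩))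
    exact isConj_iff.mpr ⟨QuotientGroup.mk' _ u,
      by rw [← map_inv, ← map_mul, ← map_mul, huz, mul_inv_cancel_right]⟩
  · exfalso
    obtain ⟨h, hne, h3, hcomm⟩ := exists_cube_commute h2 hv c
    obtain ⟨u, hu⟩ := QuotientGroup.mk'_surjective _ (b * α (QuotientGroup.mk' _ h) * b⁻¹)
    have hcu : Commute u z := by
      refine (projEquiv h2).injective ?_
      show QuotientGroup.mk' _ (u * z) = QuotientGroup.mk' _ (z * u)
      rw [map_mul, map_mul, hu, hzy]
      exact (Commute.conj_iff b).mpr ((hcomm.map _).map α)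
    have h4 := congrArg (QuotientGroup.mk' (Subgroup.center (Matrix.symplecticGroup (Fin 2) F)))
      (pow_four_of_commute h2 hzS h01 h11 ha hb hcu)
    rw [map_pow, map_one, hu, conj_pow, pow_succ, ← map_pow, ← map_pow, h3, map_one, map_one, one_mul] at h4
    refine hne ((projEquiv h2).injective (α.injective ?_))
    show α (QuotientGroup.mk' _ h) = α (QuotientGroup.mk' _ 1)
    rw [map_one, map_one]
    calc α (QuotientGroup.mk' _ h) = b⁻¹ * (b * α (QuotientGroup.mk' _ h) * b⁻¹) * b := by group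
      _ = 1 := by rw [h4]; group

/-- All transvections are conjugate. -/
theorem isConj_of_isPTransv (h2 : (2 : F) = 0) {x y : Cfsg.PSp 2 F} (hx : IsPTransv x) (hy : IsPTransv y) :
    IsConj x y := by
  have : CharP F 2 := CharTwo.of_one_ne_zero_of_two_eq_zero one_ne_zero h2
  have key : ∀ {x : Cfsg.PSp 2 F}, IsPTransv x →
      IsConj (QuotientGroup.mk' _ (transv (Pi.single (Sum.inl 0) 1) 1)) x := by
    intro x hx
    obtain ⟨v, c, hv, hc, rfl⟩ := hx
    obtain ⟨s, hs⟩ := FiniteField.isSquare_of_char_two (F := F) (ringChar.eq F 2) c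
    have hs0 : s ≠ 0 := fun h => hc (by rw [hs, h, mul_zero])
    obtain ⟨g, hg⟩ := exists_map_vec (show (Pi.single (Sum.inl 0) 1 : Fin 2 ⊕ Fin 2 → F) ≠ 0 by simp)
      (smul_ne_zero hs0 hv)
    refine isConj_iff.mpr ⟨QuotientGroup.mk' _ g, ?_⟩
    rw [← map_inv, ← map_mul, ← map_mul, conj_transv, hg, transv_smul, ← hs, mul_one]
  exact (key hx).symm.trans (key hy)

end Cfsg.Agent.H2.AutPSp
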