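import Cfsg.Agent.H2.AutPSp.Diag
import Cfsg.Agent.H2.Basis

/-!
Field automorphisms of prime order of PSp: conjugacy and centralisers in the inner-diagonal group.
-/

set_option autoImplicit false

namespace Cfsg.Agent.H2.AutPSp

open Matrix Cfsg.Agent.H23

variable {m : ℕ} {F : Type*} [Field F]

/-- A matrix of the form `g σ(g)⁻¹` with `g` a similitude, from trivial twisted norm. -/
theorem exists_gsp_descent [Finite F] (σ : F ≃+* F) {g : GL (Fin m ⊕ Fin m) F} (hg : g ∈ Cfsg.GSp m F)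
    (hm : 1 ≤ m) (hN : Descent.tw σ g (orderOf σ) = 1) :
    ∃ h ∈ Cfsg.GSp m F, g * glMap σ h = h := by
  classical
  cases nonempty_fintype F
  have : Finite (F ≃+* F) := Finite.of_injective _ DFunLike.coe_injective
  obtain ⟨h, hh⟩ := Descent.exists_descent σ (isOfFinOrder_of_finite σ) g hN
  obtain ⟨c, hc⟩ := mem_gsp_iff.mp hg
  set N := (h : Matrix (Fin m ⊕ Fin m) (Fin m ⊕ Fin m) F)ᵀ * J (Fin m) F *
    (h : Matrix (Fin m ⊕ Fin m) (Fin m ⊕ Fin m) F) with hNdef
  have hJ : (J (Fin m) F).map σ = J (Fin m) F := by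
    ext i j
    rcases i with i | i <;> rcases j with j | j <;> by_cases h : i = j <;> simp [J, h]
  have hNfix : N = (c : F) • N.map σ := by
    have e := congrArg (fun x : GL (Fin m ⊕ Fin m) F => (x : Matrix (Fin m ⊕ Fin m) (Fin m ⊕ Fin m) F)) hh
    simp only [Units.val_mul, Descent.coe_glMap] at e
    rw [hNdef, Matrix.map_mul, Matrix.map_mul, Matrix.transpose_map, hJ]
    conv_lhs => rw [← e]
    rw [Matrix.transpose_mul, show ((h : Matrix (Fin m ⊕ Fin m) (Fin m ⊕ Fin m) F).map σ)ᵀ *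
      (g : Matrix (Fin m ⊕ Fin m) (Fin m ⊕ Fin m) F)ᵀ * J (Fin m) F *
      ((g : Matrix (Fin m ⊕ Fin m) (Fin m ⊕ Fin m) F) * (h : Matrix (Fin m ⊕ Fin m) (Fin m ⊕ Fin m) F).map σ) =
      ((h : Matrix (Fin m ⊕ Fin m) (Fin m ⊕ Fin m) F).map σ)ᵀ *
      ((g : Matrix (Fin m ⊕ Fin m) (Fin m ⊕ Fin m) F)ᵀ * J (Fin m) F *
        (g : Matrix (Fin m ⊕ Fin m) (Fin m ⊕ Fin m) F)) *
        (h : Matrix (Fin m ⊕ Fin m) (Fin m ⊕ Fin m) F).map σ by simp only [Matrix.mul_assoc],
      hc, Matrix.mul_smul, Matrix.smul_mul]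
  have hdet : IsUnit N.det := by
    rw [hNdef, Matrix.det_mul, Matrix.det_mul, Matrix.det_transpose]
    have hu := (Matrix.isUnit_iff_isUnit_det _).mp h.isUnit
    exact (hu.mul (Matrix.isUnit_det_J (Fin m) F)).mul hu
  obtain ⟨a, b, hab⟩ : ∃ a b, N a b ≠ 0 := by
    by_contra! h0
    have : Nonempty (Fin m ⊕ Fin m) := ⟨.inl ⟨0, hm⟩⟩
    exact hdet.ne_zero (Matrix.det_eq_zero_of_row_eq_zero (.inl ⟨0, hm⟩) (h0 _))
  set y := N a b with hy
  have hye : y = (c : F) * σ y := by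
    conv_lhs => rw [hy, hNfix]
    rfl
  obtain ⟨K, hK, -⟩ := Descent.exists_fixedField σ
  have hfix : ∀ i j, σ (y⁻¹ * N i j) = y⁻¹ * N i j := fun i j => by
    have e : N i j = (c : F) * σ (N i j) := congrFun (congrFun hNfix i) j
    rw [map_mul, map_inv₀]
    conv_rhs => rw [e, hye, _root_.mul_inv_rev, mul_assoc, inv_mul_cancel_left₀ c.ne_zero]
  let NK : Matrix (Fin m ⊕ Fin m) (Fin m ⊕ Fin m) K := Matrix.of fun i j => ⟨y⁻¹ * N i j, (hK _).mpr (hfix i j)⟩
  have hNK : NK.map K.subtype = y⁻¹ • N := rfl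
  have halt : ∀ v : Fin m ⊕ Fin m → F, v ⬝ᵥ N *ᵥ v = 0 := fun v => by
    rw [hNdef, Matrix.mul_assoc, ← Matrix.mulVec_mulVec, ← Matrix.mulVec_mulVec, Matrix.dotProduct_mulVec,
      Matrix.vecMul_transpose]
    exact sympForm_self _
  let B : LinearMap.BilinForm K (Fin m ⊕ Fin m → K) := Matrix.toBilin' NK
  have hBalt : B.IsAlt := fun v => by
    refine K.subtype.injective ?_
    rw [show B v v = v ⬝ᵥ NK *ᵥ v from Matrix.toBilin'_apply' _ _ _, map_zero, RingHom.map_dotProduct]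
    rw [show ⇑K.subtype ∘ (NK *ᵥ v) = (y⁻¹ • N) *ᵥ (⇑K.subtype ∘ v) from funext fun i => by
      rw [← hNK]; exact RingHom.map_mulVec K.subtype NK v i]
    rw [Matrix.smul_mulVec, dotProduct_smul, halt, smul_zero]
  have hBnd : B.Nondegenerate := by
    refine LinearMap.BilinForm.nondegenerate_toBilin'_of_det_ne_zero' _ fun h0 => ?_
    have h1 := congrArg K.subtype h0
    rw [RingHom.map_det, map_zero] at h1
    rw [show K.subtype.mapMatrix NK = y⁻¹ • N from hNK, Matrix.det_smul] at h1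
    exact mul_ne_zero (pow_ne_zero _ (inv_ne_zero hab)) hdet.ne_zero h1
  obtain ⟨m', e, hdim, he⟩ := exists_equiv_std B hBnd hBalt
  obtain rfl : m = m' := by simp at hdim; omega
  let P : Matrix (Fin m ⊕ Fin m) (Fin m ⊕ Fin m) K := LinearMap.toMatrix' e.symm.toLinearMap
  have hP : Pᵀ * NK * P = J (Fin m) K := by
    ext i j
    have hcol : ∀ i, P *ᵥ Pi.single i 1 = e.symm (Pi.single i 1) := fun i =>
      LinearMap.toMatrix'_mulVec _ _
    have h1 := he (e.symm (Pi.single i 1)) (e.symm (Pi.single j 1))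
    rw [e.apply_symm_apply, e.apply_symm_apply, show B (e.symm (Pi.single i 1)) (e.symm (Pi.single j 1)) =
      e.symm (Pi.single i 1) ⬝ᵥ NK *ᵥ e.symm (Pi.single j 1) from Matrix.toBilin'_apply' _ _ _,
      ← hcol, ← hcol, ← Matrix.vecMul_transpose, ← Matrix.dotProduct_mulVec, Matrix.mulVec_mulVec,
      Matrix.mulVec_mulVec, Cfsg.sympForm, Matrix.mulVec_single_one, Matrix.mulVec_single_one,
      single_dotProduct, single_dotProduct, one_mul, one_mul] at h1
    rw [Matrix.mul_assoc]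
    simpa [Matrix.mul_assoc] using h1.symm
  have hPu : IsUnit (P.map K.subtype) := by
    refine IsUnit.map K.subtype.mapMatrix ?_
    exact ⟨⟨P, LinearMap.toMatrix' e.toLinearMap,
      by rw [← LinearMap.toMatrix'_comp]; simp, by rw [← LinearMap.toMatrix'_comp]; simp⟩, rfl⟩
  refine ⟨h * hPu.unit, mem_gsp_iff.mpr ⟨Units.mk0 y hab, ?_⟩, ?_⟩
  · rw [Units.val_mul, IsUnit.unit_spec, Matrix.transpose_mul, Units.val_mk0]
    have h1 := congrArg (fun A => A.map K.subtype) hP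
    simp only [Matrix.map_mul, hNK, Matrix.transpose_map] at h1
    have hJK : (J (Fin m) K).map K.subtype = J (Fin m) F := by
      ext i j
      rcases i with i | i <;> rcases j with j | j <;> by_cases h : i = j <;> simp [J, h]
    rw [hJK, Matrix.mul_smul, Matrix.smul_mul] at h1
    refine Eq.trans ?_ (congrArg (fun A => y • A) h1)
    simp only [smul_smul, mul_inv_cancel₀ hab, one_smul, hNdef, Matrix.mul_assoc]
  · rw [map_mul, ← mul_assoc, glMap_eq_descent, hh]
    congr 1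
    exact Units.ext (Matrix.ext fun i j => (hK _).mp (P i j).2)

theorem tw_succ_right (σ : F ≃+* F) (g : GL (Fin m ⊕ Fin m) F) (i : ℕ) :
    Descent.tw σ g (i + 1) = Descent.tw σ g i * Descent.glMap (σ ^ i) g := by
  induction i with
  | zero => simp [Descent.tw]
  | succ i ih =>
    show g * Descent.glMap σ (Descent.tw σ g (i + 1)) = _
    conv_lhs => rw [ih, map_mul, ← mul_assoc]
    show g * Descent.glMap σ (Descent.tw σ g i) * _ = Descent.tw σ g (i + 1) * _
    rw [← Descent.glMap_mul, ← pow_succ']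
    rfl

theorem scal_eq (a : Fˣ) :
    (Descent.scal a : GL (Fin m ⊕ Fin m) F) = Matrix.GeneralLinearGroup.scalar _ a :=
  Units.ext rfl

theorem scalar_mem_gsp (a : Fˣ) : (Matrix.GeneralLinearGroup.scalar (Fin m ⊕ Fin m) a) ∈ Cfsg.GSp m F :=
  mem_gsp_iff.mpr ⟨a * a, by
    show (Matrix.scalar _ (a : F))ᵀ * _ * Matrix.scalar _ (a : F) = _
    rw [Matrix.scalar_apply, Matrix.diagonal_transpose, ← Matrix.smul_eq_diagonal_mul, ← Matrix.op_smul_eq_mul_diagonal,
      op_smul_eq_smul, smul_smul, Units.val_mul]⟩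

/-- An element of order `orderOf σ` in the coset of a standard field automorphism is conjugate to it. -/
theorem isConjUnder_of_orderOf [Finite F] (hm : 2 ≤ m) (σ : F ≃+* F) {g : GL (Fin m ⊕ Fin m) F}
    (hg : g ∈ Cfsg.GSp m F) (h : semiAut g hg σ ^ orderOf σ = 1) :
    Cfsg.IsConjUnder (Cfsg.inndiagPSp m F) (fieldHom m F σ) (semiAut g hg σ) := by
  classical
  have : Finite (F ≃+* F) := Finite.of_injective _ DFunLike.coe_injective
  rw [semiAut_pow, semiAut_eq_one_iff hm] at h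
  obtain ⟨-, a, ha⟩ := h
  have h1 := tw_succ_right σ g (orderOf σ)
  rw [pow_orderOf_eq_one, Descent.glMap_one, ha, Descent.tw, ha, ← scal_eq, Descent.glMap_scal,
    ← Descent.scal_comm, mul_left_inj] at h1
  have hfix : σ (a : F) = a := by
    have h2 := congrArg (fun x : GL (Fin m ⊕ Fin m) F =>
      (x : Matrix (Fin m ⊕ Fin m) (Fin m ⊕ Fin m) F) (.inl ⟨0, by omega⟩) (.inl ⟨0, by omega⟩)) h1
    simpa using h2
  obtain ⟨y, hy⟩ := Descent.exists_unitNorm_eq σ (isOfFinOrder_of_finite σ) a⁻¹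
    (by rw [Units.val_inv_eq_inv_val, map_inv₀, hfix])
  have hg' : Descent.scal y * g ∈ Cfsg.GSp m F := mul_mem (scal_eq (m := m) y ▸ scalar_mem_gsp y) hg
  obtain ⟨k, hk, hkg⟩ := exists_gsp_descent σ hg' (by omega) (by
    rw [Descent.tw_orderOf_scal_mul, hy, ha, ← scal_eq, ← Descent.scal_mul, inv_mul_cancel, Descent.scal_one])
  refine ⟨semiAut k hk (RingEquiv.refl F), mem_inndiag_iff.mpr ⟨k, hk, rfl⟩, ?_⟩
  show _ = _ * semiAut 1 (one_mem _) σ * _
  rw [semiAut_inv_eq, semiAut_mul, semiAut_mul]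
  refine (semiAut_eq_iff hm _ _ _ _).mpr ⟨RingEquiv.ext fun x => by simp, y, ?_⟩
  rw [← scal_eq]
  calc _ = k * glMap σ k⁻¹ := by
        congr 1
        · simp
    _ = Descent.scal y * g := by rw [map_inv, mul_inv_eq_iff_eq_mul, hkg]

/-- Field automorphisms of prime order and their cosets. -/
theorem orderOf_mul_iff [Finite F] (hm : 2 ≤ m) (x δ : MulAut (Cfsg.PSp m F))
    (hx : Cfsg.IsFieldAutClassPSp x) (hδ : δ ∈ Cfsg.inndiagPSp m F) :
    orderOf (δ * x) = orderOf x ↔ Cfsg.IsConjUnder (Cfsg.inndiagPSp m F) x (δ * x) := by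
  constructor
  · intro h
    obtain ⟨α, σ, hσ, hx0, hord⟩ := exists_std hm hx
    obtain ⟨g, hg, hgd⟩ := mem_inndiag_iff.mp (inndiag_conj_mem hm α hδ)
    have he : semiAut g hg σ = MulAut.conj α (δ * x) := by
      rw [semiAut_eq_mul_fieldHom, ← hgd, ← hx0]
      simp only [MulAut.conj_apply, mul_assoc, inv_mul_cancel_left]
    obtain ⟨c, hc, hcx⟩ := isConjUnder_of_orderOf hm σ hg (by
      rw [he, hord, ← h, ← map_pow, pow_orderOf_eq_one, map_one])
    refine ⟨α⁻¹ * c * α⁻¹⁻¹, inndiag_conj_mem hm α⁻¹ hc, ?_⟩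
    rw [he, ← hx0, MulAut.conj_apply] at hcx
    calc δ * x = α⁻¹ * (α * (δ * x) * α⁻¹) * α := by group
      _ = α⁻¹ * (c * (α * x * α⁻¹) * c⁻¹) * α := by rw [hcx]
      _ = _ := by group
  · rintro ⟨h, -, he⟩
    rw [he]
    exact orderOf_injective (MulAut.conj h).toMonoidHom (MulAut.conj h).injective x

end Cfsg.Agent.H2.AutPSp
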