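import Cfsg.Agent.H2.AutPSp.FieldAut

/-!
Centraliser of a field automorphism in the inner-diagonal group, and the splitting of its class.
-/

set_option autoImplicit false

namespace Cfsg.Agent.H2.AutPSp

open Matrix Cfsg.Agent.H23

variable {m : ℕ} {F : Type*} [Field F] {F₀ : Type*} [Field F₀]

theorem map_J {R S : Type*} [CommRing R] [CommRing S] (f : R →+* S) :
    (J (Fin m) R).map f = J (Fin m) S := by
  ext i j
  rcases i with i | i <;> rcases j with j | j <;> by_cases h : i = j <;> simp [J, h]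

theorem map_mem_gsp (ι : F₀ →+* F) {g : GL (Fin m ⊕ Fin m) F₀} (hg : g ∈ Cfsg.GSp m F₀) :
    Matrix.GeneralLinearGroup.map ι g ∈ Cfsg.GSp m F := by
  obtain ⟨c, hc⟩ := mem_gsp_iff.mp hg
  refine mem_gsp_iff.mpr ⟨Units.map ι.toMonoidHom c, ?_⟩
  show ((g : Matrix (Fin m ⊕ Fin m) (Fin m ⊕ Fin m) F₀).map ι)ᵀ * _ * (g : Matrix (Fin m ⊕ Fin m) (Fin m ⊕ Fin m) F₀).map ι = _
  rw [← map_J (m := m) ι, ← Matrix.transpose_map, ← Matrix.map_mul, ← Matrix.map_mul, hc]
  ext i j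
  simp
  exact congrFun (congrFun (map_J (m := m) ι) i) j

/-- The inner-diagonal automorphisms defined over a subfield. -/
noncomputable def subfieldHom (m : ℕ) [Finite F] (ι : F₀ →+* F) : Cfsg.GSp m F₀ →* MulAut (Cfsg.PSp m F) :=
  (diagHom m F).comp ((((Matrix.GeneralLinearGroup.map ι : GL (Fin m ⊕ Fin m) F₀ →* _).comp (Cfsg.GSp m F₀).subtype)).codRestrict
    (Cfsg.GSp m F) fun g => map_mem_gsp ι g.2)

theorem subfieldHom_apply [Finite F] (ι : F₀ →+* F) (g : Cfsg.GSp m F₀) :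
    subfieldHom m ι g = semiAut (Matrix.GeneralLinearGroup.map ι g.1) (map_mem_gsp ι g.2) (RingEquiv.refl F) := rfl

theorem ker_subfieldHom [Finite F] (hm : 2 ≤ m) (ι : F₀ →+* F) :
    (subfieldHom m ι).ker = (Cfsg.Geo.scalars (Fin m ⊕ Fin m) F₀).subgroupOf (Cfsg.GSp m F₀) := by
  ext g
  rw [MonoidHom.mem_ker, subfieldHom_apply, semiAut_eq_one_iff hm, Subgroup.mem_subgroupOf,
    Cfsg.Geo.mem_scalars_iff]
  refine ⟨fun ⟨_, a, ha⟩ => ?_, fun ⟨c, hc⟩ => ⟨rfl, Units.map ι.toMonoidHom c, ?_⟩⟩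
  · have e := fun i j => congrArg (fun x : GL (Fin m ⊕ Fin m) F => (x : Matrix (Fin m ⊕ Fin m) (Fin m ⊕ Fin m) F) i j) ha
    set o : Fin m ⊕ Fin m := Sum.inl ⟨0, by omega⟩
    set c := ((g.1 : GL (Fin m ⊕ Fin m) F₀) : Matrix (Fin m ⊕ Fin m) (Fin m ⊕ Fin m) F₀) o o with hc
    have hca : ι c = (a : F) := by simpa [hc] using e o o
    have hc0 : c ≠ 0 := fun h => a.ne_zero (by rw [← hca, h, map_zero])
    refine ⟨Units.mk0 c hc0, Matrix.ext fun i j => ι.injective ?_⟩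
    have := e i j
    by_cases h : i = j <;> simp [h, hca] at this ⊢ <;> simpa using this
  · refine Units.ext (Matrix.ext fun i j => ?_)
    show ι ((g.1 : Matrix (Fin m ⊕ Fin m) (Fin m ⊕ Fin m) F₀) i j) = _
    rw [hc]
    by_cases h : i = j <;> simp [h]

theorem semiAut_refl_commute_iff [Finite F] (hm : 2 ≤ m) {g : GL (Fin m ⊕ Fin m) F} (hg : g ∈ Cfsg.GSp m F)
    (σ : F ≃+* F) :
    semiAut g hg (RingEquiv.refl F) * fieldHom m F σ = fieldHom m F σ * semiAut g hg (RingEquiv.refl F) ↔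
      ∃ a : Fˣ, glMap σ g = Matrix.GeneralLinearGroup.scalar _ a * g := by
  show semiAut g hg _ * semiAut 1 (one_mem _) σ = semiAut 1 (one_mem _) σ * semiAut g hg _ ↔ _
  rw [semiAut_mul, semiAut_mul, semiAut_eq_iff hm]
  simp only [map_one, mul_one, one_mul]
  exact ⟨fun h => h.2, fun h => ⟨RingEquiv.ext fun x => rfl, h⟩⟩

theorem semiAut_scalar_mul [Finite F] (hm : 2 ≤ m) {g : GL (Fin m ⊕ Fin m) F} (hg : g ∈ Cfsg.GSp m F) (a : Fˣ) :
    semiAut (Matrix.GeneralLinearGroup.scalar _ a * g) (mul_mem (scalar_mem_gsp a) hg) (RingEquiv.refl F) =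
      semiAut g hg (RingEquiv.refl F) :=
  ((semiAut_eq_iff hm hg _ _ _).mpr ⟨rfl, a, rfl⟩).symm

theorem coe_scalar_mul (b : Fˣ) (g : GL (Fin m ⊕ Fin m) F) :
    ((Matrix.GeneralLinearGroup.scalar (Fin m ⊕ Fin m) b * g : GL (Fin m ⊕ Fin m) F) :
      Matrix (Fin m ⊕ Fin m) (Fin m ⊕ Fin m) F) = (b : F) • (g : Matrix (Fin m ⊕ Fin m) (Fin m ⊕ Fin m) F) := by
  rw [Units.val_mul, Matrix.smul_eq_diagonal_mul]
  rfl

/-- A projectively fixed matrix has a fixed scalar multiple. -/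
theorem exists_fixed_multiple (hm : 1 ≤ m) {g : GL (Fin m ⊕ Fin m) F} {σ : F ≃+* F} {a : Fˣ}
    (h : glMap σ g = Matrix.GeneralLinearGroup.scalar _ a * g) :
    ∃ b : Fˣ, glMap σ (Matrix.GeneralLinearGroup.scalar _ b * g) = Matrix.GeneralLinearGroup.scalar _ b * g := by
  classical
  obtain ⟨i, j, hij⟩ : ∃ i j, (g : Matrix (Fin m ⊕ Fin m) (Fin m ⊕ Fin m) F) i j ≠ 0 := by
    by_contra! h0
    have : Nonempty (Fin m ⊕ Fin m) := ⟨.inl ⟨0, hm⟩⟩
    exact ((Matrix.isUnit_iff_isUnit_det _).mp g.isUnit).ne_zero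
      (Matrix.det_eq_zero_of_row_eq_zero (.inl ⟨0, hm⟩) (h0 _))
  refine ⟨(Units.mk0 _ hij)⁻¹, Units.ext (Matrix.ext fun k l => ?_)⟩
  have e := fun k l => congrArg (fun x : GL (Fin m ⊕ Fin m) F => (x : Matrix (Fin m ⊕ Fin m) (Fin m ⊕ Fin m) F) k l) h
  simp only [coe_glMap, coe_scalar_mul, Matrix.map_apply, Matrix.smul_apply, smul_eq_mul] at e
  rw [coe_glMap, coe_scalar_mul]
  simp only [Matrix.map_apply, Matrix.smul_apply, smul_eq_mul, map_mul,
    Units.val_inv_eq_inv_val, Units.val_mk0, map_inv₀, e]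
  field_simp [a.ne_zero]

theorem range_subfieldHom [Finite F] (hm : 2 ≤ m) (σ : F ≃+* F) (ι : F₀ →+* F)
    (hι : ∀ y, σ y = y ↔ y ∈ ι.range) :
    (subfieldHom m ι).range = Cfsg.inndiagPSp m F ⊓ Subgroup.centralizer {fieldHom m F σ} := by
  ext β
  simp only [Subgroup.mem_inf, Subgroup.mem_centralizer_iff, Set.mem_singleton_iff, forall_eq]
  constructor
  · rintro ⟨g, rfl⟩
    refine ⟨mem_inndiag_iff.mpr ⟨_, _, subfieldHom_apply ι g⟩, ?_⟩
    rw [subfieldHom_apply]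
    refine ((semiAut_refl_commute_iff hm _ σ).mpr ⟨1, ?_⟩).symm
    rw [map_one, one_mul]
    exact Units.ext (Matrix.ext fun i j => (hι _).mpr ⟨_, rfl⟩)
  · rintro ⟨hβ, hcomm⟩
    obtain ⟨g, hg, rfl⟩ := mem_inndiag_iff.mp hβ
    obtain ⟨a, ha⟩ := (semiAut_refl_commute_iff hm hg σ).mp hcomm.symm
    obtain ⟨b, hb⟩ := exists_fixed_multiple (by omega) ha
    set k := Matrix.GeneralLinearGroup.scalar (Fin m ⊕ Fin m) b * g with hk
    have hkK : ∀ i j, (k : Matrix (Fin m ⊕ Fin m) (Fin m ⊕ Fin m) F) i j ∈ ι.range := fun i j =>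
      (hι _).mp (congrArg (fun x : GL (Fin m ⊕ Fin m) F => (x : Matrix (Fin m ⊕ Fin m) (Fin m ⊕ Fin m) F) i j) hb)
    choose P hP using hkK
    have hPm : (Matrix.of P).map ι = (k : Matrix (Fin m ⊕ Fin m) (Fin m ⊕ Fin m) F) := Matrix.ext hP
    have hPu : IsUnit (Matrix.of P).det := by
      refine isUnit_iff_ne_zero.mpr fun h0 => ((Matrix.isUnit_iff_isUnit_det _).mp k.isUnit).ne_zero ?_
      rw [← hPm, ← RingHom.mapMatrix_apply, ← RingHom.map_det, h0, map_zero]
    let g₀ : GL (Fin m ⊕ Fin m) F₀ := ((Matrix.isUnit_iff_isUnit_det _).mpr hPu).unit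
    have hmap : Matrix.GeneralLinearGroup.map ι g₀ = k := Units.ext hPm
    have hk' : k ∈ Cfsg.GSp m F := mul_mem (scalar_mem_gsp b) hg
    obtain ⟨c, hc⟩ := mem_gsp_iff.mp hk'
    have hP2 : ((Matrix.of P)ᵀ * J (Fin m) F₀ * Matrix.of P).map ι = (c : F) • J (Fin m) F := by
      rw [Matrix.map_mul, Matrix.map_mul, Matrix.transpose_map, map_J, hPm, hc]
    set o : Fin m ⊕ Fin m := Sum.inl ⟨0, by omega⟩
    set o' : Fin m ⊕ Fin m := Sum.inr ⟨0, by omega⟩
    set d : F₀ := -(((Matrix.of P)ᵀ * J (Fin m) F₀ * Matrix.of P) o o') with hd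
    have hdc : ι d = (c : F) := by
      have := congrFun (congrFun hP2 o) o'
      rw [Matrix.map_apply] at this
      rw [hd, map_neg, this]
      simp [o, o', J]
    have hd0 : d ≠ 0 := fun h => c.ne_zero (by rw [← hdc, h, map_zero])
    have hg₀ : g₀ ∈ Cfsg.GSp m F₀ := mem_gsp_iff.mpr ⟨Units.mk0 d hd0, Matrix.ext fun i j => ι.injective (by
      have := congrFun (congrFun hP2 i) j
      rw [Matrix.map_apply] at this
      rw [Units.val_mk0]
      refine this.trans ?_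
      rw [Matrix.smul_apply, Matrix.smul_apply, smul_eq_mul, smul_eq_mul, map_mul, hdc,
        ← map_J (m := m) ι, Matrix.map_apply])⟩
    refine ⟨⟨g₀, hg₀⟩, ?_⟩
    rw [subfieldHom_apply, semiAut_congr _ hk' hmap rfl]
    exact semiAut_scalar_mul hm hg b

/-- Centraliser of a standard field automorphism. -/
theorem nonempty_centralizer_equiv [Finite F] (hm : 2 ≤ m) (σ : F ≃+* F) (ι : F₀ →+* F)
    (hι : ∀ y, σ y = y ↔ y ∈ ι.range) :
    Nonempty (↥(Cfsg.inndiagPSp m F ⊓ Subgroup.centralizer {fieldHom m F σ}) ≃* Cfsg.PGSp m F₀) :=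
  ⟨((QuotientGroup.quotientMulEquivOfEq (ker_subfieldHom hm ι).symm).trans
    ((QuotientGroup.quotientKerEquivRange (subfieldHom m ι)).trans
      (MulEquiv.subgroupCongr (range_subfieldHom hm σ ι hι)))).symm⟩

/-- Multiplier criterion for being inner. -/
theorem isSquare_of_semiAut_mem_inn [Finite F] (hm : 2 ≤ m) {g : GL (Fin m ⊕ Fin m) F} (hg : g ∈ Cfsg.GSp m F)
    (h : semiAut g hg (RingEquiv.refl F) ∈ Cfsg.Inn (Cfsg.PSp m F)) {k : F}
    (hk : ∀ u v, Cfsg.sympForm m F ((g : Matrix (Fin m ⊕ Fin m) (Fin m ⊕ Fin m) F) *ᵥ u)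
      ((g : Matrix (Fin m ⊕ Fin m) (Fin m ⊕ Fin m) F) *ᵥ v) = k * Cfsg.sympForm m F u v) : IsSquare k := by
  obtain ⟨x, hx⟩ := h
  obtain ⟨s, rfl⟩ := QuotientGroup.mk'_surjective _ x
  rw [← semiAut_spUnit, semiAut_eq_iff hm] at hx
  obtain ⟨-, a, rfl⟩ := hx
  obtain ⟨u, hu⟩ := exists_sympForm_eq_one
    (show (Pi.single (Sum.inl ⟨0, by omega⟩) 1 : Fin m ⊕ Fin m → F) ≠ 0 by simp)
  refine ⟨a, ?_⟩
  have h1 := hk u (Pi.single (Sum.inl ⟨0, by omega⟩) 1)
  rw [hu, mul_one, Units.val_mul, ← Matrix.mulVec_mulVec, ← Matrix.mulVec_mulVec] at h1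
  rw [← h1]
  show Cfsg.sympForm m F (Matrix.scalar _ (a : F) *ᵥ _) (Matrix.scalar _ (a : F) *ᵥ _) = _
  rw [show Matrix.scalar (Fin m ⊕ Fin m) (a : F) = (a : F) • 1 by simp [Matrix.smul_one_eq_diagonal],
    Matrix.smul_mulVec, Matrix.smul_mulVec, Matrix.one_mulVec, Matrix.one_mulVec, ← sympBilin_apply]
  simp only [map_smul, LinearMap.smul_apply, sympBilin_apply, smul_eq_mul]
  rw [show Cfsg.sympForm m F (((spUnit s : GL (Fin m ⊕ Fin m) F) : Matrix (Fin m ⊕ Fin m) (Fin m ⊕ Fin m) F) *ᵥ u)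
    (((spUnit s : GL (Fin m ⊕ Fin m) F) : Matrix (Fin m ⊕ Fin m) (Fin m ⊕ Fin m) F) *ᵥ Pi.single (Sum.inl ⟨0, by omega⟩) 1) =
    1 from (sympForm_mulVec s _ _).trans hu, mul_one]

theorem multDiag_mem (k : Fˣ) : multDiag m k ∈ Cfsg.GSp m F := ⟨k, multDiag_sim k⟩

theorem isConjUnder_trans {X : Type*} [Group X] {H : Subgroup X} {x y z : X}
    (h : Cfsg.IsConjUnder H x y) (h' : Cfsg.IsConjUnder H y z) : Cfsg.IsConjUnder H x z := by
  obtain ⟨a, ha, rfl⟩ := h
  obtain ⟨b, hb, rfl⟩ := h'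
  exact ⟨b * a, mul_mem hb ha, by group⟩

theorem isConjUnder_symm {X : Type*} [Group X] {H : Subgroup X} {x y : X}
    (h : Cfsg.IsConjUnder H x y) : Cfsg.IsConjUnder H y x := by
  obtain ⟨a, ha, rfl⟩ := h
  exact ⟨a⁻¹, inv_mem ha, by group⟩

theorem isConjUnder_refl {X : Type*} [Group X] (H : Subgroup X) (x : X) : Cfsg.IsConjUnder H x x :=
  ⟨1, one_mem _, by group⟩

/-- The splitting number is invariant under conjugation normalising both groups. -/
theorem splitClassCount_conj {X : Type*} [Group X] (H K : Subgroup X) [K.Normal]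
    (hH : ∀ a : X, ∀ h ∈ H, a * h * a⁻¹ ∈ H) (a x : X) :
    Cfsg.splitClassCount H K (a * x * a⁻¹) = Cfsg.splitClassCount H K x := by
  have hmap : ∀ (b : X) (L : Subgroup X), (∀ h ∈ L, b * h * b⁻¹ ∈ L) → ∀ {y z : X},
      Cfsg.IsConjUnder L y z → Cfsg.IsConjUnder L (b * y * b⁻¹) (b * z * b⁻¹) := by
    rintro b L hL y z ⟨c, hc, rfl⟩
    exact ⟨b * c * b⁻¹, hL c hc, by group⟩
  have hK : ∀ b : X, ∀ h ∈ K, b * h * b⁻¹ ∈ K := fun b h hh => (inferInstance : K.Normal).conj_mem h hh b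
  refine Nat.card_congr (Quot.congr ⟨fun y => ⟨a⁻¹ * y.1 * a⁻¹⁻¹, ?_⟩, fun y => ⟨a * y.1 * a⁻¹, hmap a H (hH a) y.2⟩,
    fun y => Subtype.ext (by group), fun y => Subtype.ext (by group)⟩ fun y z => ⟨fun h => hmap a⁻¹ K (hK _) h, fun h => ?_⟩)
  · have := hmap a⁻¹ H (hH _) y.2
    rwa [show a⁻¹ * (a * x * a⁻¹) * a⁻¹⁻¹ = x by group] at this
  · have := hmap a K (hK _) h
    simp only [Equiv.coe_fn_mk] at this
    rwa [show a * (a⁻¹ * y.1 * a⁻¹⁻¹) * a⁻¹ = y.1 by group,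
      show a * (a⁻¹ * z.1 * a⁻¹⁻¹) * a⁻¹ = z.1 by group] at this

/-- The class of a field automorphism under the inner-diagonal group splits into `gcd (2, q-1, r)` classes. -/
theorem splitClassCount_fieldHom [Fintype F] (hm : 2 ≤ m) (σ : F ≃+* F) (hr : (orderOf σ).Prime) :
    Cfsg.splitClassCount (Cfsg.inndiagPSp m F) (Cfsg.Inn (Cfsg.PSp m F)) (fieldHom m F σ) =
      Nat.gcd (Nat.gcd 2 (Fintype.card F - 1)) (orderOf σ) := by
  classical
  set X := {y : MulAut (Cfsg.PSp m F) // Cfsg.IsConjUnder (Cfsg.inndiagPSp m F) (fieldHom m F σ) y}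
  set R : X → X → Prop := fun y z => Cfsg.IsConjUnder (Cfsg.Inn (Cfsg.PSp m F)) y.1 z.1
  let x₀ : X := ⟨fieldHom m F σ, isConjUnder_refl _ _⟩
  obtain ⟨K, hK, hKcard⟩ := Descent.exists_fixedField σ
  by_cases h2 : (2 : F) = 0
  · have heven : Even (Fintype.card F) := Nat.even_iff.mpr (FiniteField.even_card_iff_char_two.mp
      (CharP.ringChar_of_prime_eq_zero Nat.prime_two (by exact_mod_cast h2)))
    have hg : Nat.gcd 2 (Fintype.card F - 1) = 1 := by
      apply Nat.Coprime.gcd_eq_one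
      rw [Nat.coprime_two_left]
      exact Nat.Even.sub_odd Fintype.card_pos heven odd_one
    rw [hg, Nat.gcd_one_left]
    refine Nat.card_eq_one_iff_unique.mpr ⟨⟨fun y z => ?_⟩, ⟨Quot.mk _ x₀⟩⟩
    induction y using Quot.ind with | _ y => ?_
    induction z using Quot.ind with | _ z => ?_
    refine Quot.sound ?_
    show Cfsg.IsConjUnder (Cfsg.Inn (Cfsg.PSp m F)) y.1 z.1
    rw [← inndiag_eq_inn_of_two hm h2]
    exact isConjUnder_trans (isConjUnder_symm y.2) z.2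
  have hodd : Odd (Fintype.card F) := by
    rw [← Nat.not_even_iff_odd]
    intro he
    have hc := FiniteField.even_card_iff_char_two.mpr (Nat.even_iff.mp he)
    have h0 := ringChar.Nat.cast_ringChar (R := F)
    rw [hc] at h0
    exact h2 (by exact_mod_cast h0)
  have hg : Nat.gcd 2 (Fintype.card F - 1) = 2 :=
    Nat.gcd_eq_left (Nat.Odd.sub_odd hodd odd_one).two_dvd
  rw [hg]
  have hchar : ringChar F ≠ 2 := fun h => h2 (by
    have h0 := ringChar.Nat.cast_ringChar (R := F)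
    rw [h] at h0
    exact_mod_cast h0)
  -- every inner-diagonal automorphism is inner or inner times a fixed one
  have hsplit : ∀ (ν : Fˣ), ¬ IsSquare (ν : F) → ∀ y : X,
      R x₀ y ∨ R ⟨_, ⟨_, mem_inndiag_iff.mpr ⟨_, multDiag_mem ν, rfl⟩, rfl⟩⟩ y := by
    intro ν hν y
    obtain ⟨h, hh, hy⟩ := y.2
    obtain ⟨g, hg, rfl⟩ := mem_inndiag_iff.mp hh
    obtain ⟨k, hk⟩ := id hg
    by_cases hsq : IsSquare (k : F)
    · left
      obtain ⟨a, ha⟩ := hsq
      have ha0 : a ≠ 0 := fun h => k.ne_zero (by rw [ha, h, mul_zero])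
      exact ⟨_, semiAut_refl_mem_inn hm hg (Units.mk0 a ha0) (fun u v => by
        rw [hk, Units.val_mul, Units.val_mk0, ← ha]), hy⟩
    · right
      obtain ⟨a, ha⟩ : IsSquare ((k : F) * ((ν⁻¹ : Fˣ) : F)) := by
        rw [FiniteField.isSquare_iff hchar (mul_ne_zero k.ne_zero (ν⁻¹).ne_zero), mul_pow,
          (FiniteField.pow_dichotomy hchar k.ne_zero).resolve_left (fun h => hsq ((FiniteField.isSquare_iff hchar k.ne_zero).mpr h)),
          Units.val_inv_eq_inv_val, inv_pow,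
          (FiniteField.pow_dichotomy hchar ν.ne_zero).resolve_left (fun h => hν ((FiniteField.isSquare_iff hchar ν.ne_zero).mpr h))]
        norm_num
      have ha0 : a ≠ 0 := fun h => mul_ne_zero k.ne_zero (ν⁻¹).ne_zero (by rw [ha, h, mul_zero])
      have hd : g * (multDiag m ν)⁻¹ ∈ Cfsg.GSp m F := mul_mem hg (inv_mem (multDiag_mem ν))
      have hin := semiAut_refl_mem_inn hm hd (Units.mk0 a ha0) (fun u v => by
        rw [Units.val_mul, ← Matrix.mulVec_mulVec, ← Matrix.mulVec_mulVec, hk, Units.val_mul, Units.val_mk0, ← ha,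
          mul_assoc (k : F)]
        congr 1
        have e := multDiag_sim (m := m) ν
          ((((multDiag m ν)⁻¹ : GL (Fin m ⊕ Fin m) F) : Matrix (Fin m ⊕ Fin m) (Fin m ⊕ Fin m) F) *ᵥ u)
          ((((multDiag m ν)⁻¹ : GL (Fin m ⊕ Fin m) F) : Matrix (Fin m ⊕ Fin m) (Fin m ⊕ Fin m) F) *ᵥ v)
        rw [Matrix.mulVec_mulVec, Matrix.mulVec_mulVec, ← Units.val_mul, mul_inv_cancel, Units.val_one,
          Matrix.one_mulVec, Matrix.one_mulVec] at e
        rw [e, ← mul_assoc, ← Units.val_mul, inv_mul_cancel, Units.val_one, one_mul])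
      refine ⟨_, hin, ?_⟩
      have hsplit' : semiAut (g * (multDiag m ν)⁻¹) hd (RingEquiv.refl F) *
          semiAut (multDiag m ν) (multDiag_mem ν) (RingEquiv.refl F) = semiAut g hg (RingEquiv.refl F) := by
        rw [semiAut_mul]
        refine semiAut_congr _ _ ?_ (RingEquiv.ext fun x => rfl)
        rw [show glMap (RingEquiv.refl F) (multDiag m ν) = multDiag m ν from Units.ext (Matrix.ext fun i j => rfl),
          inv_mul_cancel_right]
      rw [hy, ← hsplit']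
      group
  have hequiv : Equivalence R :=
    ⟨fun y => isConjUnder_refl _ _, fun h => isConjUnder_symm h, fun h h' => isConjUnder_trans h h'⟩
  rcases hr.eq_two_or_odd' with hr2 | hrodd
  · rw [hr2]
    obtain ⟨ν, hν⟩ := FiniteField.exists_nonsquare hchar
    have hν0 : ν ≠ 0 := fun h => hν (h ▸ IsSquare.zero)
    set y₁ : X := ⟨_, ⟨_, mem_inndiag_iff.mpr ⟨_, multDiag_mem (Units.mk0 ν hν0), rfl⟩, rfl⟩⟩ with hy₁
    have hne : ¬ R x₀ y₁ := by
      rintro ⟨i, hi, he⟩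
      set δ₁ := semiAut (multDiag m (Units.mk0 ν hν0)) (multDiag_mem (Units.mk0 ν hν0)) (RingEquiv.refl F) with hδ₁
      have he' : δ₁ * fieldHom m F σ * δ₁⁻¹ = i * fieldHom m F σ * i⁻¹ := he
      have hc : (i⁻¹ * δ₁) * fieldHom m F σ = fieldHom m F σ * (i⁻¹ * δ₁) := by
        calc (i⁻¹ * δ₁) * fieldHom m F σ = i⁻¹ * (δ₁ * fieldHom m F σ * δ₁⁻¹) * δ₁ := by group
          _ = _ := by rw [he']; group
      have hmem : i⁻¹ * δ₁ ∈ Cfsg.inndiagPSp m F :=
        mul_mem (inv_mem (inn_le_inndiag hi)) (mem_inndiag_iff.mpr ⟨_, _, rfl⟩)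
      let ι : K →+* F := K.subtype
      have hι : ∀ y, σ y = y ↔ y ∈ ι.range := fun y =>
        ⟨fun h => ⟨⟨y, (hK y).mpr h⟩, rfl⟩, fun ⟨z, hz⟩ => hz ▸ (hK _).mp z.2⟩
      obtain ⟨g₀, hg₀⟩ : i⁻¹ * δ₁ ∈ (subfieldHom m ι).range := by
        rw [range_subfieldHom hm σ ι hι]
        exact ⟨hmem, Subgroup.mem_centralizer_iff.mpr (by rintro _ rfl; exact hc.symm)⟩
      obtain ⟨c, hc'⟩ := map_mem_gsp ι g₀.2
      have hcK : σ (c : F) = c := by
        obtain ⟨e, hecoe⟩ := id g₀.2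
        obtain ⟨u, hu⟩ := exists_sympForm_eq_one
          (show (Pi.single (Sum.inl ⟨0, by omega⟩) 1 : Fin m ⊕ Fin m → F) ≠ 0 by simp)
        obtain ⟨P, hP⟩ := mem_gsp_iff.mp g₀.2
        obtain ⟨c2, hc2⟩ := mem_gsp_iff.mp (map_mem_gsp ι g₀.2)
        have hcc : (c : F) = ι (P : K) := by
          have h1 : (((Matrix.GeneralLinearGroup.map ι g₀.1 : GL (Fin m ⊕ Fin m) F) : Matrix (Fin m ⊕ Fin m) (Fin m ⊕ Fin m) F))ᵀ *
              J (Fin m) F * (Matrix.GeneralLinearGroup.map ι g₀.1 : GL (Fin m ⊕ Fin m) F) = (ι (P : K)) • J (Fin m) F := by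
            show ((g₀.1 : Matrix (Fin m ⊕ Fin m) (Fin m ⊕ Fin m) K).map ι)ᵀ * _ * (g₀.1 : Matrix (Fin m ⊕ Fin m) (Fin m ⊕ Fin m) K).map ι = _
            rw [← map_J (m := m) ι, ← Matrix.transpose_map, ← Matrix.map_mul, ← Matrix.map_mul, hP]
            ext i j
            simp
            exact congrFun (congrFun (map_J (m := m) ι) i) j
          have h2' := hc' u (Pi.single (Sum.inl ⟨0, by omega⟩) 1)
          rw [hu, mul_one, Cfsg.sympForm, ← Matrix.vecMul_transpose, ← Matrix.dotProduct_mulVec, Matrix.mulVec_mulVec,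
            Matrix.mulVec_mulVec, h1, Matrix.smul_mulVec, dotProduct_smul] at h2'
          rw [← h2', show u ⬝ᵥ J (Fin m) F *ᵥ Pi.single (Sum.inl ⟨0, by omega⟩) 1 = 1 from hu, smul_eq_mul, mul_one]
        rw [hcc]
        exact (hι _).mpr ⟨_, rfl⟩
      have hcsq : IsSquare (c : F) := by
        rw [FiniteField.isSquare_iff hchar c.ne_zero]
        have hkF : Fintype.card F = Nat.card K ^ 2 := by rw [← Nat.card_eq_fintype_card, hKcard, hr2]
        set k := Nat.card K with hk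
        have hk1 : (c : F) ^ (k - 1) = 1 := by
          let cK : Kˣ := Units.mk0 ⟨(c : F), (hK _).mpr hcK⟩ (fun h => c.ne_zero (congrArg Subtype.val h))
          have h1 : cK ^ (k - 1) = 1 := by
            rw [hk, ← Nat.card_units K]
            exact pow_card_eq_one'
          have h2' := congrArg (fun z : Kˣ => ((z : K) : F)) h1
          simpa [cK] using h2'
        have hdiv : (k - 1) ∣ Fintype.card F / 2 := by
          obtain ⟨j, hj⟩ : Odd k := by
            rw [hkF, Nat.odd_pow_iff two_ne_zero] at hodd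
            exact hodd
          refine ⟨j + 1, ?_⟩
          rw [hkF, hj]
          have : (2 * j + 1) ^ 2 = 2 * ((2 * j + 1 - 1) * (j + 1)) + 1 := by
            rw [Nat.add_sub_cancel]; ring
          omega
        obtain ⟨d, hd⟩ := hdiv
        rw [hd, pow_mul, hk1, one_pow]
      obtain ⟨a, ha⟩ := hcsq
      have ha0 : a ≠ 0 := fun h => c.ne_zero (by rw [ha, h, mul_zero])
      have hinn := semiAut_refl_mem_inn hm (map_mem_gsp ι g₀.2) (Units.mk0 a ha0) (fun u v => by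
        rw [hc', Units.val_mul, Units.val_mk0, ← ha])
      rw [← subfieldHom_apply, hg₀] at hinn
      have hδinn : δ₁ ∈ Cfsg.Inn (Cfsg.PSp m F) := by simpa using mul_mem hi hinn
      exact hν (isSquare_of_semiAut_mem_inn hm _ hδinn (fun u v => multDiag_sim _ u v))
    rw [Nat.gcd_self]
    refine Nat.card_eq_two_iff.mpr ⟨Quot.mk _ x₀, Quot.mk _ y₁, fun h => hne ?_, ?_⟩
    · exact hequiv.eqvGen_iff.mp (Quot.eqvGen_exact h)
    · refine Set.eq_univ_of_forall fun z => ?_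
      induction z using Quot.ind with | _ y => ?_
      rcases hsplit (Units.mk0 ν hν0) hν y with h | h
      · exact Or.inl (Quot.sound h).symm
      · exact Or.inr (Set.mem_singleton_iff.mpr (Quot.sound h).symm)
  · have hco : Nat.gcd 2 (orderOf σ) = 1 := Nat.Coprime.gcd_eq_one (Nat.coprime_two_left.mpr hrodd)
    rw [hco]
    have hKodd : ringChar K ≠ 2 := fun h => h2 (by
      have h0 := ringChar.Nat.cast_ringChar (R := K)
      rw [h] at h0
      have h0' := congrArg K.subtype h0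
      rw [map_natCast, map_zero] at h0'
      exact_mod_cast h0')
    obtain ⟨ν, hν⟩ := FiniteField.exists_nonsquare hKodd
    have hν0 : ν ≠ 0 := fun h => hν (h ▸ IsSquare.zero)
    have hνF : ¬ IsSquare (ν : F) := by
      rintro ⟨s, hs⟩
      have hsσ : σ s = s ∨ σ s = -s := by
        rw [← mul_self_eq_mul_self_iff, ← map_mul, ← hs]
        exact (hK _).mp ν.2
      rcases hsσ with h | h
      · exact hν ⟨⟨s, (hK s).mpr h⟩, Subtype.ext hs⟩
      · have hpow : ∀ i : ℕ, (σ ^ i) s = (-1) ^ i * s := fun i => by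
          induction i with
          | zero => simp
          | succ i ih => rw [pow_succ', RingAut.mul_apply, ih, map_mul, map_pow, map_neg, map_one, h]; ring
        have h3 := hpow (orderOf σ)
        rw [pow_orderOf_eq_one, hrodd.neg_one_pow, RingAut.one_apply] at h3
        have h4 : (2 : F) * s = 0 := by linear_combination h3
        have hs0 : s = 0 := (mul_eq_zero.mp h4).resolve_left h2
        rw [hs0, mul_zero] at hs
        exact hν0 (Subtype.ext hs)
    have hν0F : (ν : F) ≠ 0 := fun h => hν0 (Subtype.ext h)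
    refine Nat.card_eq_one_iff_unique.mpr ⟨⟨fun y z => ?_⟩, ⟨Quot.mk _ x₀⟩⟩
    suffices h : ∀ y, y = Quot.mk R x₀ from (h y).trans (h z).symm
    intro y
    induction y using Quot.ind with | _ y => ?_
    rcases hsplit (Units.mk0 _ hν0F) hνF y with h | h
    · exact (Quot.sound h).symm
    · refine Eq.trans (Quot.sound h).symm (congrArg (Quot.mk R) (Subtype.ext ?_))
      show _ * fieldHom m F σ * _ = fieldHom m F σ
      rw [mul_inv_eq_iff_eq_mul]
      refine (semiAut_refl_commute_iff hm _ σ).mpr ⟨1, ?_⟩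
      rw [map_one, one_mul]
      refine Units.ext (Matrix.ext fun i j => ?_)
      rcases eq_or_ne i j with h | h
      · subst h
        rcases i with i | i <;> simp [coe_glMap, multDiag, (hK _).mp ν.2]
      · simp [coe_glMap, multDiag, h]

/-- The three assertions about a field automorphism of prime order. -/
theorem fieldAut_prime_order [Fintype F] [Fintype F₀] {p f : ℕ} [Fact p.Prime] (hF : Fintype.card F = p ^ f)
    (hm : 2 ≤ m) (x : MulAut (Cfsg.PSp m F)) (hx : Cfsg.IsFieldAutClassPSp x) {r : ℕ} (hr : r.Prime)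
    (hxr : orderOf x = r) (hF₀ : Fintype.card F₀ = p ^ (f / r)) :
    r ∣ f ∧ Nonempty (↥(Cfsg.inndiagPSp m F ⊓ Subgroup.centralizer {x}) ≃* Cfsg.PGSp m F₀) ∧
      Cfsg.splitClassCount (Cfsg.inndiagPSp m F) (Cfsg.Inn (Cfsg.PSp m F)) x =
        Nat.gcd (Nat.gcd 2 (p ^ f - 1)) r := by
  classical
  obtain ⟨α, σ, -, hx0, hord⟩ := exists_std hm hx
  obtain ⟨K, hK, hKcard⟩ := Descent.exists_fixedField σ
  rw [Nat.card_eq_fintype_card, hF, hord, hxr] at hKcard
  obtain ⟨e, -, he⟩ : ∃ e ≤ f, Nat.card K = p ^ e :=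
    (Nat.dvd_prime_pow Fact.out).mp ⟨Nat.card K ^ (r - 1), by
      rw [hKcard, ← pow_succ', Nat.sub_add_cancel hr.one_le]⟩
  have hef : e * r = f := by
    rw [he, ← pow_mul] at hKcard
    exact (Nat.pow_right_injective (Fact.out : p.Prime).two_le hKcard).symm
  have hdiv : r ∣ f := ⟨e, by rw [← hef, mul_comm]⟩
  refine ⟨hdiv, ?_, ?_⟩
  · cases nonempty_fintype K
    have hcard : Fintype.card F₀ = Fintype.card K := by
      rw [hF₀, ← Nat.card_eq_fintype_card, he, ← hef, Nat.mul_div_cancel _ hr.pos]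
    let ι : F₀ →+* F := K.subtype.comp (FiniteField.ringEquivOfCardEq hcard).toRingHom
    obtain ⟨E⟩ := nonempty_centralizer_equiv (m := m) hm σ ι fun y =>
      ⟨fun h => ⟨(FiniteField.ringEquivOfCardEq hcard).symm ⟨y, (hK y).mpr h⟩, by simp [ι]⟩,
        fun ⟨z, hz⟩ => hz ▸ (hK _).mp (FiniteField.ringEquivOfCardEq hcard z).2⟩
    have hmap : (Cfsg.inndiagPSp m F ⊓ Subgroup.centralizer {x}).map (MulAut.conj α).toMonoidHom =
        Cfsg.inndiagPSp m F ⊓ Subgroup.centralizer {fieldHom m F σ} := by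
      ext y
      simp only [Subgroup.mem_map, Subgroup.mem_inf, Subgroup.mem_centralizer_iff, Set.mem_singleton_iff,
        forall_eq, MulEquiv.coe_toMonoidHom, MulAut.conj_apply]
      constructor
      · rintro ⟨z, ⟨hz, hzc⟩, rfl⟩
        refine ⟨inndiag_conj_mem hm α hz, ?_⟩
        rw [← hx0]
        calc α * x * α⁻¹ * (α * z * α⁻¹) = α * (x * z) * α⁻¹ := by group
          _ = α * (z * x) * α⁻¹ := by rw [hzc]
          _ = _ := by group
      · rintro ⟨hy, hyc⟩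
        refine ⟨α⁻¹ * y * α⁻¹⁻¹, ⟨inndiag_conj_mem hm α⁻¹ hy, ?_⟩, by group⟩
        rw [← hx0] at hyc
        calc x * (α⁻¹ * y * α⁻¹⁻¹) = α⁻¹ * (α * x * α⁻¹ * y) * α := by group
          _ = α⁻¹ * (y * (α * x * α⁻¹)) * α := by rw [hyc]
          _ = _ := by group
    exact ⟨((Subgroup.equivMapOfInjective _ _ (MulAut.conj α).injective).trans
      (MulEquiv.subgroupCongr hmap)).trans E⟩
  · rw [← splitClassCount_conj (Cfsg.inndiagPSp m F) (Cfsg.Inn (Cfsg.PSp m F))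
      (fun a _ hh => inndiag_conj_mem hm a hh) α x, hx0,
      splitClassCount_fieldHom hm σ (by rwa [hord, hxr]), hF, hord, hxr]

end Cfsg.Agent.H2.AutPSp
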