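import Cfsg.Agent.H2.Generation
import Cfsg.Agent.H2.Simple
import Cfsg.Agent.H2.Card
import Cfsg.Agent.H2.Basis

/-!
Orthogonality-preserving bijections of the symplectic projective space are semilinear similitudes.
-/

set_option autoImplicit false

namespace Cfsg.Agent.H2.AutPSp

open Matrix Projectivization
open scoped LinearAlgebra.Projectivization

variable {m : ℕ} {F : Type*} [Field F]

/-- The pairing of a coordinate vector with its partner. -/
def eps (F : Type*) [Field F] : Fin m ⊕ Fin m → F := Sum.elim (fun _ => -1) (fun _ => 1)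

theorem eps_ne_zero (a : Fin m ⊕ Fin m) : eps F a ≠ 0 := by
  rcases a with a | a <;> simp [eps]

theorem sympForm_eq_sum (u v : Fin m ⊕ Fin m → F) :
    Cfsg.sympForm m F u v = ∑ a, eps F a * u a * v a.swap := by
  rw [sympForm_apply, Fintype.sum_sum_type, ← Finset.sum_add_distrib]
  exact Finset.sum_congr rfl fun i _ => by simp [eps]; ring

theorem sympForm_pair {u v : Fin m ⊕ Fin m → F} {a b : Fin m ⊕ Fin m} (hab : a ≠ b)
    (hv : ∀ c, c ≠ a → c ≠ b → v c.swap = 0) :
    Cfsg.sympForm m F u v = eps F a * u a * v a.swap + eps F b * u b * v b.swap := by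
  classical
  rw [sympForm_eq_sum, ← Finset.sum_pair (f := fun c => eps F c * u c * v c.swap) hab]
  refine (Finset.sum_subset (Finset.subset_univ _) fun c _ hc => ?_).symm
  simp only [Finset.mem_insert, Finset.mem_singleton, not_or] at hc
  rw [hv c hc.1 hc.2, mul_zero]

/-- Data: a map on non-zero vectors preserving orthogonality and fixing coordinate points. -/
structure OrthMap (m : ℕ) (F : Type*) [Field F] where
  /-- The underlying map. -/
  toFun : (Fin m ⊕ Fin m → F) → (Fin m ⊕ Fin m → F)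
  ne_zero : ∀ x, x ≠ 0 → toFun x ≠ 0
  orth_iff : ∀ x y, x ≠ 0 → y ≠ 0 →
    (Cfsg.sympForm m F (toFun x) (toFun y) = 0 ↔ Cfsg.sympForm m F x y = 0)
  single : ∀ a, ∀ b, b ≠ a → toFun (Pi.single a 1) b = 0

namespace OrthMap

variable (Y : OrthMap m F)

theorem coord_eq_zero_iff {x : Fin m ⊕ Fin m → F} (hx : x ≠ 0) (a : Fin m ⊕ Fin m) :
    Y.toFun x a = 0 ↔ x a = 0 := by
  classical
  have he : (Pi.single a.swap 1 : Fin m ⊕ Fin m → F) ≠ 0 := by simp
  have key : ∀ u v : Fin m ⊕ Fin m → F, (∀ b, b ≠ a.swap → v b = 0) →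
      Cfsg.sympForm m F u v = eps F a * u a * v a.swap := by
    intro u v hv
    rw [sympForm_eq_sum]
    refine Finset.sum_eq_single a (fun c _ hc => ?_) (by simp)
    rw [hv _ (fun h => hc (by simpa using congrArg Sum.swap h)), mul_zero]
  have hne : Y.toFun (Pi.single a.swap 1) a.swap ≠ 0 := by
    intro h
    refine Y.ne_zero _ he (funext fun b => ?_)
    by_cases hb : b = a.swap
    · rw [hb]; exact h
    · exact Y.single _ b hb
  have h := Y.orth_iff x _ hx he
  rw [key _ _ (fun b hb => Y.single _ b hb), key _ _ (fun b hb => Pi.single_eq_of_ne hb _)] at h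
  simpa [eps_ne_zero, hne] using h

/-- The vector testing the ratio of two coordinates. -/
def test (a b : Fin m ⊕ Fin m) (t : F) : Fin m ⊕ Fin m → F :=
  Pi.single a.swap (eps F a)⁻¹ + Pi.single b.swap (-t * (eps F b)⁻¹)

theorem test_apply {a b : Fin m ⊕ Fin m} (hab : a ≠ b) (t : F) :
    test a b t a.swap = (eps F a)⁻¹ ∧ test a b t b.swap = -t * (eps F b)⁻¹ ∧
      ∀ c, c ≠ a → c ≠ b → test a b t c.swap = 0 := by
  have hs : a.swap ≠ b.swap := fun h => hab (by simpa using congrArg Sum.swap h)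
  refine ⟨by simp [test, hs], by simp [test, Ne.symm hs], fun c h1 h2 => ?_⟩
  have h1' : c.swap ≠ a.swap := fun h => h1 (by simpa using congrArg Sum.swap h)
  have h2' : c.swap ≠ b.swap := fun h => h2 (by simpa using congrArg Sum.swap h)
  simp [test, h1', h2']

theorem test_ne_zero {a b : Fin m ⊕ Fin m} (hab : a ≠ b) (t : F) : test a b t ≠ 0 := fun h => by
  have := (test_apply hab t).1
  rw [h] at this
  exact inv_ne_zero (eps_ne_zero a) this.symm

/-- The transformation of the ratio of coordinates `a` and `b`. -/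
def psi (a b : Fin m ⊕ Fin m) (t : F) : F :=
  -(eps F b * Y.toFun (test a b t) b.swap) / (eps F a * Y.toFun (test a b t) a.swap)

theorem ratio_iff {a b : Fin m ⊕ Fin m} (hab : a ≠ b) (t : F) {x : Fin m ⊕ Fin m → F} (hx : x ≠ 0) :
    Y.toFun x a = Y.psi a b t * Y.toFun x b ↔ x a = t * x b := by
  obtain ⟨h1, h2, h3⟩ := test_apply hab t
  have hy := test_ne_zero hab t
  have hA : Y.toFun (test a b t) a.swap ≠ 0 := fun h => by
    rw [Y.coord_eq_zero_iff hy, h1] at h
    exact inv_ne_zero (eps_ne_zero a) h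
  have hz : ∀ c, c ≠ a → c ≠ b → Y.toFun (test a b t) c.swap = 0 := fun c hca hcb => by
    rw [Y.coord_eq_zero_iff hy]; exact h3 c hca hcb
  have h := Y.orth_iff x _ hx hy
  rw [sympForm_pair hab hz, sympForm_pair hab h3, h1, h2] at h
  have e1 : eps F a * x a * (eps F a)⁻¹ + eps F b * x b * (-t * (eps F b)⁻¹) = x a - t * x b := by
    have := eps_ne_zero (F := F) a
    have := eps_ne_zero (F := F) b
    field_simp
    ring
  rw [e1, sub_eq_zero] at h
  rw [← h, psi, div_mul_eq_mul_div, eq_div_iff (mul_ne_zero (eps_ne_zero a) hA)]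
  constructor <;> intro hh <;> linear_combination hh

theorem ratio {a b : Fin m ⊕ Fin m} (hab : a ≠ b) {x : Fin m ⊕ Fin m → F} (hx : x b ≠ 0) :
    Y.toFun x a = Y.psi a b (x a / x b) * Y.toFun x b :=
  (Y.ratio_iff hab _ (fun h => hx (by rw [h]; rfl))).mpr (div_mul_cancel₀ _ hx).symm

theorem psi_cocycle {a b c : Fin m ⊕ Fin m} (hab : a ≠ b) (hbc : b ≠ c) (hac : a ≠ c) (s t : F) :
    Y.psi a c (s * t) = Y.psi a b s * Y.psi b c t := by
  set x : Fin m ⊕ Fin m → F := Pi.single a (s * t) + Pi.single b t + Pi.single c 1 with hxdef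
  have ha : x a = s * t := by simp [hxdef, hab, hac]
  have hb : x b = t := by simp [hxdef, Ne.symm hab, hbc]
  have hc : x c = 1 := by simp [hxdef, Ne.symm hac, Ne.symm hbc]
  have hx : x ≠ 0 := fun h => one_ne_zero (hc.symm.trans (congrFun h c))
  have hYc : Y.toFun x c ≠ 0 := fun h => by
    rw [Y.coord_eq_zero_iff hx, hc] at h
    exact one_ne_zero h
  have h1 := (Y.ratio_iff hab s hx).mpr (by rw [ha, hb])
  have h2 := (Y.ratio_iff hbc t hx).mpr (by rw [hb, hc, mul_one])
  have h3 := (Y.ratio_iff hac (s * t) hx).mpr (by rw [ha, hc, mul_one])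
  rw [h1, h2, ← mul_assoc] at h3
  exact (mul_right_cancel₀ hYc h3).symm

theorem psi_eq_zero_iff {a b : Fin m ⊕ Fin m} (hab : a ≠ b) (t : F) : Y.psi a b t = 0 ↔ t = 0 := by
  set x : Fin m ⊕ Fin m → F := Pi.single a t + Pi.single b 1 with hxdef
  have ha : x a = t := by simp [hxdef, hab]
  have hb : x b = 1 := by simp [hxdef, Ne.symm hab]
  have hx : x ≠ 0 := fun h => one_ne_zero (hb.symm.trans (congrFun h b))
  have hYb : Y.toFun x b ≠ 0 := fun h => by
    rw [Y.coord_eq_zero_iff hx, hb] at h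
    exact one_ne_zero h
  have h1 := (Y.ratio_iff hab t hx).mpr (by rw [ha, hb, mul_one])
  rw [← ha, ← Y.coord_eq_zero_iff hx a, h1, mul_eq_zero, or_iff_left hYb, ha]

theorem psi_injective {a b : Fin m ⊕ Fin m} (hab : a ≠ b) : Function.Injective (Y.psi a b) := by
  intro t t' h
  set x : Fin m ⊕ Fin m → F := Pi.single a t + Pi.single b 1 with hxdef
  have ha : x a = t := by simp [hxdef, hab]
  have hb : x b = 1 := by simp [hxdef, Ne.symm hab]
  have hx : x ≠ 0 := fun h => one_ne_zero (hb.symm.trans (congrFun h b))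
  have h1 := (Y.ratio_iff hab t hx).mpr (by rw [ha, hb, mul_one])
  rw [h, Y.ratio_iff hab t' hx, ha, hb, mul_one] at h1
  exact h1

variable [Finite F]

/-- An orthogonality-preserving map is diagonal semilinear up to scalars. -/
theorem exists_diag_semilinear (hm : 2 ≤ m) : ∃ (c : Fin m ⊕ Fin m → F) (σ : F ≃+* F) (k : F),
    (∀ a, c a ≠ 0) ∧ (∀ a, c a * c a.swap = k) ∧
      ∀ x, x ≠ 0 → ∃ l : F, l ≠ 0 ∧ ∀ a, Y.toFun x a = l * (c a * σ (x a)) := by
  classical
  set o : Fin m ⊕ Fin m := Sum.inl ⟨0, by omega⟩ with ho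
  set o1 : Fin m ⊕ Fin m := Sum.inr ⟨0, by omega⟩ with ho1
  set o2 : Fin m ⊕ Fin m := Sum.inl ⟨1, by omega⟩ with ho2
  have h01 : o1 ≠ o := by simp [ho, ho1]
  have h02 : o2 ≠ o := by simp [ho, ho2]
  have h12 : o1 ≠ o2 := by simp [ho1, ho2]
  set c : Fin m ⊕ Fin m → F := fun a => if a = o then 1 else Y.psi a o 1 with hc
  have hco : c o = 1 := by simp [hc]
  have hcne : ∀ a, c a ≠ 0 := fun a => by
    by_cases ha : a = o
    · simp [ha, hco]
    · simp [hc, ha, Y.psi_eq_zero_iff ha]
  set s : F → F := fun t => Y.psi o1 o t / c o1 with hs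
  have hs1 : s 1 = 1 := by
    rw [hs]; simp only
    rw [div_eq_one_iff_eq (hcne o1)]
    simp [hc, h01]
  have hs0 : s 0 = 0 := by simp [hs, (Y.psi_eq_zero_iff h01 0).mpr rfl]
  have hpsio : ∀ a, a ≠ o → ∀ t, Y.psi a o t = c a * s t := by
    intro a ha t
    by_cases ha1 : a = o1
    · rw [ha1, hs]; simp only; rw [mul_div_cancel₀ _ (hcne o1)]
    · have h1 := Y.psi_cocycle ha1 h01 ha 1 t
      have h2 := Y.psi_cocycle ha1 h01 ha 1 1
      rw [one_mul] at h1 h2
      rw [show Y.psi a o 1 = c a by simp [hc, ha], show Y.psi o1 o 1 = c o1 by simp [hc, h01]] at h2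
      rw [h1, hs, h2]
      simp only
      rw [mul_assoc, mul_div_cancel₀ _ (hcne o1)]
  have hpsi : ∀ a b, a ≠ b → a ≠ o → b ≠ o → ∀ t, Y.psi a b t = c a * s t / c b := by
    intro a b hab ha hb t
    have h1 := Y.psi_cocycle hab hb ha t 1
    rw [mul_one, hpsio a ha, hpsio b hb, hs1, mul_one] at h1
    rw [eq_div_iff (hcne b), ← h1]
  have hmul : ∀ u v, s (u * v) = s u * s v := by
    intro u v
    have h1 := Y.psi_cocycle h12 h02 h01 u v
    rw [hpsio o1 h01, hpsi o1 o2 h12 h01 h02, hpsio o2 h02] at h1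
    field_simp [hcne o1, hcne o2] at h1
    exact h1
  have hinj : Function.Injective s := fun u v h => by
    refine Y.psi_injective h01 ?_
    rw [hpsio o1 h01, hpsio o1 h01, h]
  -- every image is proportional to the diagonal semilinear image
  have hprop : ∀ x : Fin m ⊕ Fin m → F, x ≠ 0 → ∃ l : F, l ≠ 0 ∧ ∀ a, Y.toFun x a = l * (c a * s (x a)) := by
    intro x hx
    obtain ⟨b, hb⟩ := Function.ne_iff.mp hx
    simp only [Pi.zero_apply] at hb
    by_cases hxo : x o = 0
    · have hbo : b ≠ o := fun h => hb (h ▸ hxo)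
      have hYb : Y.toFun x b ≠ 0 := fun h => hb ((Y.coord_eq_zero_iff hx b).mp h)
      have hsb : s (x b) ≠ 0 := fun h => hb (hinj (h.trans hs0.symm))
      refine ⟨Y.toFun x b / (c b * s (x b)), div_ne_zero hYb (mul_ne_zero (hcne b) hsb), fun a => ?_⟩
      by_cases hab : a = b
      · subst hab
        rw [div_mul_cancel₀ _ (mul_ne_zero (hcne a) hsb)]
      · by_cases hao : a = o
        · subst hao
          rw [(Y.coord_eq_zero_iff hx _).mpr hxo, hxo, hs0, mul_zero, mul_zero]
        · rw [Y.ratio hab hb, hpsi a b hab hao hbo]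
          have hsd : s (x a) = s (x a / x b) * s (x b) := by rw [← hmul, div_mul_cancel₀ _ hb]
          rw [hsd]
          field_simp [hcne b, hsb]
    · have hYo : Y.toFun x o ≠ 0 := fun h => hxo ((Y.coord_eq_zero_iff hx o).mp h)
      have hso : s (x o) ≠ 0 := fun h => hxo (hinj (h.trans hs0.symm))
      refine ⟨Y.toFun x o / s (x o), div_ne_zero hYo hso, fun a => ?_⟩
      by_cases hao : a = o
      · subst hao
        rw [hco, one_mul, div_mul_cancel₀ _ hso]
      · rw [Y.ratio hao hxo, hpsio a hao]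
        have hsd : s (x a) = s (x a / x o) * s (x o) := by rw [← hmul, div_mul_cancel₀ _ hxo]
        rw [hsd]
        field_simp [hso]
  -- orthogonality of the diagonal semilinear images
  have horth : ∀ x y : Fin m ⊕ Fin m → F, Cfsg.sympForm m F x y = 0 →
      ∑ a, eps F a * (c a * s (x a)) * (c a.swap * s (y a.swap)) = 0 := by
    intro x y hxy
    by_cases hx : x = 0
    · simp [hx, hs0]
    by_cases hy : y = 0
    · simp [hy, hs0]
    obtain ⟨l, hl, hlx⟩ := hprop x hx
    obtain ⟨l', hl', hly⟩ := hprop y hy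
    have h := (Y.orth_iff x y hx hy).mpr hxy
    rw [sympForm_eq_sum] at h
    have h' : (l * l') * ∑ a, eps F a * (c a * s (x a)) * (c a.swap * s (y a.swap)) = 0 := by
      rw [← h, Finset.mul_sum]
      exact Finset.sum_congr rfl fun a _ => by rw [hlx, hly]; ring
    exact (mul_eq_zero.mp h').resolve_left (mul_ne_zero hl hl')
  set k : Fin m → F := fun i => c (Sum.inl i) * c (Sum.inr i) with hk
  have hkne : ∀ i, k i ≠ 0 := fun i => mul_ne_zero (hcne _) (hcne _)
  have hneg : s (-1) = -1 := by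
    have h1 : s (-1) * s (-1) = 1 := by rw [← hmul, neg_mul_neg, one_mul, hs1]
    rcases mul_self_eq_one_iff.mp h1 with h2 | h2
    · have h3 : (-1 : F) = 1 := hinj (h2.trans hs1.symm)
      rw [h2, h3]
    · exact h2
  have horth2 : ∀ i j : Fin m, i ≠ j → ∀ (xl xr yl yr xl' xr' yl' yr' : F),
      (xr * yl - xl * yr) + (xr' * yl' - xl' * yr') = 0 →
      k i * (s xr * s yl - s xl * s yr) + k j * (s xr' * s yl' - s xl' * s yr') = 0 := by
    intro i j hij xl xr yl yr xl' xr' yl' yr' h
    let x : Fin m ⊕ Fin m → F := Sum.elim (fun l => if l = i then xl else if l = j then xl' else 0)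
      (fun l => if l = i then xr else if l = j then xr' else 0)
    let y : Fin m ⊕ Fin m → F := Sum.elim (fun l => if l = i then yl else if l = j then yl' else 0)
      (fun l => if l = i then yr else if l = j then yr' else 0)
    have hsum : ∀ (f : Fin m → F), (∀ l, l ≠ i → l ≠ j → f l = 0) → ∑ l, f l = f i + f j :=
      fun f hf => by
        rw [← Finset.sum_pair hij]
        refine (Finset.sum_subset (Finset.subset_univ _) fun l _ hl => ?_).symm
        simp only [Finset.mem_insert, Finset.mem_singleton, not_or] at hl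
        exact hf l hl.1 hl.2
    have h0 : Cfsg.sympForm m F x y = 0 := by
      rw [sympForm_apply, hsum _ fun l h1 h2 => by simp [x, y, h1, h2]]
      simpa [x, y, hij.symm] using h
    have h' := horth x y h0
    rw [Fintype.sum_sum_type, ← Finset.sum_add_distrib,
      hsum _ fun l h1 h2 => by simp [x, y, h1, h2, hs0]] at h'
    simp [x, y, eps, hij.symm] at h'
    simp only [hk]
    linear_combination h'
  have hkeq : ∀ i j, k i = k j := by
    intro i j
    by_cases hij : i = j
    · rw [hij]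
    · have h := horth2 i j hij 1 0 0 1 1 0 0 (-1) (by ring)
      simp only [hs0, hs1, hneg] at h
      linear_combination -h
  have hadd : ∀ u v, s (u + v) = s u + s v := by
    intro u v
    have hij : (⟨0, by omega⟩ : Fin m) ≠ ⟨1, by omega⟩ := by simp [Fin.ext_iff]
    have h := horth2 _ _ hij u (u + v) 1 1 v 0 0 1 (by ring)
    simp only [hs0, hs1, mul_one, mul_zero, zero_sub, mul_neg, hkeq ⟨1, by omega⟩ ⟨0, by omega⟩] at h
    have h' : k ⟨0, by omega⟩ * (s (u + v) - s u - s v) = 0 := by linear_combination h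
    have := (mul_eq_zero.mp h').resolve_left (hkne _)
    linear_combination this
  let σhom : F →+* F :=
    { toFun := s, map_one' := hs1, map_mul' := hmul, map_zero' := hs0, map_add' := hadd }
  let σ : F ≃+* F := RingEquiv.ofBijective σhom (Finite.injective_iff_bijective.mp hinj)
  refine ⟨c, σ, k ⟨0, by omega⟩, hcne, fun a => ?_, hprop⟩
  rcases a with i | i
  · exact hkeq i _
  · rw [Sum.swap_inr, mul_comm]; exact hkeq i _

end OrthMap

variable [Finite F]

/-- A bijection of points preserving orthogonality is induced by a semilinear similitude. -/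
theorem exists_semilinear_of_orth (hm : 2 ≤ m) (π : ℙ F (Fin m ⊕ Fin m → F) ≃ ℙ F (Fin m ⊕ Fin m → F))
    (hπ : ∀ p q, PointOrth (π p) (π q) ↔ PointOrth p q) :
    ∃ (g : GL (Fin m ⊕ Fin m) F) (σ : F ≃+* F),
      (∃ c : Fˣ, ∀ u v, Cfsg.sympForm m F ((g : Matrix _ _ F) *ᵥ u) ((g : Matrix _ _ F) *ᵥ v) =
        (c : F) * Cfsg.sympForm m F u v) ∧
      ∀ v : Fin m ⊕ Fin m → F, (hv : v ≠ 0) → ∃ l : F, l ≠ 0 ∧
        (π (mk F v hv)).rep = l • ((g : Matrix (Fin m ⊕ Fin m) (Fin m ⊕ Fin m) F) *ᵥ fun a => σ (v a)) := by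
  classical
  set Z : (Fin m ⊕ Fin m → F) → (Fin m ⊕ Fin m → F) :=
    fun x => if hx : x = 0 then 0 else (π (mk F x hx)).rep with hZ
  have hZne : ∀ x, x ≠ 0 → Z x ≠ 0 := fun x hx => by
    simp only [hZ, dif_neg hx]; exact rep_nonzero _
  have hZo : ∀ x y, x ≠ 0 → y ≠ 0 →
      (Cfsg.sympForm m F (Z x) (Z y) = 0 ↔ Cfsg.sympForm m F x y = 0) := fun x y hx hy => by
    simp only [hZ, dif_neg hx, dif_neg hy]
    rw [← pointOrth_mk hx hy, ← hπ]
    rfl
  have hne1 : ∀ a : Fin m ⊕ Fin m, (Pi.single a 1 : Fin m ⊕ Fin m → F) ≠ 0 := by simp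
  set P : Fin m ⊕ Fin m → Fin m ⊕ Fin m → F := fun a => Z (Pi.single a 1) with hP
  have hpair : ∀ a b, Cfsg.sympForm m F (P a) (P b) = 0 ↔ b ≠ a.swap := by
    intro a b
    rw [hP, hZo _ _ (hne1 a) (hne1 b)]
    rcases a with i | i
    · rw [sympForm_single_inl, neg_eq_zero]
      rcases b with j | j <;> simp [Pi.single_apply, eq_comm]
    · rw [sympForm_single_inr]
      rcases b with j | j <;> simp [Pi.single_apply, eq_comm]
  set d : Fin m ⊕ Fin m → F := Sum.elim (fun _ => 1)
    (fun i => (Cfsg.sympForm m F (P (Sum.inr i)) (P (Sum.inl i)))⁻¹) with hd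
  have hdne : ∀ a, d a ≠ 0 := by
    rintro (i | i)
    · simp [hd]
    · simp [hd, hpair]
  set U : Fin m ⊕ Fin m → Fin m ⊕ Fin m → F := fun a => d a • P a with hU
  have hUf : ∀ a b, Cfsg.sympForm m F (U a) (U b) =
      Cfsg.sympForm m F (Pi.single a 1) (Pi.single b 1) := by
    intro a b
    rw [hU, ← sympBilin_apply, map_smul, LinearMap.map_smul₂, smul_eq_mul, smul_eq_mul, sympBilin_apply]
    by_cases hb : b = a.swap
    · subst hb
      rcases a with i | i
      · rw [sympForm_single_inl, Sum.swap_inl, Pi.single_eq_same, sympForm_swap (P (Sum.inr i))]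
        simp only [hd, Sum.elim_inl, Sum.elim_inr, one_mul, mul_neg]
        rw [inv_mul_cancel₀ (by simp [hpair])]
      · rw [sympForm_single_inr, Sum.swap_inr, Pi.single_eq_same]
        simp only [hd, Sum.elim_inl, Sum.elim_inr, one_mul]
        rw [inv_mul_cancel₀ (by simp [hpair])]
    · rw [(hpair a b).mpr hb, mul_zero, mul_zero]
      rcases a with i | i
      · simp only [Sum.swap_inl] at hb
        rw [sympForm_single_inl, Pi.single_eq_of_ne (Ne.symm hb), neg_zero]
      · simp only [Sum.swap_inr] at hb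
        rw [sympForm_single_inr, Pi.single_eq_of_ne (Ne.symm hb)]
  have hUli : LinearIndependent F U := by
    have h := linearIndependent_symplectic_family (sympBilin m F) (sympBilin_isAlt m F)
      (fun i => U (Sum.inr i)) (fun i => U (Sum.inl i)) (fun i j => by
        rw [sympBilin_apply, hUf, sympForm_single_inr, Pi.single_apply]
        simp) (fun i j => by
        rw [sympBilin_apply, hUf, sympForm_single_inr, Pi.single_eq_of_ne (by simp)]) (fun i j => by
        rw [sympBilin_apply, hUf, sympForm_single_inl, Pi.single_eq_of_ne (by simp), neg_zero])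
    have := h.comp (Equiv.sumComm (Fin m) (Fin m)) (Equiv.injective _)
    have e : U = Sum.elim (fun i => U (Sum.inr i)) (fun i => U (Sum.inl i)) ∘ ⇑(Equiv.sumComm (Fin m) (Fin m)) := by
      funext a
      rcases a with i | i <;> rfl
    rw [e]
    exact this
  let eq := (finSumFinEquiv (m := m) (n := m)).symm
  obtain ⟨g₀, hg₀⟩ := exists_map_tuple (fun i => U (eq i)) (fun i => (Pi.single (eq i) 1 : Fin m ⊕ Fin m → F))
    (hUli.comp _ eq.injective) (by
      have h := (Pi.basisFun F (Fin m ⊕ Fin m)).linearIndependent.comp _ eq.injective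
      have e : (fun i => (Pi.single (eq i) 1 : Fin m ⊕ Fin m → F)) = ⇑(Pi.basisFun F (Fin m ⊕ Fin m)) ∘ ⇑eq :=
        funext fun i => (Pi.basisFun_apply F _ _).symm
      rw [e]
      exact h) (fun i j => hUf _ _)
  have hg₀' : ∀ a, (g₀ : Matrix (Fin m ⊕ Fin m) (Fin m ⊕ Fin m) F) *ᵥ U a = Pi.single a 1 := fun a => by
    simpa [eq] using hg₀ (finSumFinEquiv a)
  let Y : OrthMap m F :=
    { toFun := fun x => (g₀ : Matrix (Fin m ⊕ Fin m) (Fin m ⊕ Fin m) F) *ᵥ Z x
      ne_zero := fun x hx h => hZne x hx (by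
        have h2 := congrArg (fun w => g₀⁻¹ • w) h
        simpa [← smul_eq_mulVec_sp, inv_smul_smul] using h2)
      orth_iff := fun x y hx hy => by rw [sympForm_mulVec]; exact hZo x y hx hy
      single := fun a b hb => by
        have h := hg₀' a
        rw [hU, Matrix.mulVec_smul] at h
        have h2 := congrFun h b
        rw [Pi.smul_apply, smul_eq_mul, Pi.single_eq_of_ne hb] at h2
        exact (mul_eq_zero.mp h2).resolve_left (hdne a) }
  obtain ⟨c, σ, k, hc, hk, hprop⟩ := Y.exists_diag_semilinear hm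
  let D : GL (Fin m ⊕ Fin m) F :=
    ⟨Matrix.diagonal c, Matrix.diagonal (fun a => (c a)⁻¹),
      by simp [Matrix.diagonal_mul_diagonal, hc], by simp [Matrix.diagonal_mul_diagonal, hc]⟩
  let G₀ : GL (Fin m ⊕ Fin m) F := ((Matrix.symplecticGroup (Fin m) F).subtype).toHomUnits g₀⁻¹
  have hkne : k ≠ 0 := by
    rw [← hk (Sum.inl ⟨0, by omega⟩)]
    exact mul_ne_zero (hc _) (hc _)
  refine ⟨G₀ * D, σ, ⟨Units.mk0 k hkne, fun u v => ?_⟩, fun v hv => ?_⟩
  · rw [Units.val_mul, ← Matrix.mulVec_mulVec, ← Matrix.mulVec_mulVec]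
    show Cfsg.sympForm m F ((g₀⁻¹ : Matrix.symplecticGroup (Fin m) F).1 *ᵥ _)
      ((g₀⁻¹ : Matrix.symplecticGroup (Fin m) F).1 *ᵥ _) = _
    rw [sympForm_mulVec, sympForm_eq_sum, sympForm_eq_sum, Finset.mul_sum]
    refine Finset.sum_congr rfl fun a _ => ?_
    simp only [D, Matrix.mulVec_diagonal, Units.val_mk0, ← hk a]
    ring
  · obtain ⟨l, hl, hla⟩ := hprop v hv
    refine ⟨l, hl, ?_⟩
    have h1 : (g₀ : Matrix (Fin m ⊕ Fin m) (Fin m ⊕ Fin m) F) *ᵥ Z v =
        l • ((Matrix.diagonal c) *ᵥ fun a => σ (v a)) := funext fun a => by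
      rw [Pi.smul_apply, Matrix.mulVec_diagonal, smul_eq_mul]
      exact hla a
    have h2 := congrArg (fun w => (g₀⁻¹ : Matrix.symplecticGroup (Fin m) F).1 *ᵥ w) h1
    simp only [Matrix.mulVec_smul] at h2
    rw [← smul_eq_mulVec_sp, ← smul_eq_mulVec_sp, inv_smul_smul] at h2
    simp only [hZ, dif_neg hv] at h2
    rw [h2, Units.val_mul, ← Matrix.mulVec_mulVec]
    rfl

end Cfsg.Agent.H2.AutPSp
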