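import Cfsg.Agent.H2.AutPSp.Transvections

/-!
Automorphisms of PSp send transvections to transvections.
-/

set_option autoImplicit false

namespace Cfsg.Agent.H2.AutPSp

open Matrix

variable {m : ℕ} {F : Type*} [Field F] [Finite F] {p : ℕ} [Fact p.Prime] [CharP F p]

/-- A `p`-element of the centre of Sp is trivial. -/
theorem center_inter_pgroup (hm : 1 ≤ m) {z : Matrix.symplecticGroup (Fin m) F} {k : ℕ}
    (hz : z ∈ Subgroup.center (Matrix.symplecticGroup (Fin m) F)) (hk : z ^ p ^ k = 1) : z = 1 := by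
  rcases (mem_center_iff_eq hm z).mp hz with h | h
  · exact Subtype.ext h
  · have h2 := congrArg (fun g : Matrix.symplecticGroup (Fin m) F =>
      (g : Matrix (Fin m ⊕ Fin m) (Fin m ⊕ Fin m) F) (Sum.inl ⟨0, hm⟩) (Sum.inl ⟨0, hm⟩)) hk
    simp only [SubmonoidClass.coe_pow, h, Submonoid.coe_one, one_apply_eq] at h2
    rw [show (-1 : Matrix (Fin m ⊕ Fin m) (Fin m ⊕ Fin m) F) = (-1 : F) • 1 by rw [neg_one_smul],
      smul_pow, one_pow, Matrix.smul_apply, one_apply_eq, smul_eq_mul, mul_one] at h2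
    have h3 : (-1 : F) = 1 := by
      rw [← sub_eq_zero]
      refine (pow_eq_zero_iff (pow_ne_zero k (Fact.out : p.Prime).ne_zero)).mp ?_
      rw [sub_pow_char_pow, one_pow, h2, sub_self]
    refine Subtype.ext ?_
    rw [h, show (-1 : Matrix (Fin m ⊕ Fin m) (Fin m ⊕ Fin m) F) = (-1 : F) • 1 by rw [neg_one_smul],
      h3, one_smul]
    rfl

/-- The index of a vector stabiliser is prime to the characteristic. -/
theorem exists_sylow_centralizing_transv (hm : 1 ≤ m) (v : Fin m ⊕ Fin m → F) (hv : v ≠ 0) (c : F) :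
    ∃ P : Sylow p (Matrix.symplecticGroup (Fin m) F), transv v c ∈ (P : Subgroup _) ∧
      ∀ u ∈ (P : Subgroup _), u * transv v c = transv v c * u := by
  set H := MulAction.stabilizer (Matrix.symplecticGroup (Fin m) F) v with hH
  have horb : MulAction.orbit (Matrix.symplecticGroup (Fin m) F) v = {w | w ≠ 0} := by
    ext w
    refine ⟨?_, fun hw => ?_⟩
    · rintro ⟨g, rfl⟩ h0
      have h' := congrArg (fun w => g⁻¹ • w) h0
      simp only [inv_smul_smul, smul_zero] at h'
      exact hv h'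
    · obtain ⟨g, hg⟩ := exists_map_vec hv hw
      exact ⟨g, hg⟩
  have hidx : ¬ p ∣ H.index := by
    rw [hH, MulAction.index_stabilizer, horb]
    classical
    cases nonempty_fintype F
    have hc : ({w : Fin m ⊕ Fin m → F | w ≠ 0}).ncard = Fintype.card F ^ (m + m) - 1 := by
      rw [show ({w : Fin m ⊕ Fin m → F | w ≠ 0}) = ({0} : Set (Fin m ⊕ Fin m → F))ᶜ from rfl,
        Set.ncard_compl, Set.ncard_singleton, Nat.card_eq_fintype_card]
      simp
    rw [hc]
    obtain ⟨n, -, hn⟩ := FiniteField.card F p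
    have hp : p ∣ Fintype.card F ^ (m + m) := by
      rw [hn, ← pow_mul]
      exact dvd_pow_self p (by have := n.2; positivity)
    intro hd
    have hpos : 0 < Fintype.card F ^ (m + m) := pow_pos Fintype.card_pos _
    have h1 : p ∣ 1 := by
      have h3 := Nat.dvd_sub hp hd
      rwa [Nat.sub_sub_self hpos] at h3
    exact (Fact.out : p.Prime).not_dvd_one h1
  obtain ⟨Q⟩ : Nonempty (Sylow p H) := inferInstance
  have hQ : IsPGroup p (Q.map H.subtype) := Q.2.map _
  have hQi : ¬ p ∣ (Q.map H.subtype).index := by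
    rw [Subgroup.index_map_subtype]
    intro hd
    rcases (Fact.out : p.Prime).dvd_mul.mp hd with h | h
    · exact Q.not_dvd_index' Subgroup.index_ne_zero_of_finite h
    · exact hidx h
  have hcomm : ∀ g ∈ H, g * transv v c = transv v c * g := by
    intro g hg
    have h2 := conj_transv g v c
    rw [← smul_eq_mulVec_sp, show g • v = v from hg, mul_inv_eq_iff_eq_mul] at h2
    exact h2
  refine ⟨hQ.toSylow hQi, ?_, fun u hu => ?_⟩
  · rw [IsPGroup.toSylow_coe]
    have htH : transv v c ∈ H := by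
      show transv v c • v = v
      rw [smul_eq_mulVec_sp, coe_transv, sympTransvection_mulVec, sympForm_self, mul_zero, zero_smul,
        add_zero]
    refine ⟨⟨transv v c, htH⟩, ?_, rfl⟩
    have htp : IsPGroup p (Subgroup.zpowers (⟨transv v c, htH⟩ : H)) := by
      have hord : (⟨transv v c, htH⟩ : H) ^ p = 1 := by
        apply Subtype.ext
        rw [SubmonoidClass.coe_pow]
        show transv v c ^ p = 1
        have hn : ∀ n : ℕ, transv v c ^ n = transv v ((n : F) * c) := by
          intro n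
          induction n with
          | zero => simp [transv_zero]
          | succ n ih => rw [pow_succ, ih, transv_mul]; congr 1; push_cast; ring
        rw [hn, CharP.cast_eq_zero, zero_mul, transv_zero]
      rintro ⟨x, j, rfl⟩
      refine ⟨1, Subtype.ext ?_⟩
      simp only [SubmonoidClass.coe_pow, pow_one, OneMemClass.coe_one]
      rw [← zpow_natCast, ← _root_.zpow_mul, mul_comm, _root_.zpow_mul, zpow_natCast, hord, _root_.one_zpow]
    have hnorm : (Subgroup.zpowers (⟨transv v c, htH⟩ : H)).Normal := by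
      refine ⟨fun x hx g => ?_⟩
      obtain ⟨j, rfl⟩ := hx
      have hc : Commute g (⟨transv v c, htH⟩ : H) := Subtype.ext (hcomm g g.2)
      rw [(hc.zpow_right j).eq, mul_inv_cancel_right]
      exact ⟨j, rfl⟩
    haveI := hnorm
    exact (Q.3 (Q.2.to_sup_of_normal_right htp) le_sup_left).le (Subgroup.mem_sup_right (Subgroup.mem_zpowers _))
  · rw [IsPGroup.toSylow_coe] at hu
    obtain ⟨⟨u, huH⟩, -, rfl⟩ := hu
    exact hcomm u huH

/-- The conjugates of the image of a transvection number at most `q ^ (2 m) - 1`. -/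
theorem card_class_transv_le (v : Fin m ⊕ Fin m → F) (hv : v ≠ 0) (c : F) :
    (MulAction.orbit (ConjAct (Cfsg.PSp m F)) (QuotientGroup.mk' _ (transv v c) : Cfsg.PSp m F)).ncard ≤
      Nat.card {w : Fin m ⊕ Fin m → F // w ≠ 0} := by
  classical
  rw [← Nat.card_coe_set_eq]
  refine Nat.card_le_card_of_surjective
    (fun w : {w : Fin m ⊕ Fin m → F // w ≠ 0} => (⟨QuotientGroup.mk' _ (transv w.1 c), ?_⟩ :
      MulAction.orbit (ConjAct (Cfsg.PSp m F)) (QuotientGroup.mk' _ (transv v c) : Cfsg.PSp m F))) ?_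
  · obtain ⟨g, hg⟩ := exists_map_vec hv w.2
    refine ⟨ConjAct.toConjAct (QuotientGroup.mk' _ g), ?_⟩
    show ConjAct.toConjAct (QuotientGroup.mk' _ g) • (QuotientGroup.mk' _ (transv v c) : Cfsg.PSp m F) = _
    rw [ConjAct.toConjAct_smul, ← map_inv, ← map_mul, ← map_mul, conj_transv, hg]
  · rintro ⟨y, hy⟩
    obtain ⟨a, rfl⟩ := hy
    obtain ⟨b, rfl⟩ := ConjAct.toConjAct.surjective a
    obtain ⟨g, rfl⟩ := QuotientGroup.mk'_surjective _ b
    refine ⟨⟨g • v, fun h => hv ?_⟩, Subtype.ext ?_⟩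
    · have h' := congrArg (fun w => g⁻¹ • w) h
      simp only [inv_smul_smul, smul_zero] at h'
      exact h'
    · show _ = ConjAct.toConjAct (QuotientGroup.mk' _ g) • (QuotientGroup.mk' _ (transv v c) : Cfsg.PSp m F)
      rw [ConjAct.toConjAct_smul, ← map_inv, ← map_mul, ← map_mul, conj_transv]
      rfl

/-- An upper unipotent with two non-zero entries has too many conjugates. -/
theorem card_class_long (hm : 3 ≤ m) (h2 : (2 : F) = 0) {z : Matrix.symplecticGroup (Fin m) F}
    {S : Matrix (Fin m) (Fin m) F}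
    (hz : (z : Matrix (Fin m ⊕ Fin m) (Fin m ⊕ Fin m) F) = Matrix.fromBlocks 1 S 0 1)
    (hsupp : ∀ i j : Fin m, (2 ≤ (i : ℕ) ∨ ((i : ℕ) = 1 ∧ (j : ℕ) ≠ 0)) → S i j = 0)
    (hne : S ⟨1, by omega⟩ ⟨0, by omega⟩ ≠ 0) (hsym : Sᵀ = S) :
    Nat.card {w : Fin m ⊕ Fin m → F // w ≠ 0} <
      (MulAction.orbit (ConjAct (Cfsg.PSp m F)) (QuotientGroup.mk' _ z : Cfsg.PSp m F)).ncard := by
  classical
  cases nonempty_fintype F
  set i0 : Fin m := ⟨0, by omega⟩
  set i1 : Fin m := ⟨1, by omega⟩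
  set e : Fin 2 → Fin m ⊕ Fin m → F := ![Pi.single (Sum.inl i0) 1, Pi.single (Sum.inl i1) 1] with he
  set W := Submodule.span F (Set.range e)
  have hei : LinearIndependent F e := by
    rw [LinearIndependent.pair_iff]
    intro s t h
    have h0 := congrFun h (Sum.inl i0)
    have h1 := congrFun h (Sum.inl i1)
    simp [i0, i1] at h0 h1
    exact ⟨h0, h1⟩
  have heo : ∀ i j, Cfsg.sympForm m F (e i) (e j) = 0 := by
    simp [e, Fin.forall_fin_two, sympForm_single_inl]
  set R := fun g : Matrix.symplecticGroup (Fin m) F =>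
    LinearMap.range ((Matrix.toLin' (g : Matrix (Fin m ⊕ Fin m) (Fin m ⊕ Fin m) F)) - 1) with hR
  have hzapply : ∀ x, ((Matrix.toLin' (z : Matrix (Fin m ⊕ Fin m) (Fin m ⊕ Fin m) F)) - 1) x =
      Sum.elim (S *ᵥ (x ∘ Sum.inr)) 0 := by
    intro x
    rw [LinearMap.sub_apply, Matrix.toLin'_apply, Module.End.one_apply, hz, Matrix.fromBlocks_mulVec]
    funext r
    rcases r with i | i <;> simp [Function.comp_def]
  have hRz : R z = W := by
    have hWk : Module.finrank F W = 2 := by rw [finrank_span_eq_card hei]; rfl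
    refine Submodule.eq_of_le_of_finrank_le ?_ ?_
    · rintro _ ⟨x, rfl⟩
      rw [hzapply, Submodule.mem_span_range_iff_exists_fun]
      refine ⟨![(S *ᵥ (x ∘ Sum.inr)) i0, (S *ᵥ (x ∘ Sum.inr)) i1], funext fun r => ?_⟩
      rcases r with i | i
      · rcases Nat.lt_or_ge (i : ℕ) 2 with h | h
        · rcases (show (i : ℕ) = 0 ∨ (i : ℕ) = 1 by omega) with h0 | h0
          · rw [show i = i0 from Fin.ext h0]; simp [Fin.sum_univ_two, e, i0, i1]
          · rw [show i = i1 from Fin.ext h0]; simp [Fin.sum_univ_two, e, i0, i1]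
        · have hne0 : i ≠ i0 := fun hh => by rw [hh] at h; simp [i0] at h
          have hne1 : i ≠ i1 := fun hh => by rw [hh] at h; simp [i1] at h
          have : (S *ᵥ (x ∘ Sum.inr)) i = 0 := by
            show ∑ j, S i j * (x ∘ Sum.inr) j = 0
            exact Finset.sum_eq_zero fun j _ => by rw [hsupp i j (Or.inl h), zero_mul]
          simp [Fin.sum_univ_two, e, hne0, hne1, this]
      · simp [Fin.sum_univ_two, e]
    · rw [hWk]
      have hv : LinearIndependent F ![((Matrix.toLin' (z : Matrix (Fin m ⊕ Fin m) (Fin m ⊕ Fin m) F)) - 1) (Pi.single (Sum.inr i0) 1),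
          ((Matrix.toLin' (z : Matrix (Fin m ⊕ Fin m) (Fin m ⊕ Fin m) F)) - 1) (Pi.single (Sum.inr i1) 1)] := by
        rw [LinearIndependent.pair_iff]
        intro s t h
        rw [hzapply, hzapply] at h
        have h0 := congrFun h (Sum.inl i0)
        have h1 := congrFun h (Sum.inl i1)
        have e0 : ((Pi.single (Sum.inr i0) 1 : Fin m ⊕ Fin m → F) ∘ Sum.inr) = Pi.single i0 1 := by
          funext j; simp [Pi.single_apply]
        have e1 : ((Pi.single (Sum.inr i1) 1 : Fin m ⊕ Fin m → F) ∘ Sum.inr) = Pi.single i1 1 := by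
          funext j; simp [Pi.single_apply]
        have h11 : S i1 i1 = 0 := hsupp i1 i1 (Or.inr ⟨rfl, one_ne_zero⟩)
        have h01 : S i0 i1 = S i1 i0 := by
          conv_lhs => rw [← hsym]
          rfl
        simp [e0, e1, h11, h01] at h0 h1
        have hs : s = 0 := h1.resolve_right hne
        rw [hs, zero_mul, zero_add, mul_eq_zero] at h0
        exact ⟨hs, h0.resolve_right hne⟩
      calc 2 = Fintype.card (Fin 2) := rfl
        _ ≤ _ := by
          rw [← finrank_span_eq_card hv]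
          refine Submodule.finrank_mono (Submodule.span_le.mpr fun w hw => ?_)
          obtain ⟨i, rfl⟩ := hw
          fin_cases i <;> exact LinearMap.mem_range_self _ _
  have hchoose : ∀ t : IsotropicTuple m 2 F, ∃ g : Matrix.symplecticGroup (Fin m) F,
      ∀ i, (g : Matrix (Fin m ⊕ Fin m) (Fin m ⊕ Fin m) F) *ᵥ e i = t.1 i :=
    fun t => exists_map_tuple e t.1 hei t.2.1 fun i j => by rw [heo, t.2.2]
  choose G hG using hchoose
  have hcent : ∀ {a : Matrix.symplecticGroup (Fin m) F},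
      a ∈ Subgroup.center (Matrix.symplecticGroup (Fin m) F) → a = 1 := fun {a} ha => by
    have hneg : (-1 : F) = 1 := by linear_combination -h2
    rcases (mem_center_iff_eq (by omega) a).mp ha with h | h
    · exact Subtype.ext h
    · refine Subtype.ext ?_
      rw [h, show (-1 : Matrix (Fin m ⊕ Fin m) (Fin m ⊕ Fin m) F) = (-1 : F) • 1 by rw [neg_one_smul],
        hneg, one_smul]
      rfl
  have hRconj : ∀ g : Matrix.symplecticGroup (Fin m) F,
      R (g * z * g⁻¹) = (R z).map (spRho m F g) := by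
    intro g
    ext w
    simp only [hR, Submodule.mem_map, LinearMap.mem_range]
    constructor
    · rintro ⟨x, rfl⟩
      refine ⟨_, ⟨g⁻¹ • x, rfl⟩, ?_⟩
      rw [spRho_apply, ← smul_eq_mulVec_sp, LinearMap.sub_apply, LinearMap.sub_apply, Matrix.toLin'_apply,
        Matrix.toLin'_apply, Module.End.one_apply, Module.End.one_apply, ← smul_eq_mulVec_sp,
        ← smul_eq_mulVec_sp, smul_sub, smul_inv_smul, mul_smul, mul_smul]
    · rintro ⟨_, ⟨x, rfl⟩, rfl⟩
      refine ⟨g • x, ?_⟩
      rw [spRho_apply, ← smul_eq_mulVec_sp, LinearMap.sub_apply, LinearMap.sub_apply, Matrix.toLin'_apply,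
        Matrix.toLin'_apply, Module.End.one_apply, Module.End.one_apply, ← smul_eq_mulVec_sp,
        ← smul_eq_mulVec_sp, smul_sub, mul_smul, mul_smul, inv_smul_smul]
  let Φ : IsotropicTuple m 2 F →
      MulAction.orbit (ConjAct (Cfsg.PSp m F)) (QuotientGroup.mk' _ z : Cfsg.PSp m F) := fun t =>
    ⟨QuotientGroup.mk' _ (G t * z * (G t)⁻¹), ConjAct.toConjAct (QuotientGroup.mk' _ (G t)), by
      show ConjAct.toConjAct (QuotientGroup.mk' _ (G t)) • (QuotientGroup.mk' _ z : Cfsg.PSp m F) = _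
      rw [ConjAct.toConjAct_smul, map_mul, map_mul, map_inv]⟩
  have hfib : ∀ y, (Finset.univ.filter fun t => Φ t = y).card ≤ Fintype.card F ^ 4 := by
    intro y
    rcases Finset.eq_empty_or_nonempty (Finset.univ.filter fun t => Φ t = y) with h | ⟨t₀, ht₀⟩
    · rw [h]; simp
    · rw [Finset.mem_filter] at ht₀
      have hin : ∀ t ∈ (Finset.univ.filter fun t => Φ t = y), ∀ i, t.1 i ∈ R (G t₀ * z * (G t₀)⁻¹) := by
        intro t ht i
        rw [Finset.mem_filter] at ht
        have heq : QuotientGroup.mk' (Subgroup.center (Matrix.symplecticGroup (Fin m) F)) (G t * z * (G t)⁻¹) =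
            QuotientGroup.mk' _ (G t₀ * z * (G t₀)⁻¹) := congrArg Subtype.val (ht.2.trans ht₀.2.symm)
        rw [QuotientGroup.mk'_apply, QuotientGroup.mk'_apply, QuotientGroup.eq] at heq
        have heq' := inv_mul_eq_one.mp (hcent heq)
        rw [← heq', hRconj, hRz]
        exact ⟨e i, Submodule.subset_span ⟨i, rfl⟩, (spRho_apply _ _).trans (hG t i)⟩
      have hW2 : Nat.card (R (G t₀ * z * (G t₀)⁻¹)) = Fintype.card F ^ 2 := by
        rw [Module.natCard_eq_pow_finrank (K := F), hRconj, hRz, Nat.card_eq_fintype_card]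
        congr 1
        rw [← (Submodule.equivMapOfInjective (spRho m F (G t₀)) ?_ W).finrank_eq, finrank_span_eq_card hei]
        · rfl
        · intro a b hab
          rw [spRho_apply, spRho_apply, ← smul_eq_mulVec_sp, ← smul_eq_mulVec_sp] at hab
          exact MulAction.injective (G t₀) hab
      rw [← Nat.card_eq_finsetCard]
      refine (Nat.card_le_card_of_injective
        (β := Fin 2 → R (G t₀ * z * (G t₀)⁻¹)) (fun t i => ⟨t.1.1 i, hin t.1 t.2 i⟩) ?_).trans ?_
      · intro a b h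
        exact Subtype.ext (Subtype.ext (funext fun i => congrArg Subtype.val (congrFun h i)))
      · rw [Nat.card_fun, hW2, Nat.card_fin, ← pow_mul]
  have hcount := Finset.card_le_mul_card_image Finset.univ (f := Φ) (Fintype.card F ^ 4) (fun y _ => hfib y)
  rw [Finset.card_univ, ← Nat.card_eq_fintype_card, card_isotropicTuple, Nat.card_eq_fintype_card] at hcount
  have hcard : (Finset.univ.image Φ).card ≤
      (MulAction.orbit (ConjAct (Cfsg.PSp m F)) (QuotientGroup.mk' _ z : Cfsg.PSp m F)).ncard := by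
    rw [← Nat.card_coe_set_eq, Nat.card_eq_fintype_card]
    exact Finset.card_le_univ _
  set q := Fintype.card F with hq
  have hN : Nat.card {w : Fin m ⊕ Fin m → F // w ≠ 0} = q ^ (2 * m) - 1 := by
    rw [Nat.card_eq_fintype_card]
    simp [Fintype.card_subtype_compl, Fintype.card_subtype_eq, two_mul, hq]
  rw [Finset.prod_range_succ, Finset.prod_range_succ, Finset.prod_range_zero, one_mul, pow_zero, pow_one,
    Nat.sub_zero] at hcount
  rw [hN]
  by_contra! hle
  have h5 : q ^ 4 < q ^ (2 * m - 1) - q := by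
    have hq2 : 2 ≤ q := Fintype.one_lt_card
    have h6 : q ^ 5 ≤ q ^ (2 * m - 1) := Nat.pow_le_pow_right (by omega) (by omega)
    have h7 : 2 * q ^ 4 ≤ q ^ 5 := by rw [pow_succ q 4, mul_comm]; exact Nat.mul_le_mul_left _ hq2
    have h8 : q < q ^ 4 := by nlinarith [Nat.pow_le_pow_left hq2 3]
    omega
  have hpos : 0 < q ^ (2 * m) - 1 := by
    have hq2 : 2 ≤ q := Fintype.one_lt_card
    have : 1 < q ^ (2 * m) := Nat.one_lt_pow (by omega) hq2
    omega
  have := hcount.trans (Nat.mul_le_mul_left _ (hcard.trans hle))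
  nlinarith [Nat.mul_lt_mul_of_pos_left h5 hpos]

omit [Finite F] in
theorem sylow_map_center_eq {P : Sylow p (Matrix.symplecticGroup (Fin m) F)} (hm : 1 ≤ m)
    {z : Matrix.symplecticGroup (Fin m) F} (hz : z ∈ (P : Subgroup _)) [Finite F]
    (hc : ∀ y ∈ (P : Subgroup _), (QuotientGroup.mk' (Subgroup.center (Matrix.symplecticGroup (Fin m) F)) y) *
      QuotientGroup.mk' _ z = QuotientGroup.mk' _ z * QuotientGroup.mk' _ y) :
    ∀ y ∈ (P : Subgroup _), z * y = y * z := by
  intro y hy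
  have h := hc y hy
  rw [← map_mul, ← map_mul, QuotientGroup.mk'_apply, QuotientGroup.mk'_apply, QuotientGroup.eq] at h
  have hP : (y * z)⁻¹ * (z * y) ∈ (P : Subgroup _) :=
    mul_mem (inv_mem (mul_mem hy hz)) (mul_mem hz hy)
  obtain ⟨k, hk⟩ := P.2 ⟨_, hP⟩
  exact (inv_mul_eq_one.mp (center_inter_pgroup (p := p) hm h (congrArg Subtype.val hk))).symm

/-- A conjugate of the image of a transvection is central in the standard Sylow subgroup. -/
theorem exists_central_shape (hm : 2 ≤ m) (α : Cfsg.PSp m F ≃* Cfsg.PSp m F) {p : ℕ} [Fact p.Prime]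
    [CharP F p] (v : Fin m ⊕ Fin m → F) (hv : v ≠ 0) (c : F) :
    ∃ (z : Matrix.symplecticGroup (Fin m) F) (b : Cfsg.PSp m F) (S : Matrix (Fin m) (Fin m) F),
      QuotientGroup.mk' _ z = b * α (QuotientGroup.mk' _ (transv v c)) * b⁻¹ ∧ Sᵀ = S ∧
      (z : Matrix (Fin m ⊕ Fin m) (Fin m ⊕ Fin m) F) = Matrix.fromBlocks 1 S 0 1 ∧
      (∀ i j : Fin m, (2 ≤ (i : ℕ) ∨ ((i : ℕ) = 1 ∧ (j : ℕ) ≠ 0)) → S i j = 0) ∧
      ((2 : F) ≠ 0 → ∀ i j : Fin m, (i : ℕ) ≠ 0 → S i j = 0) := by
  set π := QuotientGroup.mk' (Subgroup.center (Matrix.symplecticGroup (Fin m) F)) with hπ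
  set t := π (transv v c) with ht
  obtain ⟨P, htP, hPc⟩ := exists_sylow_centralizing_transv (p := p) (by omega) v hv c
  obtain ⟨Q₀, hQ₀⟩ := IsPGroup.exists_le_sylow (p := p) (isPGroup_unitriGroup (p := p) (m := m) (F := F))
  have hsurj : Function.Surjective π := QuotientGroup.mk'_surjective _
  let P₁ : Sylow p (Cfsg.PSp m F) := (P.mapSurjective hsurj).mapSurjective (f := α.toMonoidHom) α.surjective
  let P₂ : Sylow p (Cfsg.PSp m F) := Q₀.mapSurjective hsurj
  obtain ⟨b, hb⟩ := MulAction.exists_smul_eq (Cfsg.PSp m F) P₁ P₂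
  set y := b * α t * b⁻¹ with hy
  have hyP₂ : y ∈ (P₂ : Subgroup _) ∧ ∀ u ∈ (P₂ : Subgroup _), u * y = y * u := by
    have hmem : ∀ u, u ∈ (P₂ : Subgroup _) ↔ ∃ w ∈ (P : Subgroup _), b * α (π w) * b⁻¹ = u := by
      intro u
      rw [← hb, Sylow.coe_subgroup_smul]
      constructor
      · rintro ⟨u', hu', rfl⟩
        obtain ⟨u'', ⟨w, hw, rfl⟩, rfl⟩ := hu'
        exact ⟨w, hw, rfl⟩
      · rintro ⟨w, hw, rfl⟩
        exact ⟨α (π w), ⟨π w, ⟨w, hw, rfl⟩, rfl⟩, rfl⟩
    refine ⟨(hmem y).mpr ⟨_, htP, rfl⟩, fun u hu => ?_⟩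
    obtain ⟨w, hw, rfl⟩ := (hmem u).mp hu
    have h1 : α (π w) * α t = α t * α (π w) := by
      rw [← map_mul, ← map_mul, ht, ← map_mul, ← map_mul, hPc w hw]
    rw [hy]
    calc b * α (π w) * b⁻¹ * (b * α t * b⁻¹) = b * (α (π w) * α t) * b⁻¹ := by group
      _ = b * (α t * α (π w)) * b⁻¹ := by rw [h1]
      _ = b * α t * b⁻¹ * (b * α (π w) * b⁻¹) := by group
  obtain ⟨⟨z, hzQ, hzy⟩, hcy⟩ := And.intro (show ∃ z ∈ (Q₀ : Subgroup _), π z = y from hyP₂.1) hyP₂.2
  have hzc : ∀ u ∈ (Q₀ : Subgroup _), z * u = u * z :=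
    sylow_map_center_eq (by omega) hzQ fun u hu => by
      rw [hzy]
      exact hcy _ ⟨u, hu, rfl⟩
  obtain ⟨kz, hkz⟩ := Q₀.2 ⟨z, hzQ⟩
  obtain ⟨S, hsym, hzS, hsupp, hsupp2⟩ := shape_of_centralizes (p := p) hm
    ⟨kz, congrArg Subtype.val hkz⟩ (fun u hu => hzc u (hQ₀ hu))
  exact ⟨z, b, S, hzy, hsym, hzS, hsupp, hsupp2⟩

/-- A central element of shape `S` with `S 1 0 = 0` is a transvection. -/
theorem isPTransv_of_shape (hm : 2 ≤ m) (α : Cfsg.PSp m F ≃* Cfsg.PSp m F) {p : ℕ} [Fact p.Prime]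
    [CharP F p] {v : Fin m ⊕ Fin m → F} (hv : v ≠ 0) {c : F} (hc : c ≠ 0)
    {z : Matrix.symplecticGroup (Fin m) F} {b : Cfsg.PSp m F} {S : Matrix (Fin m) (Fin m) F}
    (hzy : QuotientGroup.mk' _ z = b * α (QuotientGroup.mk' _ (transv v c)) * b⁻¹) (hsym : Sᵀ = S)
    (hzS : (z : Matrix (Fin m ⊕ Fin m) (Fin m ⊕ Fin m) F) = Matrix.fromBlocks 1 S 0 1)
    (hsupp : ∀ i j : Fin m, (2 ≤ (i : ℕ) ∨ ((i : ℕ) = 1 ∧ (j : ℕ) ≠ 0)) → S i j = 0)
    (h10 : S ⟨1, by omega⟩ ⟨0, by omega⟩ = 0) :
    IsPTransv (α (QuotientGroup.mk' _ (transv v c))) := by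
  set π := QuotientGroup.mk' (Subgroup.center (Matrix.symplecticGroup (Fin m) F)) with hπ
  set t := π (transv v c) with ht
  set y := b * α t * b⁻¹ with hy
  have hα : α t = b⁻¹ * y * b⁻¹⁻¹ := by rw [hy]; group
  rw [hα]
  refine IsPTransv.conj ⟨Pi.single (Sum.inl ⟨0, by omega⟩) 1, S ⟨0, by omega⟩ ⟨0, by omega⟩,
    by simp, ?_, ?_⟩ _
  all_goals
    have hsupp' : ∀ i j : Fin m, (i : ℕ) ≠ 0 ∨ (j : ℕ) ≠ 0 → S i j = 0 := by
      have h0 : ∀ i j : Fin m, (i : ℕ) ≠ 0 → S i j = 0 := by
        intro i j hi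
        by_cases hj : (j : ℕ) = 0
        · rcases Nat.lt_or_ge (i : ℕ) 2 with h | h
          · rw [show i = ⟨1, by omega⟩ from Fin.ext (by simp only; omega),
              show j = ⟨0, by omega⟩ from Fin.ext hj]
            exact h10
          · exact hsupp i j (Or.inl h)
        · exact hsupp i j (by omega)
      intro i j hij
      rcases hij with h | h
      · exact h0 i j h
      · rw [← hsym]; exact h0 j i h
    have hzt : z = transv (Pi.single (Sum.inl ⟨0, by omega⟩) (1 : F)) (S ⟨0, by omega⟩ ⟨0, by omega⟩) := by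
      refine ext_of_mulVec fun x => ?_
      rw [coe_transv, sympTransvection_mulVec, hzS, Matrix.fromBlocks_mulVec, sympForm_swap,
        sympForm_single_inl, neg_neg]
      funext r
      rcases r with i | i
      · rw [Sum.elim_inl, Matrix.one_mulVec, Pi.add_apply, Pi.add_apply, Pi.smul_apply]
        congr 1
        rw [Matrix.mulVec, dotProduct, Finset.sum_eq_single (⟨0, by omega⟩ : Fin m)
          (fun j _ hj => by rw [hsupp' i j (Or.inr fun h => hj (Fin.ext h)), zero_mul]) (by simp)]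
        by_cases hi : (i : ℕ) = 0
        · rw [show i = ⟨0, by omega⟩ from Fin.ext hi, Pi.single_eq_same, smul_eq_mul, mul_one]
          rfl
        · rw [hsupp' i _ (Or.inl hi), Pi.single_eq_of_ne (fun h => hi (by cases h; rfl))]
          simp
      · simp
  · intro h00
    apply hc
    have hz1 : z = 1 := by rw [hzt, h00, transv_zero]
    have h1 : α t = 1 := by rw [hα, ← hzy, hz1, map_one]; group
    rw [EmbeddingLike.map_eq_one_iff, ht, hπ, QuotientGroup.mk'_apply, QuotientGroup.eq_one_iff,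
      mem_center_iff_eigen] at h1
    obtain ⟨w, hw⟩ := exists_sympForm_eq_one hv
    have hw0 : w ≠ 0 := fun h => by rw [h, ← sympBilin_apply, LinearMap.map_zero₂] at hw; exact one_ne_zero hw.symm
    obtain ⟨a, ha⟩ := h1 w hw0
    rw [coe_transv, sympTransvection_mulVec, hw, mul_one] at ha
    have hli := linearIndependent_pair_of_sympForm_ne_zero (u := w) (v := v) (by rw [hw]; exact one_ne_zero)
    exact (LinearIndependent.pair_iff.mp hli (1 - a) c (by rw [sub_smul, one_smul, ← ha]; abel)).2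
  · rw [← hzy, hzt]

/-- Automorphisms preserve transvections. -/
theorem isPTransv_map (hm : 2 ≤ m) (h22 : m = 2 → (2 : F) ≠ 0) (α : Cfsg.PSp m F ≃* Cfsg.PSp m F)
    {x : Cfsg.PSp m F} (hx : IsPTransv x) : IsPTransv (α x) := by
  classical
  obtain ⟨p, hCharP⟩ := CharP.exists F
  haveI : Fact p.Prime := ⟨CharP.char_is_prime F p⟩
  obtain ⟨v, c, hv, hc, rfl⟩ := hx
  obtain ⟨z, b, S, hzy, hsym, hzS, hsupp, hsupp2⟩ := exists_central_shape (p := p) hm α v hv c
  by_cases h10 : S ⟨1, by omega⟩ ⟨0, by omega⟩ = 0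
  · exact isPTransv_of_shape (p := p) hm α hv hc hzy hsym hzS hsupp h10
  · -- characteristic two and rank at least three: the class is too big
    set π := QuotientGroup.mk' (Subgroup.center (Matrix.symplecticGroup (Fin m) F)) with hπ
    set t := π (transv v c) with ht
    set y := b * α t * b⁻¹ with hy
    exfalso
    have h2 : (2 : F) = 0 := by
      by_contra h2
      exact h10 (hsupp2 h2 _ _ (by simp))
    have hm3 : 3 ≤ m := by
      rcases Nat.lt_or_ge 2 m with h | h
      · exact h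
      · exact absurd h2 (h22 (by omega))
    have h1 := card_class_long hm3 h2 hzS hsupp h10 hsym
    rw [show (QuotientGroup.mk' _ z : Cfsg.PSp m F) = y from hzy] at h1
    have h3 := card_class_transv_le v hv c
    have heq : (MulAction.orbit (ConjAct (Cfsg.PSp m F)) y).ncard =
        (MulAction.orbit (ConjAct (Cfsg.PSp m F)) t).ncard := by
      have horb : MulAction.orbit (ConjAct (Cfsg.PSp m F)) y = MulAction.orbit (ConjAct (Cfsg.PSp m F)) (α t) := by
        rw [hy, ← ConjAct.toConjAct_smul, MulAction.orbit_smul]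
      rw [horb]
      conv_rhs => rw [← Set.ncard_image_of_injective _ α.injective]
      congr 1
      ext w
      constructor
      · rintro ⟨a, rfl⟩
        obtain ⟨b', rfl⟩ := ConjAct.toConjAct.surjective a
        refine ⟨_, ⟨ConjAct.toConjAct (α.symm b'), rfl⟩, ?_⟩
        simp [ConjAct.toConjAct_smul]
      · rintro ⟨_, ⟨a, rfl⟩, rfl⟩
        obtain ⟨b', rfl⟩ := ConjAct.toConjAct.surjective a
        exact ⟨ConjAct.toConjAct (α b'), by simp [ConjAct.toConjAct_smul]⟩
    rw [heq] at h1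
    exact absurd h1 (not_lt.mpr h3)

end Cfsg.Agent.H2.AutPSp
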