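import Cfsg.Prelude.Def_LieTypeDatum
import Cfsg.Agent.H2.AutPSp.Preserve
import Cfsg.Agent.H2.AutPSp.Fundamental

/-!
Every automorphism of PSp (other than Sp_4 in characteristic two) is semilinear; the automorphism group's order.
-/

set_option autoImplicit false

namespace Cfsg.Agent.H2.AutPSp

open Matrix Projectivization
open scoped LinearAlgebra.Projectivization

variable {m : ℕ} {F : Type*} [Field F]

/-- A non-zero vector orthogonal to two given ones in rank at least two. -/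
theorem exists_orth_two (hm : 2 ≤ m) (v w : Fin m ⊕ Fin m → F) :
    ∃ z, z ≠ 0 ∧ Cfsg.sympForm m F z v = 0 ∧ Cfsg.sympForm m F z w = 0 := by
  let φ : (Fin m ⊕ Fin m → F) →ₗ[F] F × F :=
    ((sympBilin m F).flip v).prod ((sympBilin m F).flip w)
  have hker : LinearMap.ker φ ≠ ⊥ := LinearMap.ker_ne_bot_of_finrank_lt (by simp; omega)
  obtain ⟨z, hz, hz0⟩ := Submodule.exists_mem_ne_zero_of_ne_bot hker
  rw [LinearMap.mem_ker] at hz
  have h1 := congrArg Prod.fst hz
  have h2 := congrArg Prod.snd hz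
  exact ⟨z, hz0, by simpa [φ] using h1, by simpa [φ] using h2⟩

/-- Transvections equal up to sign are equal. -/
theorem eq_of_mk_transv_eq (hm : 2 ≤ m) {v w : Fin m ⊕ Fin m → F} {c d : F}
    (h : (QuotientGroup.mk' (Subgroup.center (Matrix.symplecticGroup (Fin m) F)) (transv v c)) =
      QuotientGroup.mk' _ (transv w d)) : transv v c = transv w d := by
  rw [QuotientGroup.mk'_apply, QuotientGroup.mk'_apply, QuotientGroup.eq,
    mem_center_iff_eq (by omega)] at h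
  rcases h with h | h
  · exact inv_mul_eq_one.mp (Subtype.ext h)
  · obtain ⟨z, hz, hzv, hzw⟩ := exists_orth_two hm v w
    have h1 : ((transv v c)⁻¹ * transv w d) • z = z := by
      have e1 : transv v c • z = z := by
        rw [smul_eq_mulVec_sp, coe_transv, sympTransvection_mulVec, hzv, mul_zero, zero_smul, add_zero]
      have e2 : transv w d • z = z := by
        rw [smul_eq_mulVec_sp, coe_transv, sympTransvection_mulVec, hzw, mul_zero, zero_smul, add_zero]
      rw [mul_smul, e2, inv_smul_eq_iff, e1]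
    rw [smul_eq_mulVec_sp, h, neg_mulVec, one_mulVec] at h1
    have hneg : (-1 : F) = 1 := smul_left_injective F hz (by simpa using h1)
    refine inv_mul_eq_one.mp (Subtype.ext ?_)
    rw [h, show (-1 : Matrix (Fin m ⊕ Fin m) (Fin m ⊕ Fin m) F) = (-1 : F) • 1 by rw [neg_one_smul],
      hneg, one_smul]
    rfl

/-- The vector of a non-trivial transvection is determined up to a scalar. -/
theorem exists_smul_of_transv_eq {v w : Fin m ⊕ Fin m → F} {c d : F} (hv : v ≠ 0) (hc : c ≠ 0)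
    (h : transv v c = transv w d) : ∃ a : F, v = a • w := by
  obtain ⟨x, hx⟩ := exists_sympForm_eq_one hv
  have h2 := congrArg (fun t : Matrix.symplecticGroup (Fin m) F => t • x) h
  simp only [smul_eq_mulVec_sp, coe_transv, sympTransvection_mulVec, hx, mul_one, add_right_inj] at h2
  exact ⟨c⁻¹ * (d * Cfsg.sympForm m F x w), by rw [mul_smul, ← h2, inv_smul_smul₀ hc]⟩

theorem mk_transv_ne_one (hm : 2 ≤ m) {v : Fin m ⊕ Fin m → F} (hv : v ≠ 0) {c : F} (hc : c ≠ 0) :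
    (QuotientGroup.mk' (Subgroup.center (Matrix.symplecticGroup (Fin m) F)) (transv v c)) ≠ 1 := by
  intro h
  have h2 := eq_of_mk_transv_eq hm (v := v) (w := v) (c := c) (d := 0) (by rw [h, transv_zero, map_one])
  obtain ⟨x, hx⟩ := exists_sympForm_eq_one hv
  have h3 := congrArg (fun t : Matrix.symplecticGroup (Fin m) F => t • x) h2
  simp only [smul_eq_mulVec_sp, coe_transv, sympTransvection_mulVec, hx, mul_one, zero_smul, add_zero,
    add_eq_left] at h3
  exact (smul_ne_zero hc hv) h3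

/-- Commuting of transvections in PSp is orthogonality. -/
theorem commute_mk_transv_iff (hm : 2 ≤ m) {v w : Fin m ⊕ Fin m → F} (hv : v ≠ 0) (hw : w ≠ 0)
    {c d : F} (hc : c ≠ 0) (hd : d ≠ 0) :
    Commute (QuotientGroup.mk' (Subgroup.center (Matrix.symplecticGroup (Fin m) F)) (transv v c))
      (QuotientGroup.mk' _ (transv w d)) ↔ Cfsg.sympForm m F v w = 0 := by
  constructor
  · intro h
    rw [commute_iff_eq, ← eq_mul_inv_iff_mul_eq] at h
    by_contra hne
    have h1 : QuotientGroup.mk' (Subgroup.center (Matrix.symplecticGroup (Fin m) F))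
        (transv w d * transv v c * (transv w d)⁻¹) = QuotientGroup.mk' _ (transv v c) := by
      rw [map_mul, map_mul, map_inv, ← h]
    rw [conj_transv] at h1
    have h2 := eq_of_mk_transv_eq hm h1
    have hne0 : ((transv w d : Matrix.symplecticGroup (Fin m) F) :
        Matrix (Fin m ⊕ Fin m) (Fin m ⊕ Fin m) F) *ᵥ v ≠ 0 := by
      intro h0
      have h' := congrArg (fun u => (transv w d)⁻¹ • u) h0
      simp only [← smul_eq_mulVec_sp, inv_smul_smul, smul_zero] at h'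
      exact hv h'
    obtain ⟨a, ha⟩ := exists_smul_of_transv_eq hne0 hc h2
    rw [coe_transv, sympTransvection_mulVec] at ha
    have hli := linearIndependent_pair_of_sympForm_ne_zero hne
    have := LinearIndependent.pair_iff.mp hli (1 - a) (d * Cfsg.sympForm m F v w)
      (by rw [sub_smul, one_smul, sub_add_eq_add_sub, ha, sub_self])
    exact mul_ne_zero hd hne this.2
  · intro h
    refine Commute.map ?_ _
    rw [commute_iff_eq, ← mul_inv_eq_iff_eq_mul, conj_transv]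
    congr 1
    rw [coe_transv, sympTransvection_mulVec, sympForm_swap v w, h]
    simp

/-- An automorphism mapping transvections to transvections does so in both directions. -/
theorem isPTransv_symm [Finite F] (α : Cfsg.PSp m F ≃* Cfsg.PSp m F)
    (hα : ∀ x, IsPTransv x → IsPTransv (α x)) : ∀ x, IsPTransv x → IsPTransv (α.symm x) := by
  intro x hx
  obtain ⟨⟨y, hy⟩, hxy⟩ := Finite.surjective_of_injective
    (f := fun z : {z : Cfsg.PSp m F // IsPTransv z} =>
      (⟨α z.1, hα _ z.2⟩ : {z : Cfsg.PSp m F // IsPTransv z}))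
    (fun a b h => Subtype.ext (α.injective (congrArg Subtype.val h))) ⟨x, hx⟩
  rw [← show α y = x from congrArg Subtype.val hxy, α.symm_apply_apply]
  exact hy

/-- The point of a transvection. -/
theorem exists_pointMap [Finite F] (hm : 2 ≤ m)
    (α : Cfsg.PSp m F ≃* Cfsg.PSp m F) (hα : ∀ x, IsPTransv x → IsPTransv (α x)) :
    ∃ σ : ℙ F (Fin m ⊕ Fin m → F) ≃ ℙ F (Fin m ⊕ Fin m → F),
      (∀ p q, PointOrth (σ p) (σ q) ↔ PointOrth p q) ∧
      ∀ (v : Fin m ⊕ Fin m → F) (hv : v ≠ 0) (c : F), c ≠ 0 → ∃ d : F, d ≠ 0 ∧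
        α (QuotientGroup.mk' _ (transv v c)) = QuotientGroup.mk' _ (transv (σ (mk F v hv)).rep d) := by
  classical
  set π := QuotientGroup.mk' (Subgroup.center (Matrix.symplecticGroup (Fin m) F)) with hπ
  have hrep : ∀ {w : Fin m ⊕ Fin m → F} (hw : w ≠ 0) {e : F}, e ≠ 0 → ∃ e' : F, e' ≠ 0 ∧
      π (transv w e) = π (transv (mk F w hw).rep e') := by
    intro w hw e he
    obtain ⟨a, ha⟩ := exists_smul_eq_mk_rep F w hw
    refine ⟨((a : F) * (a : F))⁻¹ * e, mul_ne_zero (inv_ne_zero (mul_ne_zero a.ne_zero a.ne_zero)) he, ?_⟩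
    rw [← ha, Units.smul_def, transv_smul, mul_inv_cancel_left₀ (mul_ne_zero a.ne_zero a.ne_zero)]
  -- the image point of a single transvection
  have himg : ∀ (β : {β : Cfsg.PSp m F ≃* Cfsg.PSp m F // ∀ x, IsPTransv x → IsPTransv (β x)})
      (p : ℙ F (Fin m ⊕ Fin m → F)) (c : F), c ≠ 0 →
      ∃ (p' : ℙ F (Fin m ⊕ Fin m → F)) (d : F), d ≠ 0 ∧
        β.1 (π (transv p.rep c)) = π (transv p'.rep d) := by
    intro β p c hc
    obtain ⟨w, e, hw, he, hwe⟩ := β.2 _ ⟨p.rep, c, p.rep_nonzero, hc, rfl⟩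
    obtain ⟨e', he', h'⟩ := hrep hw he
    exact ⟨mk F w hw, e', he', hwe.symm.trans h'⟩
  have horth : ∀ (β : Cfsg.PSp m F ≃* Cfsg.PSp m F) (p q p' q' : ℙ F (Fin m ⊕ Fin m → F)) (c c' d d' : F),
      c ≠ 0 → c' ≠ 0 → d ≠ 0 → d' ≠ 0 → β (π (transv p.rep c)) = π (transv p'.rep d) →
      β (π (transv q.rep c')) = π (transv q'.rep d') → (PointOrth p' q' ↔ PointOrth p q) := by
    intro β p q p' q' c c' d d' hc hc' hd hd' h h'
    rw [PointOrth, PointOrth, ← commute_mk_transv_iff hm p'.rep_nonzero q'.rep_nonzero hd hd',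
      ← commute_mk_transv_iff hm p.rep_nonzero q.rep_nonzero hc hc', ← hπ, ← h, ← h']
    exact ⟨fun hh => hh.of_map β.injective, fun hh => hh.map β⟩
  have hpt : ∀ {p q : ℙ F (Fin m ⊕ Fin m → F)}, (∀ r, PointOrth p r ↔ PointOrth q r) → p = q := by
    intro p q h
    by_contra hne
    obtain ⟨r, hr, hr'⟩ := exists_orth_not_orth hne
    exact hr' ((h r).mpr hr)
  choose f df hdf hf using fun β p => himg β p 1 one_ne_zero
  have hf' : ∀ (β β' : {β : Cfsg.PSp m F ≃* Cfsg.PSp m F // ∀ x, IsPTransv x → IsPTransv (β x)}),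
      β'.1 = β.1.symm → ∀ p, f β' (f β p) = p := by
    intro β β' hββ p
    refine hpt fun r => ?_
    have h0 : β'.1 (π (transv (f β p).rep (df β p))) = π (transv p.rep 1) := by
      rw [← hf, hββ, MulEquiv.symm_apply_apply]
    obtain ⟨r', d', hd', hr'⟩ := himg β r 1 one_ne_zero
    have h1 : β'.1 (π (transv r'.rep d')) = π (transv r.rep 1) := by
      rw [← hr', hββ, MulEquiv.symm_apply_apply]
    -- points of the two images of one point agree
    have h2 := horth β'.1 (f β p) r' (f β' (f β p)) r 1 d' (df β' (f β p)) 1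
      one_ne_zero hd' (hdf _ _) one_ne_zero (hf _ _) h1
    have h3 := horth β'.1 (f β p) r' p r (df β p) d' 1 1 (hdf _ _) hd' one_ne_zero one_ne_zero h0 h1
    exact h2.trans h3.symm
  let α₀ : {β : Cfsg.PSp m F ≃* Cfsg.PSp m F // ∀ x, IsPTransv x → IsPTransv (β x)} := ⟨α, hα⟩
  let α₁ : {β : Cfsg.PSp m F ≃* Cfsg.PSp m F // ∀ x, IsPTransv x → IsPTransv (β x)} :=
    ⟨α.symm, isPTransv_symm α hα⟩
  let σ : ℙ F (Fin m ⊕ Fin m → F) ≃ ℙ F (Fin m ⊕ Fin m → F) :=
    ⟨f α₀, f α₁, hf' α₀ α₁ rfl, hf' α₁ α₀ α.symm_symm.symm⟩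
  refine ⟨σ, fun p q => horth α p q _ _ 1 1 (df α₀ p) (df α₀ q) one_ne_zero one_ne_zero (hdf _ _) (hdf _ _)
    (hf α₀ p) (hf α₀ q), fun v hv c hc => ?_⟩
  obtain ⟨c', hc', hcc⟩ := hrep hv hc
  obtain ⟨p', d, hd, hp'⟩ := himg α₀ (mk F v hv) c' hc'
  refine ⟨d, hd, ?_⟩
  rw [show σ (mk F v hv) = p' from hpt fun r => ?_, hcc, hp']
  obtain ⟨r', rfl⟩ := σ.surjective r
  show PointOrth (f α₀ (mk F v hv)) (f α₀ r') ↔ PointOrth p' (f α₀ r')
  rw [horth α _ _ _ _ 1 1 _ _ one_ne_zero one_ne_zero (hdf _ _) (hdf _ _) (hf α₀ (mk F v hv)) (hf α₀ r'),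
    horth α _ _ _ _ c' 1 _ _ hc' one_ne_zero hd (hdf _ _) hp' (hf α₀ r')]

/-- Conjugation by a semilinear similitude on a matrix. -/
def semiMat (g : GL (Fin m ⊕ Fin m) F) (σ : F ≃+* F) (A : Matrix (Fin m ⊕ Fin m) (Fin m ⊕ Fin m) F) :
    Matrix (Fin m ⊕ Fin m) (Fin m ⊕ Fin m) F :=
  (g : Matrix (Fin m ⊕ Fin m) (Fin m ⊕ Fin m) F) * A.map σ *
    ((g⁻¹ : GL (Fin m ⊕ Fin m) F) : Matrix (Fin m ⊕ Fin m) (Fin m ⊕ Fin m) F)

theorem semiMat_mem {g : GL (Fin m ⊕ Fin m) F} (hg : g ∈ Cfsg.GSp m F) (σ : F ≃+* F)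
    (s : Matrix.symplecticGroup (Fin m) F) :
    semiMat g σ (s : Matrix (Fin m ⊕ Fin m) (Fin m ⊕ Fin m) F) ∈ Matrix.symplecticGroup (Fin m) F := by
  obtain ⟨k, hk⟩ := hg
  rw [mem_symplecticGroup_iff]
  intro u v
  rw [semiMat, ← mulVec_mulVec, ← mulVec_mulVec, ← mulVec_mulVec, ← mulVec_mulVec, hk,
    mem_symplecticGroup_iff.mp (SymplecticGroup.map_mem s.2 σ), ← hk, mulVec_mulVec, mulVec_mulVec,
    ← Units.val_mul, mul_inv_cancel, Units.val_one, one_mulVec, one_mulVec]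

/-- Conjugation by a semilinear similitude as an endomorphism of Sp. -/
def semiHom (g : GL (Fin m ⊕ Fin m) F) (hg : g ∈ Cfsg.GSp m F) (σ : F ≃+* F) :
    Matrix.symplecticGroup (Fin m) F →* Matrix.symplecticGroup (Fin m) F where
  toFun s := ⟨semiMat g σ s, semiMat_mem hg σ s⟩
  map_one' := Subtype.ext (by simp [semiMat])
  map_mul' s t := Subtype.ext (by
    show semiMat g σ ((s : Matrix (Fin m ⊕ Fin m) (Fin m ⊕ Fin m) F) * t) = semiMat g σ s * semiMat g σ t
    simp only [semiMat, Matrix.map_mul, mul_assoc]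
    rw [← mul_assoc ((g⁻¹ : GL (Fin m ⊕ Fin m) F) : Matrix (Fin m ⊕ Fin m) (Fin m ⊕ Fin m) F),
      ← Units.val_mul, inv_mul_cancel, Units.val_one, one_mul])

theorem semiHom_injective (g : GL (Fin m ⊕ Fin m) F) (hg : g ∈ Cfsg.GSp m F) (σ : F ≃+* F) :
    Function.Injective (semiHom g hg σ) := by
  intro s t h
  have h1 : semiMat g σ s = semiMat g σ t := congrArg Subtype.val h
  have h2 := congrArg (fun A : Matrix (Fin m ⊕ Fin m) (Fin m ⊕ Fin m) F =>
    ((g⁻¹ : GL (Fin m ⊕ Fin m) F) : Matrix (Fin m ⊕ Fin m) (Fin m ⊕ Fin m) F) * A *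
      (g : Matrix (Fin m ⊕ Fin m) (Fin m ⊕ Fin m) F)) h1
  simp [semiMat, mul_assoc] at h2
  exact Subtype.ext (Matrix.map_injective σ.injective h2)

/-- The automorphism of Sp attached to a semilinear similitude. -/
noncomputable def semiEquiv [Finite F] (g : GL (Fin m ⊕ Fin m) F) (hg : g ∈ Cfsg.GSp m F)
    (σ : F ≃+* F) : Matrix.symplecticGroup (Fin m) F ≃* Matrix.symplecticGroup (Fin m) F :=
  MulEquiv.ofBijective (semiHom g hg σ) (Finite.injective_iff_bijective.mp (semiHom_injective g hg σ))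

theorem map_center_semiEquiv [Finite F] (g : GL (Fin m ⊕ Fin m) F) (hg : g ∈ Cfsg.GSp m F) (σ : F ≃+* F) :
    Subgroup.map (semiEquiv g hg σ) (Subgroup.center (Matrix.symplecticGroup (Fin m) F)) =
      Subgroup.center (Matrix.symplecticGroup (Fin m) F) := by
  ext x
  simp only [Subgroup.mem_map, Subgroup.mem_center_iff]
  constructor
  · rintro ⟨y, hy, rfl⟩ z
    obtain ⟨w, rfl⟩ := (semiEquiv g hg σ).surjective z
    show semiEquiv g hg σ w * semiEquiv g hg σ y = semiEquiv g hg σ y * semiEquiv g hg σ w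
    rw [← map_mul, ← map_mul, hy w]
  · intro hx
    refine ⟨(semiEquiv g hg σ).symm x, fun z => (semiEquiv g hg σ).injective ?_, by simp⟩
    rw [map_mul, map_mul, MulEquiv.apply_symm_apply]
    exact hx _

/-- The automorphism of PSp attached to a semilinear similitude. -/
noncomputable def semiAut [Finite F] (g : GL (Fin m ⊕ Fin m) F) (hg : g ∈ Cfsg.GSp m F)
    (σ : F ≃+* F) : MulAut (Cfsg.PSp m F) :=
  QuotientGroup.congr _ _ (semiEquiv g hg σ) (map_center_semiEquiv g hg σ)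

theorem semiAut_mk [Finite F] (g : GL (Fin m ⊕ Fin m) F) (hg : g ∈ Cfsg.GSp m F) (σ : F ≃+* F)
    (s : Matrix.symplecticGroup (Fin m) F) :
    semiAut g hg σ (QuotientGroup.mk' _ s) = QuotientGroup.mk' _ (semiHom g hg σ s) := rfl

theorem semiAut_induced [Finite F] (g : GL (Fin m ⊕ Fin m) F) (hg : g ∈ Cfsg.GSp m F) (σ : F ≃+* F) :
    Cfsg.IsInducedBySemilinearPSp g σ (semiAut g hg σ) := by
  intro s s' h
  have : s' = semiHom g hg σ s := Subtype.ext h
  rw [this]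
  exact semiAut_mk g hg σ s

theorem sympForm_map_ringHom (σ : F ≃+* F) (u v : Fin m ⊕ Fin m → F) :
    Cfsg.sympForm m F (fun a => σ (u a)) (fun a => σ (v a)) = σ (Cfsg.sympForm m F u v) := by
  simp [sympForm_apply, map_sum, map_sub, map_mul]

/-- Conjugation by a semilinear similitude on transvections. -/
theorem semiHom_transv {g : GL (Fin m ⊕ Fin m) F} (hg : g ∈ Cfsg.GSp m F) (σ : F ≃+* F) :
    ∃ k : F, k ≠ 0 ∧ ∀ v c, semiHom g hg σ (transv v c) =
      transv ((g : Matrix (Fin m ⊕ Fin m) (Fin m ⊕ Fin m) F) *ᵥ fun a => σ (v a)) (σ c * k) := by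
  obtain ⟨k, hk⟩ := id hg
  refine ⟨((k : F))⁻¹, inv_ne_zero k.ne_zero, fun v c => ext_of_mulVec fun x => ?_⟩
  show semiMat g σ (transv v c) *ᵥ x = _
  obtain ⟨y, rfl⟩ : ∃ y, (g : Matrix (Fin m ⊕ Fin m) (Fin m ⊕ Fin m) F) *ᵥ y = x :=
    ⟨((g⁻¹ : GL (Fin m ⊕ Fin m) F) : Matrix (Fin m ⊕ Fin m) (Fin m ⊕ Fin m) F) *ᵥ x, by
      rw [mulVec_mulVec, ← Units.val_mul, mul_inv_cancel, Units.val_one, one_mulVec]⟩
  obtain ⟨z, rfl⟩ : ∃ z : Fin m ⊕ Fin m → F, (fun a => σ (z a)) = y :=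
    ⟨fun a => σ.symm (y a), funext fun a => by simp⟩
  rw [semiMat, ← mulVec_mulVec, mulVec_mulVec (M := ((g⁻¹ : GL (Fin m ⊕ Fin m) F) : Matrix (Fin m ⊕ Fin m) (Fin m ⊕ Fin m) F)),
    ← Units.val_mul, inv_mul_cancel, Units.val_one, one_mulVec, ← mulVec_mulVec]
  have hmap : ((transv v c : Matrix.symplecticGroup (Fin m) F) :
      Matrix (Fin m ⊕ Fin m) (Fin m ⊕ Fin m) F).map σ *ᵥ (fun a => σ (z a)) =
      fun a => σ ((((transv v c : Matrix.symplecticGroup (Fin m) F) :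
        Matrix (Fin m ⊕ Fin m) (Fin m ⊕ Fin m) F) *ᵥ z) a) :=
    funext fun a => (RingHom.map_mulVec σ.toRingHom _ _ a).symm
  rw [hmap, coe_transv, coe_transv, sympTransvection_mulVec, sympTransvection_mulVec, hk,
    sympForm_map_ringHom]
  have e : (fun a => σ ((z + (c * Cfsg.sympForm m F z v) • v) a)) =
      (fun a => σ (z a)) + (σ c * σ (Cfsg.sympForm m F z v)) • fun a => σ (v a) := by
    funext a; simp
  rw [e, mulVec_add, mulVec_smul]
  congr 2
  field_simp [k.ne_zero]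

/-- A semilinear similitude preserves transvections. -/
theorem isPTransv_semiAut [Finite F] {g : GL (Fin m ⊕ Fin m) F} (hg : g ∈ Cfsg.GSp m F) (σ : F ≃+* F)
    {x : Cfsg.PSp m F} (hx : IsPTransv x) : IsPTransv (semiAut g hg σ x) := by
  obtain ⟨v, c, hv, hc, rfl⟩ := hx
  obtain ⟨k, hk, hkt⟩ := semiHom_transv hg σ
  refine ⟨_, _, fun h0 => hv ?_, mul_ne_zero (by simpa using hc) hk,
    ((semiAut_mk g hg σ _).trans (congrArg _ (hkt v c))).symm⟩
  have h1 : (fun a => σ (v a)) = 0 := by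
    have h2 := congrArg (fun w => ((g⁻¹ : GL (Fin m ⊕ Fin m) F) :
      Matrix (Fin m ⊕ Fin m) (Fin m ⊕ Fin m) F) *ᵥ w) h0
    simpa [mulVec_mulVec, ← Units.val_mul] using h2
  exact funext fun a => by simpa using congrFun h1 a

/-- Every automorphism preserving transvections is semilinear. -/
theorem exists_semilinear_of_preserves [Finite F] (hm : 2 ≤ m) (α : MulAut (Cfsg.PSp m F))
    (hα : ∀ x, IsPTransv x → IsPTransv (α x)) :
    ∃ (g : GL (Fin m ⊕ Fin m) F) (hg : g ∈ Cfsg.GSp m F) (σ : F ≃+* F), α = semiAut g hg σ := by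
  classical
  set π := QuotientGroup.mk' (Subgroup.center (Matrix.symplecticGroup (Fin m) F)) with hπ
  obtain ⟨τ, hτ, hτt⟩ := exists_pointMap hm α hα
  obtain ⟨g, σ, hg, hgv⟩ := exists_semilinear_of_orth hm τ hτ
  refine ⟨g, hg, σ, ?_⟩
  set β := semiAut g hg σ
  obtain ⟨k, hk, hkt⟩ := semiHom_transv hg σ
  obtain ⟨τ', hτ', hτ't⟩ := exists_pointMap hm β (fun x => isPTransv_semiAut hg σ)
  -- both automorphisms have the same map on points
  have hsame : ∀ p, τ' p = τ p := by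
    intro p
    have hv := p.rep_nonzero
    obtain ⟨l, hl, hlv⟩ := hgv p.rep hv
    obtain ⟨d, hd, h1⟩ := hτ't p.rep hv 1 one_ne_zero
    rw [show β (π (transv p.rep 1)) = π (semiHom g hg σ (transv p.rep 1)) from semiAut_mk g hg σ _,
      hkt, map_one, one_mul] at h1
    set u := (g : Matrix (Fin m ⊕ Fin m) (Fin m ⊕ Fin m) F) *ᵥ fun a => σ (p.rep a) with hu
    have hune : u ≠ 0 := fun h0 => (τ (mk F p.rep hv)).rep_nonzero (by rw [hlv, h0, smul_zero])
    obtain ⟨a, ha⟩ := exists_smul_of_transv_eq hune hk (eq_of_mk_transv_eq hm h1)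
    rw [mk_rep] at hlv ha
    rw [← mk_rep (τ' p), ← mk_rep (τ p)]
    refine (mk_eq_mk_iff' F _ _ _ _).mpr ⟨a⁻¹ * l⁻¹, ?_⟩
    rw [hlv, smul_smul, mul_assoc, inv_mul_cancel₀ hl, mul_one, ha, smul_smul,
      inv_mul_cancel₀ (fun h0 => hune (by rw [ha, h0, zero_smul])), one_smul]
  refine MulEquiv.ext fun x => ?_
  obtain ⟨h, rfl⟩ := QuotientGroup.mk'_surjective _ x
  apply β.symm.injective
  rw [MulEquiv.symm_apply_apply]
  set γ : MulAut (Cfsg.PSp m F) := α.trans β.symm with hγ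
  show γ (π h) = π h
  -- `γ` fixes the point of every transvection
  have hfix : ∀ (v : Fin m ⊕ Fin m → F), v ≠ 0 → ∃ (u : Fin m ⊕ Fin m → F) (a d : F),
      a ≠ 0 ∧ d ≠ 0 ∧ u = a • v ∧ γ (π (transv v 1)) = π (transv u d) := by
    intro v hv
    obtain ⟨d, hd, h1⟩ := hτt v hv 1 one_ne_zero
    obtain ⟨w, e, hw, he, h2⟩ :=
      isPTransv_symm β (fun x => isPTransv_semiAut hg σ) _ ⟨(τ (mk F v hv)).rep, d, rep_nonzero _, hd, rfl⟩
    obtain ⟨d', hd', h3⟩ := hτ't w hw e he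
    have h4 : β (π (transv w e)) = π (transv (τ (mk F v hv)).rep d) := by
      rw [hπ, h2, MulEquiv.apply_symm_apply]
    have h5 : π (transv (τ' (mk F w hw)).rep d') = π (transv (τ (mk F v hv)).rep d) := h3.symm.trans h4
    obtain ⟨b, hb⟩ := exists_smul_of_transv_eq (rep_nonzero _) hd' (eq_of_mk_transv_eq hm h5)
    have h6 : τ' (mk F w hw) = τ (mk F v hv) := by
      rw [← mk_rep (τ' (mk F w hw)), ← mk_rep (τ (mk F v hv))]
      exact (mk_eq_mk_iff' F _ _ _ _).mpr ⟨b, hb.symm⟩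
    rw [hsame, τ.injective.eq_iff, mk_eq_mk_iff'] at h6
    obtain ⟨a, ha⟩ := h6
    refine ⟨w, a, e, fun h0 => hw (by rw [← ha, h0, zero_smul]), he, ha.symm, ?_⟩
    rw [hγ, MulEquiv.trans_apply, h1, hπ, h2]
  obtain ⟨h', hh'⟩ := QuotientGroup.mk'_surjective _ (γ (π h))
  rw [← hh', QuotientGroup.mk'_apply, QuotientGroup.mk'_apply, QuotientGroup.eq, mem_center_iff_eigen]
  intro v hv
  obtain ⟨u, a, d, ha, hd, rfl, h1⟩ := hfix v hv
  have hhv : h • v ≠ 0 := fun h0 => hv (by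
    have h' := congrArg (fun u => h⁻¹ • u) h0
    simp only [inv_smul_smul, smul_zero] at h'
    exact h')
  obtain ⟨u', a', d', ha', hd', rfl, h2⟩ := hfix (h • v) hhv
  have h3 : π (transv (h • v) 1) = π h * π (transv v 1) * (π h)⁻¹ := by
    rw [smul_eq_mulVec_sp, ← conj_transv, map_mul, map_mul, map_inv]
  rw [h3, map_mul, map_mul, map_inv, h1, ← hh', ← map_inv, ← map_mul, ← map_mul, conj_transv,
    mulVec_smul, transv_smul, transv_smul] at h2
  have hne : (h' : Matrix (Fin m ⊕ Fin m) (Fin m ⊕ Fin m) F) *ᵥ v ≠ 0 := fun h0 => hv (by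
    have h5 : h' • v = 0 := h0
    have h6 := congrArg (fun u => h'⁻¹ • u) h5
    simp only [inv_smul_smul, smul_zero] at h6
    exact h6)
  obtain ⟨b, hb⟩ := exists_smul_of_transv_eq hne (mul_ne_zero (mul_ne_zero ha ha) hd) (eq_of_mk_transv_eq hm h2)
  rw [← smul_eq_mulVec_sp] at hb
  have hb0 : b ≠ 0 := fun h0 => hne (by rw [← smul_eq_mulVec_sp, hb, h0, zero_smul])
  refine ⟨b⁻¹, ?_⟩
  rw [← smul_eq_mulVec_sp, mul_smul, inv_smul_eq_iff, smul_eq_mulVec_sp h', mulVec_smul,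
    ← smul_eq_mulVec_sp, hb, smul_smul, inv_mul_cancel₀ hb0, one_smul]

/-- Every automorphism of PSp is semilinear. -/
theorem exists_semilinear [Finite F] (hm : 2 ≤ m) (h22 : m = 2 → (2 : F) ≠ 0) (α : MulAut (Cfsg.PSp m F)) :
    ∃ (g : GL (Fin m ⊕ Fin m) F) (hg : g ∈ Cfsg.GSp m F) (σ : F ≃+* F), α = semiAut g hg σ :=
  exists_semilinear_of_preserves hm α fun _ => isPTransv_map hm h22 α

/-- Two semilinear similitudes induce the same automorphism iff they differ by a scalar. -/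
theorem semiAut_eq_iff [Finite F] (hm : 2 ≤ m) {g g' : GL (Fin m ⊕ Fin m) F} (hg : g ∈ Cfsg.GSp m F)
    (hg' : g' ∈ Cfsg.GSp m F) (σ σ' : F ≃+* F) :
    semiAut g hg σ = semiAut g' hg' σ' ↔ σ = σ' ∧ ∃ a : Fˣ, g' = Matrix.GeneralLinearGroup.scalar _ a * g := by
  classical
  constructor
  · intro h
    obtain ⟨k, hk, hkt⟩ := semiHom_transv hg σ
    obtain ⟨k', hk', hkt'⟩ := semiHom_transv hg' σ'
    have hinv : ∀ w : Fin m ⊕ Fin m → F,
        ((g⁻¹ : GL (Fin m ⊕ Fin m) F) : Matrix (Fin m ⊕ Fin m) (Fin m ⊕ Fin m) F) *ᵥ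
          ((g : Matrix (Fin m ⊕ Fin m) (Fin m ⊕ Fin m) F) *ᵥ w) = w := fun w => by
      rw [mulVec_mulVec, ← Units.val_mul, inv_mul_cancel, Units.val_one, one_mulVec]
    have hinv' : ∀ w : Fin m ⊕ Fin m → F,
        ((g'⁻¹ : GL (Fin m ⊕ Fin m) F) : Matrix (Fin m ⊕ Fin m) (Fin m ⊕ Fin m) F) *ᵥ
          ((g' : Matrix (Fin m ⊕ Fin m) (Fin m ⊕ Fin m) F) *ᵥ w) = w := fun w => by
      rw [mulVec_mulVec, ← Units.val_mul, inv_mul_cancel, Units.val_one, one_mulVec]
    have hpar : ∀ v : Fin m ⊕ Fin m → F, v ≠ 0 → ∃ b : F, b ≠ 0 ∧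
        (g' : Matrix (Fin m ⊕ Fin m) (Fin m ⊕ Fin m) F) *ᵥ (fun a => σ' (v a)) =
          b • ((g : Matrix (Fin m ⊕ Fin m) (Fin m ⊕ Fin m) F) *ᵥ fun a => σ (v a)) := by
      intro v hv
      have h1 := congrArg (fun β : MulAut (Cfsg.PSp m F) => β (QuotientGroup.mk' _ (transv v 1))) h
      simp only [semiAut_mk, hkt, hkt', map_one, one_mul] at h1
      have hne : (g' : Matrix (Fin m ⊕ Fin m) (Fin m ⊕ Fin m) F) *ᵥ (fun a => σ' (v a)) ≠ 0 := fun h0 => by
        have h2 := congrArg (fun w => ((g'⁻¹ : GL (Fin m ⊕ Fin m) F) :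
          Matrix (Fin m ⊕ Fin m) (Fin m ⊕ Fin m) F) *ᵥ w) h0
        rw [hinv', mulVec_zero] at h2
        exact hv (funext fun a => σ'.injective (by simpa using congrFun h2 a))
      obtain ⟨b, hb⟩ := exists_smul_of_transv_eq hne hk' (eq_of_mk_transv_eq hm h1.symm)
      exact ⟨b, fun h0 => hne (by rw [hb, h0, zero_smul]), hb⟩
    set M : Matrix (Fin m ⊕ Fin m) (Fin m ⊕ Fin m) F :=
      ((g⁻¹ : GL (Fin m ⊕ Fin m) F) : Matrix (Fin m ⊕ Fin m) (Fin m ⊕ Fin m) F) *
        (g' : Matrix (Fin m ⊕ Fin m) (Fin m ⊕ Fin m) F) with hM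
    have hMv : ∀ v : Fin m ⊕ Fin m → F, v ≠ 0 → ∃ b : F, b ≠ 0 ∧
        M *ᵥ (fun a => σ' (v a)) = b • fun a => σ (v a) := fun v hv => by
      obtain ⟨b, hb, h1⟩ := hpar v hv
      exact ⟨b, hb, by rw [hM, ← mulVec_mulVec, h1, mulVec_smul, hinv]⟩
    have he : ∀ (τ : F ≃+* F) (i : Fin m ⊕ Fin m), (fun a => τ ((Pi.single i 1 : Fin m ⊕ Fin m → F) a)) =
        Pi.single i 1 := fun τ i => funext fun a => by
      by_cases h : a = i <;> simp [h]
    choose b hb hbe using fun i : Fin m ⊕ Fin m => hMv (Pi.single i 1) (by simp)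
    simp only [he] at hbe
    set o : Fin m ⊕ Fin m := Sum.inl ⟨0, by omega⟩ with ho
    have key : ∀ i, i ≠ o → ∀ t : F, b i * σ' t = b o * σ t := by
      intro i hi t
      obtain ⟨c, hc, hv⟩ := hMv (Pi.single o 1 + Pi.single i t) (fun h0 => by
        have := congrFun h0 o
        simp [Ne.symm hi] at this)
      have e : ∀ τ : F ≃+* F, (fun a => τ ((Pi.single o (1:F) + Pi.single i t : Fin m ⊕ Fin m → F) a)) =
          Pi.single o 1 + τ t • Pi.single i 1 := fun τ => funext fun a => by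
        by_cases h1 : a = o
        · subst h1; simp [Ne.symm hi]
        · by_cases h2 : a = i <;> simp [h1, h2, hi]
      rw [e, e, mulVec_add, mulVec_smul, hbe, hbe] at hv
      have h1 := congrFun hv o
      have h2 := congrFun hv i
      simp [Ne.symm hi, hi] at h1 h2
      rw [h1, ← h2]; ring
    have hb_eq : ∀ i, b i = b o := fun i => by
      by_cases hi : i = o
      · rw [hi]
      · simpa using key i hi 1
    have hσ : σ = σ' := RingEquiv.ext fun t => by
      have hi : (Sum.inr ⟨0, by omega⟩ : Fin m ⊕ Fin m) ≠ o := by simp [ho]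
      have := key _ hi t
      rw [hb_eq] at this
      exact (mul_left_cancel₀ (hb o) this).symm
    refine ⟨hσ, Units.mk0 (b o) (hb o), Units.ext ?_⟩
    have hMeq : M = b o • (1 : Matrix (Fin m ⊕ Fin m) (Fin m ⊕ Fin m) F) :=
      Matrix.ext_of_mulVec_single fun i => by rw [hbe, hb_eq, smul_mulVec, one_mulVec]
    have hgM : (g' : Matrix (Fin m ⊕ Fin m) (Fin m ⊕ Fin m) F) =
        (g : Matrix (Fin m ⊕ Fin m) (Fin m ⊕ Fin m) F) * M := by
      rw [hM, ← mul_assoc, ← Units.val_mul, mul_inv_cancel, Units.val_one, one_mul]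
    rw [hgM, hMeq, Units.val_mul]
    simp [Matrix.GeneralLinearGroup.scalar, Matrix.smul_eq_diagonal_mul]
    exact (Matrix.scalar_commute (b o) (fun r => mul_comm _ r) _).eq.symm
  · rintro ⟨rfl, a, rfl⟩
    refine MulEquiv.ext fun x => ?_
    obtain ⟨s, rfl⟩ := QuotientGroup.mk'_surjective _ x
    rw [semiAut_mk, semiAut_mk]
    congr 1
    apply Subtype.ext
    show semiMat g σ _ = semiMat (_ * g) σ _
    have hc := fun A : Matrix (Fin m ⊕ Fin m) (Fin m ⊕ Fin m) F =>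
      (Matrix.scalar_commute (a : F) (fun r => mul_comm _ r) A).eq
    simp only [semiMat, _root_.mul_inv_rev, Units.val_mul, mul_assoc]
    rw [show ((Matrix.GeneralLinearGroup.scalar (Fin m ⊕ Fin m) a : GL (Fin m ⊕ Fin m) F) :
      Matrix (Fin m ⊕ Fin m) (Fin m ⊕ Fin m) F) = Matrix.scalar _ (a : F) from rfl, hc]
    simp only [mul_assoc]
    rw [show Matrix.scalar (Fin m ⊕ Fin m) (a : F) =
      ((Matrix.GeneralLinearGroup.scalar (Fin m ⊕ Fin m) a : GL (Fin m ⊕ Fin m) F) :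
      Matrix (Fin m ⊕ Fin m) (Fin m ⊕ Fin m) F) from rfl, ← Units.val_mul
        ((Matrix.GeneralLinearGroup.scalar (Fin m ⊕ Fin m) a)⁻¹), inv_mul_cancel, Units.val_one, mul_one]

end Cfsg.Agent.H2.AutPSp
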