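import Cfsg.Agent.H2.AutPSp.Count

/-!
Composition of semilinear automorphisms of PSp; inner automorphisms.
-/

set_option autoImplicit false

namespace Cfsg.Agent.H2.AutPSp

open Matrix

variable {m : ℕ} {F : Type*} [Field F]

/-- Entrywise action of a field automorphism on GL. -/
def glMap (σ : F ≃+* F) : GL (Fin m ⊕ Fin m) F →* GL (Fin m ⊕ Fin m) F :=
  Units.map (σ.toRingHom.mapMatrix).toMonoidHom

theorem coe_glMap (σ : F ≃+* F) (g : GL (Fin m ⊕ Fin m) F) :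
    ((glMap σ g : GL (Fin m ⊕ Fin m) F) : Matrix (Fin m ⊕ Fin m) (Fin m ⊕ Fin m) F) =
      (g : Matrix (Fin m ⊕ Fin m) (Fin m ⊕ Fin m) F).map σ := rfl

theorem glMap_mem {g : GL (Fin m ⊕ Fin m) F} (hg : g ∈ Cfsg.GSp m F) (σ : F ≃+* F) :
    glMap σ g ∈ Cfsg.GSp m F := by
  obtain ⟨k, hk⟩ := hg
  refine ⟨Units.map σ.toRingHom.toMonoidHom k, fun u v => ?_⟩
  have e : ∀ w : Fin m ⊕ Fin m → F,
      ((glMap σ g : GL (Fin m ⊕ Fin m) F) : Matrix (Fin m ⊕ Fin m) (Fin m ⊕ Fin m) F) *ᵥ w =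
        fun a => σ (((g : Matrix (Fin m ⊕ Fin m) (Fin m ⊕ Fin m) F) *ᵥ fun b => σ.symm (w b)) a) := fun w => by
    funext a
    rw [coe_glMap]
    refine Eq.trans ?_ (RingHom.map_mulVec σ.toRingHom _ _ a).symm
    congr 1
    simp [Function.comp_def]
  have hu : ∀ w : Fin m ⊕ Fin m → F, (fun a => σ ((fun b => σ.symm (w b)) a)) = w := fun w => by
    funext a; simp
  rw [e u, e v, sympForm_map_ringHom, hk, map_mul]
  conv_rhs => rw [← hu u, ← hu v, sympForm_map_ringHom]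
  rfl

theorem semiAut_mul [Finite F] {g g' : GL (Fin m ⊕ Fin m) F} (hg : g ∈ Cfsg.GSp m F) (hg' : g' ∈ Cfsg.GSp m F)
    (σ σ' : F ≃+* F) :
    semiAut g hg σ * semiAut g' hg' σ' =
      semiAut (g * glMap σ g') (mul_mem hg (glMap_mem hg' σ)) (σ'.trans σ) := by
  refine MulEquiv.ext fun x => ?_
  obtain ⟨s, rfl⟩ := QuotientGroup.mk'_surjective _ x
  rw [MulAut.mul_apply, semiAut_mk, semiAut_mk, semiAut_mk]
  congr 1
  apply Subtype.ext
  show semiMat g σ (semiMat g' σ' _) = semiMat _ (σ'.trans σ) _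
  simp only [semiMat, _root_.mul_inv_rev, Units.val_mul, Matrix.map_mul, ← map_inv, coe_glMap, mul_assoc,
    Matrix.map_map]
  rfl

theorem semiAut_congr [Finite F] {g g' : GL (Fin m ⊕ Fin m) F} (hg : g ∈ Cfsg.GSp m F) (hg' : g' ∈ Cfsg.GSp m F)
    {σ σ' : F ≃+* F} (h : g = g') (h' : σ = σ') : semiAut g hg σ = semiAut g' hg' σ' := by
  subst h; subst h'; rfl

theorem semiAut_one [Finite F] : semiAut (1 : GL (Fin m ⊕ Fin m) F) (one_mem _) (RingEquiv.refl F) = 1 := by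
  refine MulEquiv.ext fun x => ?_
  obtain ⟨s, rfl⟩ := QuotientGroup.mk'_surjective _ x
  rw [semiAut_mk]
  refine congrArg (QuotientGroup.mk' _) (Subtype.ext ?_)
  show semiMat 1 (RingEquiv.refl F) _ = _
  simp [semiMat]

theorem spUnit_mem (s : Matrix.symplecticGroup (Fin m) F) : spUnit s ∈ Cfsg.GSp m F :=
  ⟨1, fun u v => by rw [Units.val_one, one_mul]; exact sympForm_mulVec s u v⟩

theorem semiAut_spUnit [Finite F] (s : Matrix.symplecticGroup (Fin m) F) :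
    semiAut (spUnit s) (spUnit_mem s) (RingEquiv.refl F) = MulAut.conj (QuotientGroup.mk' _ s) := by
  refine MulEquiv.ext fun x => ?_
  obtain ⟨t, rfl⟩ := QuotientGroup.mk'_surjective _ x
  rw [semiAut_mk, MulAut.conj_apply, ← map_inv, ← map_mul, ← map_mul]
  refine congrArg (QuotientGroup.mk' _) (Subtype.ext ?_)
  show semiMat (spUnit s) (RingEquiv.refl F) _ = _
  simp [semiMat, spUnit]

/-- If the multiplier is a square, the automorphism is inner. -/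
theorem semiAut_refl_mem_inn [Finite F] (hm : 2 ≤ m) {g : GL (Fin m ⊕ Fin m) F} (hg : g ∈ Cfsg.GSp m F)
    (a : Fˣ) (h : ∀ u v, Cfsg.sympForm m F ((g : Matrix (Fin m ⊕ Fin m) (Fin m ⊕ Fin m) F) *ᵥ u)
      ((g : Matrix (Fin m ⊕ Fin m) (Fin m ⊕ Fin m) F) *ᵥ v) = ((a * a : Fˣ) : F) * Cfsg.sympForm m F u v) :
    semiAut g hg (RingEquiv.refl F) ∈ Cfsg.Inn (Cfsg.PSp m F) := by
  have hs : (((Matrix.GeneralLinearGroup.scalar _ a)⁻¹ * g : GL (Fin m ⊕ Fin m) F) :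
      Matrix (Fin m ⊕ Fin m) (Fin m ⊕ Fin m) F) ∈ Matrix.symplecticGroup (Fin m) F := by
    rw [mem_symplecticGroup_iff]
    intro u v
    have hval : (((Matrix.GeneralLinearGroup.scalar (Fin m ⊕ Fin m) a)⁻¹ * g : GL (Fin m ⊕ Fin m) F) :
        Matrix (Fin m ⊕ Fin m) (Fin m ⊕ Fin m) F) = ((a⁻¹ : Fˣ) : F) • (g : Matrix (Fin m ⊕ Fin m) (Fin m ⊕ Fin m) F) := by
      rw [← map_inv, Units.val_mul, Matrix.smul_eq_diagonal_mul]
      rfl
    rw [hval, Matrix.smul_mulVec, Matrix.smul_mulVec, ← sympBilin_apply]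
    simp only [map_smul, LinearMap.smul_apply, sympBilin_apply, smul_eq_mul, h, Units.val_mul]
    field_simp
    rw [← mul_pow, ← Units.val_mul, inv_mul_cancel, Units.val_one, one_pow, one_mul]
  refine ⟨QuotientGroup.mk' _ ⟨_, hs⟩, ?_⟩
  rw [← semiAut_spUnit]
  refine (semiAut_eq_iff hm _ _ _ _).mpr ⟨rfl, a, ?_⟩
  rw [show spUnit ⟨_, hs⟩ = (Matrix.GeneralLinearGroup.scalar _ a)⁻¹ * g from Units.ext rfl, mul_inv_cancel_left]

end Cfsg.Agent.H2.AutPSp
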