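import Cfsg.Agent.H2.Simple
import Cfsg.Agent.H2.Stab

/-!
Automorphisms of PSp map transvections to transvections (except for Sp_4 in characteristic two).
-/

set_option autoImplicit false

namespace Cfsg.Agent.H2.AutPSp

open Matrix

variable {m : ℕ} {F : Type*} [Field F]

/-- The image of a non-trivial transvection in PSp. -/
def IsPTransv (x : Cfsg.PSp m F) : Prop :=
  ∃ (v : Fin m ⊕ Fin m → F) (c : F), v ≠ 0 ∧ c ≠ 0 ∧ QuotientGroup.mk' _ (transv v c) = x

theorem IsPTransv.conj {x : Cfsg.PSp m F} (hx : IsPTransv x) (y : Cfsg.PSp m F) :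
    IsPTransv (y * x * y⁻¹) := by
  obtain ⟨v, c, hv, hc, rfl⟩ := hx
  obtain ⟨g, rfl⟩ := QuotientGroup.mk'_surjective _ y
  refine ⟨g • v, c, fun h => hv ?_, hc, ?_⟩
  · have h' := congrArg (fun w => g⁻¹ • w) h
    simp only [inv_smul_smul, smul_zero] at h'
    exact h'
  · rw [smul_eq_mulVec_sp, ← conj_transv, map_mul, map_mul, map_inv]

/-- Upper unitriangular block diagonal element. -/
def elemA (a b : Fin m) (hab : a ≠ b) (c : F) : Matrix.symplecticGroup (Fin m) F :=
  ⟨Matrix.fromBlocks (1 + Matrix.single a b c) 0 0 (1 - Matrix.single b a c), by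
    rw [SymplecticGroup.fromBlocks_mem_iff]
    refine ⟨by simp, by simp, ?_⟩
    rw [Matrix.transpose_add, Matrix.transpose_one, Matrix.transpose_single, Matrix.transpose_zero,
      Matrix.zero_mul, sub_zero, Matrix.add_mul, Matrix.one_mul, Matrix.mul_sub, Matrix.mul_one,
      Matrix.single_mul_single_of_ne _ _ _ _ hab, sub_zero, sub_add_cancel]⟩

/-- The position of a coordinate in the ordering `e_0 < ⋯ < e_{m-1} < f_{m-1} < ⋯ < f_0`. -/
def ordIdx : Fin m ⊕ Fin m → ℕ := Sum.elim (fun i => (i : ℕ)) (fun i => 2 * m - (i : ℕ))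

/-- Unitriangular symplectic matrices, as a submonoid. -/
def unitri (m : ℕ) (F : Type*) [Field F] : Submonoid (Matrix.symplecticGroup (Fin m) F) where
  carrier := {g | ∀ r c, ordIdx c ≤ ordIdx r → (g : Matrix (Fin m ⊕ Fin m) (Fin m ⊕ Fin m) F) r c =
    (1 : Matrix (Fin m ⊕ Fin m) (Fin m ⊕ Fin m) F) r c}
  one_mem' := fun r c _ => rfl
  mul_mem' {g h} hg hh r c hrc := by
    classical
    rw [Submonoid.coe_mul, Matrix.mul_apply, Finset.sum_eq_single r]
    · rw [hg r r le_rfl, Matrix.one_apply_eq, one_mul, hh r c hrc]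
    · intro s _ hs
      by_cases h1 : ordIdx s ≤ ordIdx r
      · rw [hg r s h1, Matrix.one_apply_ne (Ne.symm hs), zero_mul]
      · rw [hh s c (by omega), Matrix.one_apply_ne (fun h => h1 (by rw [h]; exact hrc)), mul_zero]
    · simp

/-- Unitriangular symplectic matrices, as a subgroup. -/
def unitriGroup (m : ℕ) (F : Type*) [Field F] [Finite F] : Subgroup (Matrix.symplecticGroup (Fin m) F) where
  toSubmonoid := unitri m F
  inv_mem' {g} hg := by
    obtain ⟨n, hn, hgn⟩ := (isOfFinOrder_of_finite g).exists_pow_eq_one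
    obtain ⟨k, rfl⟩ : ∃ k, n = k + 1 := ⟨n - 1, by omega⟩
    rw [inv_eq_of_mul_eq_one_right (show g * g ^ k = 1 by rw [← pow_succ', hgn])]
    exact (unitri m F).pow_mem hg k

/-- An element whose difference from one is nilpotent has `p`-power order. -/
theorem exists_pow_eq_one_of_nilpotent {p : ℕ} [Fact p.Prime] [CharP F p]
    {g : Matrix.symplecticGroup (Fin m) F} {N : ℕ}
    (h : ((g : Matrix (Fin m ⊕ Fin m) (Fin m ⊕ Fin m) F) - 1) ^ N = 0) :
    ∃ k : ℕ, g ^ p ^ k = 1 := by
  refine ⟨N, Subtype.ext ?_⟩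
  rw [SubmonoidClass.coe_pow, Submonoid.coe_one, ← sub_eq_zero]
  rcases m with - | m
  · exact Subsingleton.elim _ _
  haveI : CharP (Matrix (Fin (m + 1) ⊕ Fin (m + 1)) (Fin (m + 1) ⊕ Fin (m + 1)) F) p := inferInstance
  have hc : Commute (g : Matrix (Fin (m + 1) ⊕ Fin (m + 1)) (Fin (m + 1) ⊕ Fin (m + 1)) F) 1 :=
    Commute.one_right _
  have h2 := sub_pow_char_pow_of_commute p N hc
  rw [one_pow] at h2
  rw [← h2]
  exact pow_eq_zero_of_le ((Nat.lt_pow_self (Fact.out : p.Prime).one_lt).le) h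

theorem isPGroup_unitriGroup [Finite F] {p : ℕ} [Fact p.Prime] [CharP F p] :
    IsPGroup p (unitriGroup m F) := by
  rintro ⟨g, hg⟩
  set A : Matrix (Fin m ⊕ Fin m) (Fin m ⊕ Fin m) F :=
    (g : Matrix (Fin m ⊕ Fin m) (Fin m ⊕ Fin m) F) - 1 with hA
  have key : ∀ n r c, ordIdx c < ordIdx r + n → (A ^ n) r c = 0 := by
    intro n
    induction n with
    | zero =>
      intro r c h
      rw [pow_zero, Matrix.one_apply_ne]
      rintro rfl
      omega
    | succ n ih =>
      intro r c h
      rw [pow_succ', Matrix.mul_apply]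
      refine Finset.sum_eq_zero fun s _ => ?_
      by_cases hs : ordIdx s ≤ ordIdx r
      · rw [hA, Matrix.sub_apply, hg r s hs, sub_self, zero_mul]
      · rw [ih s c (by omega), mul_zero]
  have hpow : A ^ (2 * m + 1) = 0 := by
    ext r c
    refine key _ r c ?_
    rcases c with i | i <;> simp [ordIdx] <;> omega
  obtain ⟨k, hk⟩ := exists_pow_eq_one_of_nilpotent (p := p) hpow
  exact ⟨k, Subtype.ext hk⟩

theorem elemA_mem [Finite F] {a b : Fin m} (hab : a < b) (c : F) :
    elemA a b hab.ne c ∈ unitriGroup m F := by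
  rintro (i | i) (j | j) h <;>
    simp only [elemA, fromBlocks_apply₁₁, fromBlocks_apply₁₂, fromBlocks_apply₂₁, fromBlocks_apply₂₂,
      ordIdx, Sum.elim_inl, Sum.elim_inr, Matrix.zero_apply] at h ⊢
  · have hne : ¬ (a = i ∧ b = j) := fun hh => by rw [← hh.1, ← hh.2] at h; omega
    simp [Matrix.single_apply, hne, Matrix.one_apply]
  · simp
  · simp
  · have hne : ¬ (b = i ∧ a = j) := fun hh => by rw [← hh.1, ← hh.2] at h; omega
    simp [Matrix.single_apply, hne, Matrix.one_apply]

theorem transv_mem_unitri [Finite F] {v : Fin m ⊕ Fin m → F} (hv : ∀ i, v (Sum.inr i) = 0) (c : F) :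
    transv v c ∈ unitriGroup m F := by
  rintro r col h
  rw [coe_transv, Cfsg.sympTransvection, Matrix.add_apply, add_eq_left]
  rcases r with i | i <;> rcases col with j | j
  · simp [Matrix.vecMulVec, Matrix.mulVec, dotProduct, Matrix.J, Fintype.sum_sum_type, hv]
  · simp [ordIdx] at h
    omega
  · simp [Matrix.vecMulVec, hv]
  · simp [Matrix.vecMulVec, hv]

/-- An element centralising the unitriangular group is supported on at most three entries. -/
theorem shape_of_centralizes [Finite F] {p : ℕ} [Fact p.Prime] [CharP F p] (hm : 2 ≤ m)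
    {z : Matrix.symplecticGroup (Fin m) F} (hz : ∃ k, z ^ p ^ k = 1)
    (hcomm : ∀ u ∈ unitriGroup m F, z * u = u * z) :
    ∃ S : Matrix (Fin m) (Fin m) F, Sᵀ = S ∧
      (z : Matrix (Fin m ⊕ Fin m) (Fin m ⊕ Fin m) F) = Matrix.fromBlocks 1 S 0 1 ∧
      (∀ i j : Fin m, (2 ≤ (i : ℕ) ∨ ((i : ℕ) = 1 ∧ (j : ℕ) ≠ 0)) → S i j = 0) ∧
      ((2 : F) ≠ 0 → ∀ i j : Fin m, (i : ℕ) ≠ 0 → S i j = 0) := by
  classical
  obtain ⟨k, hk⟩ := hz
  have hfix : ∀ v : Fin m ⊕ Fin m → F, (∀ i, v (Sum.inr i) = 0) → z • v = v := by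
    intro v hv
    by_cases hv0 : v = 0
    · subst hv0; rw [smul_zero]
    obtain ⟨x, hx⟩ := exists_sympForm_eq_one hv0
    have h1 : transv (z • v) (1 : F) = transv v 1 := by
      rw [smul_eq_mulVec_sp, ← conj_transv, mul_inv_eq_iff_eq_mul]
      exact hcomm _ (transv_mem_unitri hv 1)
    have h2 := congrArg (fun t : Matrix.symplecticGroup (Fin m) F => t • x) h1
    simp only [smul_eq_mulVec_sp, coe_transv, sympTransvection_mulVec, one_mul, hx, one_smul,
      add_right_inj] at h2
    rw [← smul_eq_mulVec_sp] at h2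
    set a := Cfsg.sympForm m F x (z • v) with hadef
    have ha0 : a ≠ 0 := fun h => hv0 (by rw [← h2, h, zero_smul])
    have hzv : z • v = a⁻¹ • v := by rw [eq_inv_smul_iff₀ ha0]; exact h2
    have haa : a * a = 1 := by
      have h3 : a = a⁻¹ := by
        calc a = Cfsg.sympForm m F x (z • v) := hadef
          _ = Cfsg.sympForm m F x (a⁻¹ • v) := by rw [hzv]
          _ = a⁻¹ := by
            rw [← sympBilin_apply, map_smul, sympBilin_apply, hx, smul_eq_mul, mul_one]
      nth_rewrite 2 [h3]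
      exact mul_inv_cancel₀ ha0
    have hpow : ∀ n, z ^ n • v = (a⁻¹) ^ n • v := by
      intro n
      induction n with
      | zero => simp
      | succ n ih =>
        rw [pow_succ, mul_smul, hzv, pow_succ', mul_smul, ← ih]
        simp only [smul_eq_mulVec_sp, Matrix.mulVec_smul]
    have h4 := hpow (p ^ k)
    rw [hk, one_smul] at h4
    have h5 : (a⁻¹) ^ p ^ k = 1 := by
      have := smul_left_injective F hv0 (h4.symm.trans (one_smul F v).symm)
      exact this
    have h6 : a⁻¹ = 1 := by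
      rw [← sub_eq_zero]
      refine pow_eq_zero_iff (pow_ne_zero k (Fact.out : p.Prime).ne_zero) |>.mp ?_
      rw [sub_pow_char_pow, one_pow, h5, sub_self]
    rw [hzv, h6, one_smul]
  set M : Matrix (Fin m ⊕ Fin m) (Fin m ⊕ Fin m) F := (z : Matrix (Fin m ⊕ Fin m) (Fin m ⊕ Fin m) F) with hM
  have hcol : ∀ (j : Fin m) r, M r (Sum.inl j) = (1 : Matrix (Fin m ⊕ Fin m) (Fin m ⊕ Fin m) F) r (Sum.inl j) := by
    intro j r
    have h := congrFun (hfix (Pi.single (Sum.inl j) 1) (fun i => by simp)) r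
    rw [smul_eq_mulVec_sp] at h
    simpa [Matrix.one_apply, Pi.single_apply] using h
  have hblocks : M = Matrix.fromBlocks 1 M.toBlocks₁₂ 0 M.toBlocks₂₂ := by
    conv_lhs => rw [← M.fromBlocks_toBlocks]
    congr 1
    · ext i j
      show M (Sum.inl i) (Sum.inl j) = _
      simpa [Matrix.one_apply] using hcol j (Sum.inl i)
    · ext i j
      show M (Sum.inr i) (Sum.inl j) = _
      simpa using hcol j (Sum.inr i)
  have hmem := z.2
  rw [← hM, hblocks, SymplecticGroup.fromBlocks_mem_iff] at hmem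
  obtain ⟨-, hsym, hD⟩ := hmem
  rw [Matrix.transpose_one, Matrix.one_mul, Matrix.transpose_zero, Matrix.zero_mul, sub_zero] at hD
  set S := M.toBlocks₁₂ with hS
  rw [hD, Matrix.mul_one, Matrix.transpose_one, Matrix.one_mul] at hsym
  have hshape : M = Matrix.fromBlocks 1 S 0 1 := by rw [hblocks, hD]
  have hA : ∀ a b : Fin m, (hab : a < b) → ∀ i j, (Matrix.single a b (1 : F) * S) i j =
      -((S * Matrix.single b a (1 : F)) i j) -
        (Matrix.single a b (1 : F) * S * Matrix.single b a (1 : F)) i j := by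
    intro a b hab i j
    have h := congrArg Subtype.val (hcomm _ (elemA_mem hab (1 : F)))
    simp only [Submonoid.coe_mul, ← hM, hshape, elemA, Matrix.fromBlocks_multiply] at h
    have h12 := (Matrix.fromBlocks_inj.mp h).2.1
    simp only [Matrix.one_mul, Matrix.mul_one, Matrix.mul_zero, Matrix.zero_mul, zero_add, add_zero,
      Matrix.mul_sub, Matrix.add_mul] at h12
    -- `S (1 - E_ba) = (1 + E_ab) S`
    have h13 : Matrix.single a b (1 : F) * S = -(S * Matrix.single b a 1) := by
      have h14 : S + -(S * Matrix.single b a (1 : F)) = S + Matrix.single a b (1 : F) * S := by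
        rw [← sub_eq_add_neg, h12]
      exact (add_left_cancel h14).symm
    have h15 : Matrix.single a b (1 : F) * S * Matrix.single b a 1 = 0 := by
      rw [h13, Matrix.neg_mul, Matrix.mul_assoc, Matrix.single_mul_single_of_ne _ _ _ _ hab.ne,
        Matrix.mul_zero, neg_zero]
    rw [h15, h13]
    simp
  have hrow : ∀ a b : Fin m, a < b → ∀ j, j ≠ a → S b j = 0 := by
    intro a b hab j hj
    have h := hA a b hab a j
    rw [Matrix.single_mul_apply_same, one_mul, Matrix.mul_single_apply_of_ne _ _ _ _ _ hj,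
      Matrix.mul_single_apply_of_ne _ _ _ _ _ hj] at h
    simpa using h
  refine ⟨S, hsym.symm ▸ rfl, hshape, fun i j h => ?_, fun h2 i j hi => ?_⟩
  · rcases h with h | ⟨h, h'⟩
    · by_cases hj : (j : ℕ) = 0
      · exact hrow ⟨1, by omega⟩ i (show (1 : ℕ) < (i : ℕ) by omega) j (fun e => by simp [e] at hj)
      · exact hrow ⟨0, by omega⟩ i (show (0 : ℕ) < (i : ℕ) by omega) j (fun e => by simp [e] at hj)
    · exact hrow ⟨0, by omega⟩ i (show (0 : ℕ) < (i : ℕ) by omega) j (fun e => by simp [e] at h')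
  · have hab : (⟨0, by omega⟩ : Fin m) < i := show (0 : ℕ) < (i : ℕ) by omega
    by_cases hj : (j : ℕ) = 0
    · have h := hA _ i hab ⟨0, by omega⟩ ⟨0, by omega⟩
      rw [Matrix.single_mul_apply_same, one_mul, Matrix.mul_single_apply_same, mul_one,
        Matrix.mul_single_apply_same, mul_one, Matrix.single_mul_apply_same, one_mul] at h
      have hii : S i i = 0 := hrow _ i hab i (fun e => hab.ne e.symm)
      have hs2 : S ⟨0, by omega⟩ i = S i ⟨0, by omega⟩ := by
        conv_lhs => rw [← hsym]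
        rfl
      rw [hii, hs2, sub_zero] at h
      rw [show j = (⟨0, by omega⟩ : Fin m) from Fin.ext hj]
      have : (2 : F) * S i ⟨0, by omega⟩ = 0 := by linear_combination h
      exact (mul_eq_zero.mp this).resolve_left h2
    · exact hrow _ i hab j (fun e => by simp [e] at hj)

end Cfsg.Agent.H2.AutPSp
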